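/-
S4371 project: elementary consequences of the amalgam configuration `AM`.
-/
import Cfsg.Agent.Lib.OD.Defs
import Cfsg.Agent.Lib.AG.BSW

set_option autoImplicit false

namespace Cfsg.Agent.Lib.OD

open Subgroup Cfsg.Agent.Lib.Core Cfsg.Agent.Lib.AG

variable {G : Type*} [Group G]

theorem comm_exp2 {V : Subgroup G} (h : ∀ x ∈ V, x * x = 1) {a b : G} (ha : a ∈ V) (hb : b ∈ V) :
    a * b = b * a := by
  rw [← inv_eq_of_mul_eq_one_right (h _ (mul_mem ha hb)), mul_inv_rev,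
    inv_eq_of_mul_eq_one_right (h a ha), inv_eq_of_mul_eq_one_right (h b hb)]

theorem comm_of_sq {D : Subgroup G} (h : ∀ y ∈ D, y * y = 1) {a b : G} (ha : a ∈ D) (hb : b ∈ D) :
    a * b = b * a := comm_exp2 h ha hb

theorem C4.pC (h : C4 G) {t : G} (tt : t * t = 1) (t1 : t ≠ 1) :
    IsPGroup 2 (centralizer ({t} : Set G)) :=
  isPGroup_of_forall_pow fun x hx => ⟨2, h t x tt t1 (mem_C.1 hx)⟩

theorem cj_comm {g a b : G} (h : a * b = b * a) :
    g * a * g⁻¹ * (g * b * g⁻¹) = g * b * g⁻¹ * (g * a * g⁻¹) := by rw [conj_mul, conj_mul, h]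

variable [Finite G] {S V W : Subgroup G} {q : ℕ}

namespace AM

variable (h : AM S V W q)
include h

theorem VS : V ≤ S := h.sup ▸ le_sup_left
theorem WS : W ≤ S := h.sup ▸ le_sup_right
theorem commV {a b : G} (ha : a ∈ V) (hb : b ∈ V) : a * b = b * a := comm_exp2 h.sqV ha hb
theorem invV {a : G} (ha : a ∈ V) : a⁻¹ = a := inv_eq_of_mul_eq_one_right (h.sqV a ha)
theorem cV {s a : G} (hs : s ∈ S) (ha : a ∈ V) : s * a * s⁻¹ ∈ V :=
  conj_mem_of_mem_normalizer (h.nV hs) ha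

theorem memS {x : G} (hx : x ∈ S) : ∃ a ∈ V, ∃ b ∈ W, a * b = x :=
  (mem_sup_of_le_normalizer_left (h.WS.trans h.nV)).1 (h.sup ▸ hx)

theorem Zc {x s : G} (hV : x ∈ V) (hW : x ∈ W) (hs : s ∈ S) : x * s = s * x := by
  obtain ⟨a, ha, b, hb, rfl⟩ := h.memS hs
  rw [← mul_assoc, h.commV hV ha, mul_assoc, h.symm.commV hW hb, mul_assoc]

theorem centZ {x g : G} (hV : x ∈ V) (hW : x ∈ W) (x1 : x ≠ 1) (e : x * g = g * x) : g ∈ S :=
  (h.syl.eq_of_le (h.c4.pC (h.sqV x hV) x1) (fun _ hs => mem_C.2 (h.Zc hV hW hs)) le_top).le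
    (mem_C.2 e)

theorem invS {x : G} (hx : x ∈ S) (e : x * x = 1) : x ∈ V ∨ x ∈ W := by
  obtain ⟨a, ha, b, hb, rfl⟩ := h.memS hx
  have : a * b = b * a := by
    rw [← inv_eq_of_mul_eq_one_right e, mul_inv_rev, h.invV ha, h.symm.invV hb]
  exact (h.cent a ha b hb this).symm.imp (mul_mem ha) fun e => mul_mem e hb

theorem sq_mem {a b : G} (ha : a ∈ V) (hb : b ∈ W) : a * b * (a * b) ∈ V := by
  have := mul_mem ha (h.cV (h.WS hb) ha)
  rwa [h.symm.invV hb, ← mul_assoc, ← mul_assoc, mul_assoc (a * b)] at this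

theorem sq_mem' {a b : G} (ha : a ∈ V) (hb : b ∈ W) : a * b * (a * b) ∈ W := by
  have := mul_mem (h.symm.cV (h.VS ha) hb) hb
  rwa [h.invV ha, mul_assoc] at this

theorem exb : ∃ b ∈ W, b ∉ V := by
  by_contra! e
  have h1 := h.cardZ
  have h2 := h.two
  rw [inf_eq_right.2 e, h.cardW] at h1
  nlinarith

theorem exz : ∃ z ∈ V, z ∈ W ∧ z ≠ 1 := by
  have : Nontrivial ↥(V ⊓ W) := Finite.one_lt_card_iff_nontrivial.1 (h.cardZ ▸ h.two)
  obtain ⟨z, hz⟩ := exists_ne (1 : ↥(V ⊓ W))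
  exact ⟨z, z.2.1, z.2.2, fun e => hz (Subtype.ext e)⟩

theorem ti0 {g x : G} (hV : x ∈ V) (hW : x ∈ W) (x1 : x ≠ 1) (h1 : g * x * g⁻¹ ∈ V)
    (h2 : g * x * g⁻¹ ∈ W) : g ∈ normalizer (S : Set G) :=
  mem_normalizer_of_conj_mem fun _ hs =>
    h.centZ h1 h2 (by simpa using x1) (cj_comm (h.Zc hV hW hs))

theorem ti {g x : G} (hg : g ∈ normalizer (V : Set G)) (hV : x ∈ V) (hW : x ∈ W) (x1 : x ≠ 1)
    (h2 : g * x * g⁻¹ ∈ W) : g ∈ normalizer (S : Set G) :=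
  h.ti0 hV hW x1 (conj_mem_of_mem_normalizer hg hV) h2

theorem centV {a b : G} (ha : a ∈ V) (hb : b ∈ S) (bV : b ∉ V) (e : a * b = b * a) : a ∈ W := by
  obtain ⟨c, hc, d, hd, rfl⟩ := h.memS hb
  refine (h.cent a ha d hd ?_).resolve_right fun e => bV (mul_mem hc e)
  rw [← mul_assoc, h.commV ha hc, mul_assoc, mul_assoc] at e
  exact mul_left_cancel e

theorem ti' {g b : G} (hg : g ∈ normalizer (V : Set G)) (hb : b ∈ S) (bV : b ∉ V)
    (e : g * b * g⁻¹ ∈ S) : g ∈ normalizer (S : Set G) := by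
  obtain ⟨z, zV, zW, z1⟩ := h.exz
  exact h.ti hg zV zW z1 (h.centV (conj_mem_of_mem_normalizer hg zV) e
    (fun e => bV ((mem_normalizer_iff.1 hg b).2 e)) (cj_comm (h.Zc zV zW hb)))

theorem centX {g b : G} (hg : g ∈ normalizer (V : Set G)) (hb : b ∈ W) (bV : b ∉ V)
    (e : b * g = g * b) : g ∈ W := by
  have b1 : b ≠ 1 := fun e => bV (e ▸ one_mem _)
  obtain ⟨y, hy, e1⟩ := (h.syl.mono h.nV le_top).exists_conj_le
    ((h.c4.pC (h.sqW b hb) b1).to_inf_left (K := normalizer (V : Set G))) inf_le_right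
  rw [map_conj_le_iff] at e1
  have hy' := h.ti' hy (h.WS hb) bV (e1 b ⟨mem_C.2 rfl, h.nV (h.WS hb)⟩)
  obtain ⟨c, hc, d, hd, rfl⟩ := h.memS ((mem_normalizer_iff.1 hy' g).2 (e1 g ⟨mem_C.2 e, hg⟩))
  refine mul_mem (h.centV hc (h.WS hb) bV ?_) hd
  rw [← mul_assoc, mul_assoc c, ← h.symm.commV hb hd, ← mul_assoc] at e
  exact (mul_right_cancel e).symm

theorem conj_le {n : G} (hn : n ∈ normalizer (S : Set G)) :
    n ∈ normalizer (V : Set G) ∨ ∀ a ∈ V, n * a * n⁻¹ ∈ W := by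
  have h1 : ∀ a ∈ V, n * a * n⁻¹ ∈ V ∨ n * a * n⁻¹ ∈ W := fun a ha =>
    h.invS (conj_mem_of_mem_normalizer hn (h.VS ha)) (by rw [conj_mul, h.sqV a ha]; simp)
  by_contra! e
  obtain ⟨e1, a, ha, e2⟩ := e
  refine e1 (mem_normalizer_of_conj_mem fun c hc => by_contra fun e3 => ?_)
  have h2 := (h1 a ha).resolve_right e2
  have h3 := (h1 c hc).resolve_left e3
  rcases h1 _ (mul_mem ha hc) with e | e <;> rw [← conj_mul] at e
  · exact e3 ((mul_mem_cancel_left h2).1 e)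
  · exact e2 ((mul_mem_cancel_right h3).1 e)

theorem NSV : normalizer (S : Set G) ≤ normalizer (V : Set G) := fun n hn => by
  refine (h.conj_le hn).elim id fun h1 => ?_
  have h2 : ∀ b ∈ W, n * b * n⁻¹ ∈ V := by
    refine (h.symm.conj_le hn).resolve_left fun e => ?_
    have h3 : V ≤ W := fun a ha => (mem_normalizer_iff.1 e a).2 (h1 a ha)
    have h4 := h.cardZ
    have h5 := h.two
    rw [inf_eq_left.2 h3, h.cardV] at h4
    nlinarith
  have h3 : n ^ 2 ∈ normalizer (V : Set G) := mem_normalizer_of_conj_mem fun a ha => by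
    simpa [pow_two, mul_assoc] using h2 _ (h1 a ha)
  have : (S.subgroupOf (normalizer (S : Set G))).Normal := normal_in_normalizer
  have h4 : n ^ S.relIndex (normalizer (S : Set G)) ∈ normalizer (V : Set G) :=
    h.nV (pow_index_mem (H := S.subgroupOf (normalizer (S : Set G))) ⟨n, hn⟩)
  obtain ⟨m, hm⟩ := Nat.odd_iff.2 (Nat.two_dvd_ne_zero.1 (h.syl.mono le_normalizer le_top).not_dvd)
  rwa [hm, pow_succ, pow_mul, mul_mem_cancel_left (pow_mem h3 m)] at h4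

theorem NSW : normalizer (S : Set G) ≤ normalizer (W : Set G) := h.symm.NSV

theorem odd_mul {g b c : G} (hg : g ∈ normalizer (V : Set G)) (gS : g ∉ normalizer (S : Set G))
    (hb : b ∈ W) (bV : b ∉ V) (hc : c ∈ W) (cV : c ∉ V) : Odd (orderOf (b * (g * c * g⁻¹))) := by
  refine Nat.not_even_iff_odd.1 fun e => ?_
  obtain ⟨h1, h2, h3⟩ := Invol.half_pow_central (h.sqW b hb)
    (by rw [conj_mul, h.sqW c hc]; simp) e
  have h4 := pow_mem (mul_mem (h.nV (h.WS hb)) (mul_mem (mul_mem hg (h.nV (h.WS hc))) (inv_mem hg)))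
    (orderOf (b * (g * c * g⁻¹)) / 2)
  generalize (b * (g * c * g⁻¹)) ^ _ = e at h1 h2 h3 h4
  have h5 := h.centX h4 hb bV h2.symm.eq
  have h6 : g⁻¹ * e * g⁻¹⁻¹ ∈ W := h.centX (mul_mem (mul_mem (inv_mem hg) h4) (inv_mem (inv_mem hg)))
    hc cV (by simpa [mul_assoc] using cj_comm (g := g⁻¹) h3.symm.eq)
  refine gS (inv_mem_iff.1 ?_)
  by_cases eV : e ∈ V
  · exact h.ti (inv_mem hg) eV h5 (Invol.ne_one_of_orderOf_two h1) h6
  · exact h.ti' (inv_mem hg) (h.WS h5) eV (h.WS h6)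

theorem exg : ∃ g ∈ normalizer (V : Set G), g ∉ normalizer (S : Set G) :=
  SetLike.not_le_iff_exists.1 h.exV

theorem trans {b c : G} (hb : b ∈ W) (bV : b ∉ V) (hc : c ∈ W) (cV : c ∉ V) :
    ∃ n ∈ normalizer (S : Set G), n * b * n⁻¹ = c := by
  obtain ⟨g, hg, gS⟩ := h.exg
  obtain ⟨k, e⟩ := Invol.exists_pow_conj_of_odd (h.sqW b hb) (by rw [conj_mul, h.sqW c hc]; simp)
    (h.odd_mul hg gS hb bV hc cV)
  have h4 := pow_mem (mul_mem (h.nV (h.WS hb)) (mul_mem (mul_mem hg (h.nV (h.WS hc))) (inv_mem hg))) k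
  generalize (b * (g * c * g⁻¹)) ^ k = d at e h4
  have e1 : g⁻¹ * d * b * (g⁻¹ * d)⁻¹ = c := by
    rw [show g⁻¹ * d * b * (g⁻¹ * d)⁻¹ = g⁻¹ * (d * b * d⁻¹) * g by group, e]; group
  exact ⟨_, h.ti' (mul_mem (inv_mem hg) h4) (h.WS hb) bV (e1 ▸ h.WS hc), e1⟩

theorem memV {g a : G} (hg : g ∈ normalizer (V : Set G)) (gS : g ∉ normalizer (S : Set G))
    (ha : a ∈ V) : ∃ x ∈ V ⊓ W, ∃ y ∈ V ⊓ W, a = x * (g * y * g⁻¹) := by
  have h1 : (V ⊓ W).map (MulAut.conj g).toMonoidHom ≤ V :=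
    map_conj_le_iff.2 fun x hx => conj_mem_of_mem_normalizer hg hx.1
  have hn : (V ⊓ W).map (MulAut.conj g).toMonoidHom ≤ normalizer ((V ⊓ W : Subgroup G) : Set G) :=
    le_normalizer_inf (h1.trans le_normalizer) (h1.trans (h.VS.trans h.nW))
  have h2 := card_sup_mul_card_inf hn
  have h3 : (V ⊓ W).map (MulAut.conj g).toMonoidHom ⊓ (V ⊓ W) = ⊥ := eq_bot_iff.2 (by
    rintro _ ⟨⟨x, hx, rfl⟩, e⟩
    by_cases x1 : x = 1
    · simp [x1]
    · exact absurd (h.ti hg hx.1 hx.2 x1 e.2) gS)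
  rw [h3, card_bot, mul_one, card_map_conj, h.cardZ, sup_comm] at h2
  rw [← eq_of_le_of_card_ge (sup_le inf_le_left h1) (by rw [h2, h.cardV, pow_two])] at ha
  obtain ⟨x, hx, _, ⟨y, hy, rfl⟩, e⟩ := (mem_sup_of_le_normalizer_left hn).1 ha
  exact ⟨x, hx, y, hy, e.symm⟩

theorem surj {a y : G} (ha : a ∈ V) (aW : a ∉ W) (hV : y ∈ V) (hW : y ∈ W) :
    ∃ b ∈ W, b * a * b⁻¹ = y * a := by
  obtain ⟨g, hg, gS⟩ := h.symm.exg
  have m : ∀ x : ↥(V ⊓ W), g * x * g⁻¹ ∈ W := fun x => conj_mem_of_mem_normalizer hg x.2.2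
  let f : ↥(V ⊓ W) → ↥(V ⊓ W) := fun x => ⟨_, h.sq_mem ha (m x), h.sq_mem' ha (m x)⟩
  have hf : Function.Injective f := fun x x' e => by
    have e1 : a * (g * x * g⁻¹) * (a * (g * x * g⁻¹)) = a * (g * x' * g⁻¹) * (a * (g * x' * g⁻¹)) :=
      congrArg Subtype.val e
    have h1 := h.symm.invV (m x)
    have h2 := h.symm.invV (m x')
    have h3 : g * ((x' : G)⁻¹ * x) * g⁻¹ ∈ V := by
      rw [← conj_mul, ← conj_inv]
      refine (h.cent a ha _ (mul_mem (inv_mem (m x')) (m x)) ?_).resolve_left aW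
      generalize g * x * g⁻¹ = b at e1 h1
      generalize g * x' * g⁻¹ = c at e1 h2
      have e2 : b * a * b = c * a * c := by simpa [mul_assoc] using e1
      calc a * (c⁻¹ * b) = c⁻¹ * (c * a * c) * (c⁻¹ * c⁻¹ * b) := by group
        _ = c⁻¹ * b * a * (b * (c⁻¹ * c⁻¹) * b) := by rw [← e2]; group
        _ = _ := by
          rw [show c⁻¹ * c⁻¹ = 1 by nth_rewrite 1 [h2]; exact mul_inv_cancel c, mul_one,
            show b * b = 1 by nth_rewrite 1 [← h1]; exact inv_mul_cancel b, mul_one]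
    have h4 := mul_mem (inv_mem x'.2) x.2
    by_contra ne
    exact gS (h.symm.ti hg h4.2 h4.1 (fun e => ne (Subtype.ext (inv_mul_eq_one.1 e).symm)) h3)
  obtain ⟨x, e⟩ := Finite.surjective_of_injective hf ⟨y, hV, hW⟩
  have e1 : a * (g * x * g⁻¹) * (a * (g * x * g⁻¹)) = y := congrArg Subtype.val e
  refine ⟨_, m x, ?_⟩
  rw [h.symm.invV (m x), h.commV hV ha, ← e1]
  generalize g * x * g⁻¹ = b
  rw [← mul_assoc, ← mul_assoc a, h.sqV a ha, one_mul, ← mul_assoc]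

theorem cell {u g : G} (hu : u ∈ normalizer (V : Set G)) (uS : u ∉ normalizer (S : Set G))
    (hg : g ∈ normalizer (V : Set G)) (gS : g ∉ normalizer (S : Set G)) :
    ∃ b ∈ W, ∃ n ∈ normalizer (S : Set G), g = b * u * n := by
  obtain ⟨z, zV, zW, z1⟩ := h.exz
  obtain ⟨x, hx, y, hy, e⟩ := h.memV hu uS (conj_mem_of_mem_normalizer hg zV)
  have y1 : y ≠ 1 := fun e1 => gS (h.ti hg zV zW z1 (by simpa [e, e1] using hx.2))
  obtain ⟨b, hb, e1⟩ := h.surj (conj_mem_of_mem_normalizer hu hy.1)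
    (fun e => uS (h.ti hu hy.1 hy.2 y1 e)) hx.1 hx.2
  refine ⟨b, hb, u⁻¹ * b⁻¹ * g, h.ti (mul_mem (mul_mem (inv_mem hu) (inv_mem (h.nV (h.WS hb)))) hg)
    zV zW z1 ?_, by group⟩
  rw [show u⁻¹ * b⁻¹ * g * z * (u⁻¹ * b⁻¹ * g)⁻¹ = u⁻¹ * b⁻¹ * (g * z * g⁻¹) * b * u by group, e, ← e1]
  simpa [mul_assoc] using hy.2

end AM

end Cfsg.Agent.Lib.OD
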