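/-
S4371 project: Cartan subgroup and Weyl involutions for the amalgam configuration.
-/
import Cfsg.Agent.Lib.OD.Ad0

set_option autoImplicit false

namespace Cfsg.Agent.Lib.OD

open Subgroup Cfsg.Agent.Lib.Core Cfsg.Agent.Lib.AG

theorem cj_inv {G : Type*} [Group G] {u k : G} (uu : u * u = 1) (uk : u * k * u = k⁻¹) (x : G) :
    k * (u * x * u) * k⁻¹ = u * (k⁻¹ * x * k) * u := by
  have e : k * u = u * k⁻¹ := by rw [← uk, ← mul_assoc, ← mul_assoc, uu, one_mul]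
  calc k * (u * x * u) * k⁻¹ = k * u * x * (u * k⁻¹) := by group
    _ = u * k⁻¹ * x * (k * u) := by rw [e]
    _ = _ := by group

variable {G : Type*} [Group G] [Finite G] {S V W : Subgroup G} {q : ℕ}

namespace AM

variable (h : AM S V W q)
include h

theorem four {s : G} (hs : s ∈ S) : s ^ 4 = 1 := by
  obtain ⟨z, zV, zW, z1⟩ := h.exz
  exact h.c4 z s (h.sqV z zV) z1 (h.Zc zV zW hs)

theorem memS_of {n : G} (hn : n ∈ normalizer (S : Set G)) (e : n ^ 4 = 1) : n ∈ S :=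
  h.syl.le_of_le_normalizer' (isPGroup_zpowers (k := 2) e) le_top (zpowers_le.2 hn) (mem_zpowers n)

theorem exK : ∃ (K : Subgroup G) (u : G), K ⊓ S = ⊥ ∧ K ⊔ S = normalizer (S : Set G) ∧
    ¬ 2 ∣ Nat.card K ∧ u * u = 1 ∧ u ∈ normalizer (V : Set G) ∧ u ∉ normalizer (S : Set G) ∧
    ∀ k ∈ K, u * k * u = k⁻¹ := by
  obtain ⟨g, hg, gS⟩ := h.exg
  obtain ⟨b, hb, bV⟩ := h.exb
  obtain ⟨u, uu, hu, uS⟩ : ∃ u : G, u * u = 1 ∧ u ∈ normalizer (V : Set G) ∧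
      u ∉ normalizer (S : Set G) :=
    ⟨g * b * g⁻¹, by rw [conj_mul, h.sqW b hb]; simp,
      mul_mem (mul_mem hg (h.nV (h.WS hb))) (inv_mem hg), fun e => gS (h.ti' hg (h.WS hb) bV
        (h.memS_of e (by rw [conj_pow, h.four (h.WS hb)]; simp)))⟩
  have ui : u⁻¹ = u := inv_eq_of_mul_eq_one_right uu
  let D := normalizer (S : Set G) ⊓ (normalizer (S : Set G)).comap (MulAut.conj u).toMonoidHom
  have mD : ∀ {d}, d ∈ D ↔ d ∈ normalizer (S : Set G) ∧ u * d * u⁻¹ ∈ normalizer (S : Set G) :=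
    Iff.rfl
  have VD : V ≤ D := fun a ha =>
    mD.2 ⟨le_normalizer (h.VS ha), le_normalizer (h.VS (conj_mem_of_mem_normalizer hu ha))⟩
  have DV : D ≤ normalizer (V : Set G) := inf_le_left.trans h.NSV
  have DS : ∀ d ∈ D, d ∈ S → d ∈ V := fun d hd hs => by_contra fun e =>
    uS (h.ti' hu hs e (h.memS_of hd.2 (by rw [conj_pow, h.four hs]; simp)))
  have pV : IsPGroup 2 V := h.syl.isPGroup.to_le h.VS
  have hV : IsSyl 2 V D := isSyl_of_maximal VD pV fun Q hQ h1 h2 => le_antisymm (fun x hx =>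
    DS x (h2 hx) (h.syl.le_of_le_normalizer' hQ le_top (h2.trans inf_le_left) hx)) h1
  obtain ⟨K, KD, h1, h2, h3⟩ := exists_complement VD DV (by
    obtain ⟨i, hi⟩ := pV.exists_card_eq
    exact hi ▸ (Nat.prime_two.coprime_iff_not_dvd.2 hV.not_dvd).pow_left _)
  have oK : ¬ 2 ∣ Nat.card K := h3 ▸ hV.not_dvd
  have h4 : K ⊓ S = ⊥ := eq_bot_iff.2 fun x hx => h1.le ⟨hx.1, DS x (KD hx.1) hx.2⟩
  have h5 : K ⊔ S = normalizer (S : Set G) := by
    refine le_antisymm (sup_le (KD.trans inf_le_left) le_normalizer) fun n hn => ?_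
    obtain ⟨c, hc, m, hm, e⟩ := h.cell hu uS (mul_mem (h.NSV hn) hu)
      fun e => uS ((mul_mem_cancel_left hn).1 e)
    have : c⁻¹ * n ∈ D := mD.2 ⟨mul_mem (inv_mem (le_normalizer (h.WS hc))) hn, by
      rw [show u * (c⁻¹ * n) * u⁻¹ = u * c⁻¹ * (n * u) * (u * u)⁻¹ by group, e, uu]
      simpa [mul_assoc, ← mul_assoc u u, uu] using hm⟩
    rw [← h2] at this
    exact (mul_mem_cancel_left (inv_mem (mem_sup_right (h.WS hc)))).1
      (sup_le_sup_left h.VS K this)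
  by_cases hK : K = ⊥
  · exact ⟨K, u, h4, h5, oK, uu, hu, uS, by simp [hK, uu]⟩
  have h6 : K.map (MulAut.conj u).toMonoidHom ≤ D := map_conj_le_iff.2 fun k hk =>
    mD.2 ⟨(KD hk).2, by simpa [mul_assoc, ui, ← mul_assoc u u, uu] using (KD hk).1⟩
  obtain ⟨a, ha, h7⟩ := exists_conj_le_of_coprime (KD.trans DV) (h6.trans h2.ge) h1
    (coprimeAct_of_isPGroup_right (by rwa [card_map_conj]) pV (h6.trans DV))
  rw [map_conj_map_conj, map_conj_le_iff] at h7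
  have odd : ∀ k ∈ K, Odd (orderOf k) := fun k hk =>
    Nat.not_even_iff_odd.1 fun e => oK (e.two_dvd.trans (K.orderOf_dvd_natCard hk))
  have h8 : a * u * (a * u) ∈ V := by
    have := mul_mem ha (conj_mem_of_mem_normalizer hu ha)
    rwa [ui, ← mul_assoc, ← mul_assoc, mul_assoc (a * u)] at this
  have h9 : a * u * (a * u) = 1 := by
    obtain ⟨⟨k, hk⟩, k1⟩ := ne_bot_iff_exists_ne_one.1 hK
    refine by_contra fun e => k1 (Subtype.ext (h.c4.odd (h.sqV _ h8) e ?_ (odd k hk)))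
    have e1 := mul_mem (h7 _ (h7 k hk)) (inv_mem hk)
    generalize a * u = c at h8 e1
    have e2 := mul_mem h8 (conj_mem_of_mem_normalizer (DV (KD hk)) (inv_mem h8))
    rw [show c * (c * k * c⁻¹) * c⁻¹ * k⁻¹ = c * c * (k * (c * c)⁻¹ * k⁻¹) by group] at e1
    have e3 := mem_bot.1 (h1.le ⟨e1, e2⟩)
    calc c * c * k = c * c * (k * (c * c)⁻¹ * k⁻¹) * (k * (c * c)) := by group
      _ = _ := by rw [e3, one_mul]
  have au : a * u ∉ normalizer (S : Set G) := fun e =>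
    uS ((mul_mem_cancel_left (le_normalizer (h.VS ha))).1 e)
  refine ⟨K, a * u, h4, h5, oK, h9, mul_mem (le_normalizer ha) hu, au, fun k hk =>
    inv_of_fpf h9 (fun k hk => ?_) (fun k hk e => h.c4.odd h9 (fun e => au (e ▸ one_mem _))
      e.symm (odd k hk)) hk⟩
  have := h7 k hk
  rwa [inv_eq_of_mul_eq_one_right h9] at this

theorem exK2 : ∃ (K : Subgroup G) (u v : G), K ⊔ S = normalizer (S : Set G) ∧
    ¬ 2 ∣ Nat.card K ∧ u * u = 1 ∧ u ∈ normalizer (V : Set G) ∧ u ∉ normalizer (S : Set G) ∧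
    (∀ k ∈ K, u * k * u = k⁻¹) ∧ v * v = 1 ∧ v ∈ normalizer (W : Set G) ∧
    v ∉ normalizer (S : Set G) ∧ ∀ k ∈ K, v * k * v = k⁻¹ := by
  obtain ⟨K, u, h1, h2, h3, hu⟩ := h.exK
  obtain ⟨L, v, h4, h5, h6, vv, vW, vS, hv⟩ := h.symm.exK
  obtain ⟨s, hs, e⟩ := exists_conj_le_of_coprime (le_sup_left.trans h5.le)
    (le_sup_left.trans (h2.trans h5.symm).le) h4
    (coprimeAct_of_isPGroup_right h3 h.syl.isPGroup (le_sup_left.trans h2.le))
  rw [map_conj_le_iff] at e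
  have sN := le_normalizer hs
  refine ⟨K, u, s⁻¹ * v * s, h2, h3, hu.1, hu.2.1, hu.2.2.1, hu.2.2.2, by simp [mul_assoc, ← mul_assoc v v, vv],
    mul_mem (mul_mem (inv_mem (h.nW hs)) vW) (h.nW hs),
    fun e => vS ((mul_mem_cancel_left (inv_mem sN)).1 ((mul_mem_cancel_right sN).1 e)), fun k hk => ?_⟩
  calc s⁻¹ * v * s * k * (s⁻¹ * v * s) = s⁻¹ * (v * (s * k * s⁻¹) * v) * s := by group
    _ = _ := by rw [hv _ (e k hk)]; group

theorem exy {u v : G} (uu : u * u = 1) (hu : u ∈ normalizer (V : Set G))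
    (uS : u ∉ normalizer (S : Set G)) (vv : v * v = 1) (hv : v ∈ normalizer (W : Set G))
    (vS : v ∉ normalizer (S : Set G)) : ∃ y ∈ V ⊓ W, ∀ x ∈ V ⊓ W,
      u * x * u * (v * y * v) * (u * x * u * (v * y * v)) = x := by
  have ui : u⁻¹ = u := inv_eq_of_mul_eq_one_right uu
  obtain ⟨z, zV, zW, z1⟩ := h.exz
  have cu : ∀ x ∈ V, u * x * u ∈ V := fun x hx => ui ▸ (ui.symm ▸ conj_mem_of_mem_normalizer hu hx)
  obtain ⟨b, hb, e⟩ := h.surj (cu z zV) (fun e => uS (h.ti hu zV zW z1 (by rwa [ui]))) zV zW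
  have h1 : (b * u)⁻¹ * u * (b * u) ∈ S := h.centZ zV zW z1 (by
    have e1 : u * (z * (u * z * u)) = z * (u * z * u) * u := by
      rw [h.commV zV (cu z zV), ← h.commV zV (cu z zV), h.commV zV (cu z zV)]
      nth_rewrite 1 [← h.commV zV (cu z zV)]
      simp only [mul_assoc]
    rw [← e] at e1
    calc z * ((b * u)⁻¹ * u * (b * u)) = (b * u)⁻¹ * (b * (u * z * u⁻¹) * b⁻¹ * u) * (b * u) := by group
      _ = (b * u)⁻¹ * (u * (b * (u * z * u⁻¹) * b⁻¹)) * (b * u) := by rw [ui, e1]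
      _ = _ := by group)
  obtain ⟨x1, hx1, y, hy, rfl⟩ := h.symm.memV hv vS hb
  rw [inv_eq_of_mul_eq_one_right vv] at h1 hb
  refine ⟨y, inf_comm W V ▸ hy, fun x hx => ?_⟩
  have hb' : v * y * v ∈ W := (mul_mem_cancel_left (mem_inf.1 hx1).1).1 hb
  have h2 := h.Zc hx.1 hx.2 h1
  have c1 := h.sq_mem (cu x hx.1) hb'
  have c2 := h.sq_mem' (cu x hx.1) hb'
  have c3 : x1 * (v * y * v) * (u * x * u) * (x1 * (v * y * v))⁻¹ =
      u * x * u * (u * x * u * (v * y * v) * (u * x * u * (v * y * v))) := by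
    have e1 := h.Zc hx1.2 hx1.1 (h.VS (h.cV (h.WS hb') (cu x hx.1)))
    have e2 := h.sqV _ (cu x hx.1)
    have e3 := h.symm.invV hb'
    generalize u * x * u = a at e1 e2
    generalize v * y * v = b at e1 e3
    calc x1 * b * a * (x1 * b)⁻¹ = x1 * (b * a * b⁻¹) * x1⁻¹ := by group
      _ = a * a * (b * a * b⁻¹) := by rw [e1, e2]; group
      _ = _ := by rw [e3]; group
  generalize u * x * u * (v * y * v) * (u * x * u * (v * y * v)) = c at c1 c2 c3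
  generalize x1 * (v * y * v) = b at h2 c3
  have h3 : u * x * u * c * u = u * (u * x * u * c) := by
    rw [← c3]
    calc b * (u * x * u) * b⁻¹ * u = b * u * (x * ((b * u)⁻¹ * u * (b * u))) * (b * u)⁻¹ := by
          rw [mul_inv_rev, ui]; simp [mul_assoc, ← mul_assoc u u, uu]
      _ = _ := by rw [h2, mul_inv_rev, ui]; simp [mul_assoc, ← mul_assoc u u, uu]
  have h4 : u * (x⁻¹ * c) * u⁻¹ = x⁻¹ * c := by
    have e1 := h.commV (cu x hx.1) (inv_mem hx.1)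
    calc u * (x⁻¹ * c) * u⁻¹
        = (u * x * u)⁻¹ * (u * u) * x⁻¹ * (u * u)⁻¹ * (u * (u * x * u * c)) * u⁻¹ * (u * u)⁻¹ * (u * u) := by
          rw [uu, ui]; simp [mul_assoc, ← mul_assoc u u, uu, ui]
      _ = (u * x * u)⁻¹ * (x⁻¹ * (u * x * u)) * c := by rw [← h3, uu]; group
      _ = _ := by rw [← e1]; group
  by_contra ne
  exact uS (h.ti hu (mul_mem (inv_mem hx.1) c1) (mul_mem (inv_mem hx.2) c2)
    (fun e => ne (inv_mul_eq_one.1 e).symm) (h4.symm ▸ mul_mem (inv_mem hx.2) c2))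

theorem cell' {u g : G} (uu : u * u = 1) (uV : u ∈ normalizer (V : Set G))
    (uS : u ∉ normalizer (S : Set G)) (hg : g ∈ normalizer (V : Set G))
    (gS : g ∉ normalizer (S : Set G)) : ∃ n ∈ normalizer (S : Set G), ∃ b ∈ W, g = n * u * b := by
  obtain ⟨b, hb, n, hn, e⟩ := h.cell uV uS (inv_mem hg) (by rwa [inv_mem_iff])
  exact ⟨n⁻¹, inv_mem hn, b⁻¹, inv_mem hb, by
    rw [← inv_inj, e, mul_inv_rev, mul_inv_rev, inv_eq_of_mul_eq_one_right uu]; group⟩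

theorem conjV {z a : G} (cZ : ∀ x ∈ V, x ∈ W → x ≠ 1 → IsConj z x) (ha : a ∈ V) (a1 : a ≠ 1) :
    IsConj z a := by
  by_cases aW : a ∈ W
  · exact cZ a ha aW a1
  obtain ⟨g, hg, gS⟩ := h.exg
  obtain ⟨x, hx, y, hy, rfl⟩ := h.memV hg gS ha
  have y1 : y ≠ 1 := fun e => aW (by rw [e, mul_one, mul_inv_cancel, mul_one]; exact hx.2)
  obtain ⟨b, -, e1⟩ := h.surj (conj_mem_of_mem_normalizer hg hy.1)
    (fun e => gS (h.ti hg hy.1 hy.2 y1 e)) hx.1 hx.2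
  exact (cZ y hy.1 hy.2 y1).trans (isConj_iff.2 ⟨b * g, by rw [← e1]; group⟩)

theorem conj_all {z e : G} (cZ : ∀ x ∈ V, x ∈ W → x ≠ 1 → IsConj z x) (ee : e * e = 1)
    (e1 : e ≠ 1) : IsConj z e := by
  obtain ⟨g, -, hg⟩ := h.syl.exists_conj_le (isPGroup_zpowers (k := 1) (by simpa [pow_two] using ee))
    le_top
  have h1 := map_conj_le_iff.1 hg e (mem_zpowers e)
  have h2 : g * e * g⁻¹ ≠ 1 := by simpa using e1
  refine IsConj.trans ?_ (isConj_iff.2 ⟨g, rfl⟩).symm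
  rcases h.invS h1 (by rw [conj_mul, ee]; simp) with e | e
  exacts [h.conjV cZ e h2, h.symm.conjV (fun x a b => cZ x b a) e h2]

end AM

/-- intermediate data -/
structure AK (S V W : Subgroup G) (q : ℕ) (K : Subgroup G) (z u v : G) : Prop extends AM S V W q where
  hK : K ⊔ S = normalizer (S : Set G)
  oK : ¬ 2 ∣ Nat.card K
  uu : u * u = 1
  uV : u ∈ normalizer (V : Set G)
  uS : u ∉ normalizer (S : Set G)
  uk : ∀ k ∈ K, u * k * u = k⁻¹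
  vv : v * v = 1
  vW : v ∈ normalizer (W : Set G)
  vS : v ∉ normalizer (S : Set G)
  vk : ∀ k ∈ K, v * k * v = k⁻¹
  hz : z ∈ V ⊓ W
  z1 : z ≠ 1
  c1 : ∀ x ∈ V ⊓ W, u * x * u * (v * z * v) * (u * x * u * (v * z * v)) = x
  c2 : ∀ y ∈ V ⊓ W, u * z * u * (v * y * v) * (u * z * u * (v * y * v)) = y

theorem AM.ak (h : AM S V W q) : ∃ K z u v, AK S V W q K z u v := by
  obtain ⟨K, u, v, hK, oK, uu, uV, uS, uk, vv, vW, vS, vk⟩ := h.exK2
  have ui : u⁻¹ = u := inv_eq_of_mul_eq_one_right uu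
  have vi : v⁻¹ = v := inv_eq_of_mul_eq_one_right vv
  have cu : ∀ x ∈ V, u * x * u ∈ V := fun x hx => ui ▸ (ui.symm ▸ conj_mem_of_mem_normalizer uV hx)
  have cv : ∀ x ∈ W, v * x * v ∈ W := fun x hx => vi ▸ (vi.symm ▸ conj_mem_of_mem_normalizer vW hx)
  obtain ⟨z, hz, c1⟩ := h.exy uu uV uS vv vW vS
  obtain ⟨z', hz', c2⟩ := h.symm.exy vv vW vS uu uV uS
  replace c2 : ∀ y ∈ V ⊓ W, u * z' * u * (v * y * v) * (u * z' * u * (v * y * v)) = y := fun y hy => by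
    have e := congrArg (·⁻¹) (c2 y (inf_comm V W ▸ hy))
    simpa only [mul_inv_rev, h.invV (cu z' hz'.2), h.symm.invV (cv y hy.2), h.invV hy.1] using e
  obtain rfl : z' = z := (c1 z' (inf_comm W V ▸ hz')).symm.trans (c2 z hz)
  have z1 : z' ≠ 1 := by
    obtain ⟨x, xV, xW, x1⟩ := h.exz
    rintro rfl
    have := c1 x ⟨xV, xW⟩
    rw [mul_one, vv, mul_one, h.sqV _ (cu x xV)] at this
    exact x1 this.symm
  exact ⟨K, z', u, v, h, hK, oK, uu, uV, uS, uk, vv, vW, vS, vk, hz, z1, c1, c2⟩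

namespace AK

variable {K : Subgroup G} {z u v : G} (h : AK S V W q K z u v)
include h

theorem KN : K ≤ normalizer (S : Set G) := le_sup_left.trans h.hK.le

theorem kZ {k x : G} (hk : k ∈ K) (hx : x ∈ V ⊓ W) : k * x * k⁻¹ ∈ V ⊓ W :=
  ⟨conj_mem_of_mem_normalizer (h.NSV (h.KN hk)) hx.1,
    conj_mem_of_mem_normalizer (h.NSW (h.KN hk)) hx.2⟩

theorem fpf {k x : G} (hk : k ∈ K) (hx : x ∈ V) (e : k * x * k⁻¹ = x) (k1 : k ≠ 1) : x = 1 :=
  by_contra fun x1 => k1 (h.c4.odd (h.sqV x hx) x1 (mul_inv_eq_iff_eq_mul.1 e).symm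
    (Nat.not_even_iff_odd.1 fun e => h.oK (e.two_dvd.trans (K.orderOf_dvd_natCard hk))))

theorem k3 {k : G} (hk : k ∈ K) : k ^ 3 = 1 :=
  by_contra fun e => h.z1 (h.fpf (pow_mem hk 3) h.hz.1 (by
    have e1 := congrArg (fun x => k * x * k⁻¹) (h.c1 _ (h.kZ hk h.hz))
    have e2 := h.c2 _ (h.kZ (inv_mem hk) h.hz)
    rw [inv_inv] at e2
    rw [← conj_mul, ← conj_mul, cj_inv h.uu (h.uk k hk), cj_inv h.vv (h.vk k hk),
      show k⁻¹ * (k * z * k⁻¹) * k = z by group, e2] at e1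
    calc k ^ 3 * z * (k ^ 3)⁻¹ = k * (k * (k * z * k⁻¹) * k⁻¹) * k⁻¹ := by simp [pow_succ, mul_assoc]
      _ = _ := by rw [← e1]; group) e)

theorem tr {x : G} (hx : x ∈ V ⊓ W) (x1 : x ≠ 1) : ∃ k ∈ K, x = k⁻¹ * z * k := by
  have vv := h.vv
  have vi : v⁻¹ = v := inv_eq_of_mul_eq_one_right vv
  have cv : ∀ x ∈ W, v * x * v ∈ W := fun x hx => vi ▸ (vi.symm ▸ conj_mem_of_mem_normalizer h.vW hx)
  have vZ : ∀ x ∈ V ⊓ W, v * x * v ∈ V → x = 1 := fun x hx e => by_contra fun x1 =>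
    h.vS (h.symm.ti h.vW hx.2 hx.1 x1 (by rwa [vi]))
  obtain ⟨n, hn, e⟩ := h.trans (cv _ h.hz.2) (fun e => h.z1 (vZ _ h.hz e)) (cv _ hx.2)
    fun e => x1 (vZ _ hx e)
  obtain ⟨k, hk, s, hs, rfl⟩ := (mem_sup_of_le_normalizer_right h.KN).1 (h.hK.ge hn)
  obtain ⟨a, ha, b, hb, rfl⟩ := h.memS hs
  refine ⟨k, hk, (inv_mul_eq_one.1 (vZ _ (mul_mem (inv_mem hx)
    (by simpa using h.kZ (inv_mem hk) h.hz)) ?_))⟩
  have e1 := conj_mem_of_mem_normalizer (h.NSV (h.KN hk)) (h.sq_mem ha (cv _ h.hz.2))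
  have e2 := h.symm.commV hb (cv _ h.hz.2)
  have e3 := h.invV ha
  have e4 := h.symm.invV (cv _ h.hz.2)
  rw [show v * (x⁻¹ * (k⁻¹ * z * k)) * v = (v * x * v)⁻¹ * (v * (k⁻¹ * z * k) * v) by
    simp [mul_assoc, vi, ← mul_assoc v v, vv], ← e, ← cj_inv vv (h.vk k hk)]
  generalize v * z * v = c at e1 e2 e4
  rw [show (k * (a * b) * c * (k * (a * b))⁻¹)⁻¹ * (k * c * k⁻¹) =
    k * (a * (b * c * b⁻¹)⁻¹ * (a⁻¹ * c)) * k⁻¹ by group, e2, mul_inv_cancel_right, e3, e4]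
  exact e1

theorem Kc {k l : G} (hk : k ∈ K) (hl : l ∈ K) : k * l = l * k := by
  have e := h.uk _ (mul_mem hk hl)
  rw [show u * (k * l) * u = u * k * (u * u) * l * u by rw [h.uu]; group, ← mul_assoc, mul_assoc _ u l,
    mul_assoc _ (u * l), h.uk k hk, h.uk l hl, ← mul_inv_rev, inv_inj] at e
  exact e.symm

theorem nm {k x : G} (hk : k ∈ K) (k1 : k ≠ 1) (hx : x ∈ V ⊓ W) :
    k * (k * x * k⁻¹) * k⁻¹ = x * (k * x * k⁻¹) := by
  have h1 := h.kZ hk hx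
  have h2 := h.kZ hk h1
  have e := h.fpf hk (mul_mem (mul_mem hx.1 h1.1) h2.1) (by
    rw [← conj_mul, ← conj_mul, show k * (k * (k * x * k⁻¹) * k⁻¹) * k⁻¹ = k ^ 3 * x * (k ^ 3)⁻¹ by
      simp [pow_succ, mul_assoc], h.k3 hk, one_mul, inv_one, mul_one,
      ← h.commV hx.1 (mul_mem h1.1 h2.1), ← mul_assoc x]) k1
  rw [← h.invV (mul_mem hx.1 h1.1), eq_inv_of_mul_eq_one_right e]

theorem three {k l : G} (hk : k ∈ K) (k1 : k ≠ 1) (hl : l ∈ K) : l = 1 ∨ l = k ∨ l = k⁻¹ := by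
  by_contra! e
  have e1 := h.nm (mul_mem hk hl) (fun e' => e.2.2 (eq_inv_of_mul_eq_one_right e')) h.hz
  have h1 := h.kZ hl h.hz
  rw [show k * l * (k * l * z * (k * l)⁻¹) * (k * l)⁻¹ =
      k * (l * k) * (l * z * l⁻¹) * (k * (l * k))⁻¹ by group, ← h.Kc hk hl,
    show k * (k * l) * (l * z * l⁻¹) * (k * (k * l))⁻¹ =
      k * (k * (l * (l * z * l⁻¹) * l⁻¹) * k⁻¹) * k⁻¹ by group, h.nm hl e.1 h.hz,
    h.nm hk k1 (mul_mem h.hz h1), ← conj_mul, mul_assoc, mul_right_inj, ← mul_assoc,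
    show k * l * z * (k * l)⁻¹ = k * (l * z * l⁻¹) * k⁻¹ by group, mul_eq_right] at e1
  refine h.z1 (h.fpf (mul_mem (inv_mem hk) hl) h.hz.1 ?_ fun e' => e.2.1 (inv_mul_eq_one.1 e').symm)
  rw [show k⁻¹ * l * z * (k⁻¹ * l)⁻¹ = k⁻¹ * (l * z * l⁻¹) * k by group,
    eq_inv_of_mul_eq_one_left e1, h.invV (h.kZ hk h.hz).1]
  group

theorem card : Nat.card K + 1 = q := by
  let f : Option K → ↥(V ⊓ W) := fun o => o.elim 1 fun l => ⟨_, h.kZ (inv_mem l.2) h.hz⟩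
  have n1 : ∀ l : K, f (some l) ≠ 1 := fun l e => h.z1 (by
    have e1 : (l : G)⁻¹ * z * (l : G)⁻¹⁻¹ = 1 := congrArg Subtype.val e
    exact conj_eq_one_iff.1 e1)
  rw [← Finite.card_option, ← h.cardZ]
  refine Nat.card_eq_of_bijective f ⟨?_, fun x => ?_⟩
  · rintro (_ | a) (_ | b) e
    · rfl
    · exact absurd e.symm (n1 b)
    · exact absurd e (n1 a)
    · have e1 : (a : G)⁻¹ * z * (a : G)⁻¹⁻¹ = (b : G)⁻¹ * z * (b : G)⁻¹⁻¹ := congrArg Subtype.val e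
      refine congrArg some (Subtype.ext (by_contra fun ne => h.z1 (h.fpf (mul_mem b.2 (inv_mem a.2))
        h.hz.1 ?_ fun e => ne (mul_inv_eq_one.1 e).symm)))
      rw [show (b : G) * (a : G)⁻¹ * z * ((b : G) * (a : G)⁻¹)⁻¹ =
        b * ((a : G)⁻¹ * z * (a : G)⁻¹⁻¹) * (b : G)⁻¹ by group, e1]
      group
  · by_cases x1 : (x : G) = 1
    · exact ⟨none, Subtype.ext x1.symm⟩
    · obtain ⟨l, hl, e⟩ := h.tr x.2 x1
      exact ⟨some ⟨l, hl⟩, Subtype.ext ((by rw [inv_inv]; exact e.symm : l⁻¹ * z * l⁻¹⁻¹ = x))⟩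

end AK

theorem AM.ad (h : AM S V W q) : (q = 2 ∨ q = 4) ∧ ∃ z k u v, AD S V W q z k u v := by
  obtain ⟨K, z, u, v, h⟩ := h.ak
  obtain ⟨k, hk, hk'⟩ : ∃ k ∈ K, ∀ l ∈ K, l = 1 ∨ l = k ∨ l = k⁻¹ := by
    by_cases e : ∃ k ∈ K, k ≠ 1
    · obtain ⟨k, hk, k1⟩ := e
      exact ⟨k, hk, fun l => h.three hk k1⟩
    · exact ⟨1, one_mem _, fun l hl => .inl (by_contra fun l1 => e ⟨l, hl, l1⟩)⟩
  obtain rfl : K = zpowers k := le_antisymm (fun l hl => by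
    rcases hk' l hl with rfl | rfl | rfl
    exacts [one_mem _, mem_zpowers _, inv_mem (mem_zpowers _)]) (zpowers_le.2 hk)
  have ord : orderOf k + 1 = q := Nat.card_zpowers k ▸ h.card
  have h1 : ∀ x ∈ V, x ∈ W → x = 1 ∨ x = z ∨ x = k * z * k⁻¹ ∨ x = k⁻¹ * z * k := fun x hV hW => by
    by_cases x1 : x = 1
    · exact .inl x1
    obtain ⟨l, hl, rfl⟩ := h.tr ⟨hV, hW⟩ x1
    rcases hk' l hl with e | e | e <;> simp [e]
  have h2 : ∀ a ∈ V, ∃ x ∈ V ⊓ W, ∃ y ∈ V ⊓ W, a = x * (u * y * u) := fun a ha => by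
    simpa only [inv_eq_of_mul_eq_one_right h.uu] using h.memV h.uV h.uS ha
  have h3 : ∀ a ∈ W, ∃ x ∈ V ⊓ W, ∃ y ∈ V ⊓ W, a = x * (v * y * v) := fun a ha => by
    simpa only [inv_eq_of_mul_eq_one_right h.vv, inf_comm W V] using h.symm.memV h.vW h.vS ha
  have h4 : ∀ x ∈ V, x ∈ W → x ≠ 1 → IsConj z x := fun x hV hW x1 => by
    obtain ⟨l, -, rfl⟩ := h.tr ⟨hV, hW⟩ x1
    exact isConj_iff.2 ⟨l⁻¹, by rw [inv_inv]⟩
  have h5 : q = 2 ∨ q = 4 := by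
    rcases (Nat.dvd_prime Nat.prime_three).1 (orderOf_dvd_of_pow_eq_one (h.k3 hk)) with e | e <;> omega
  have h6 : S ⊔ zpowers k = normalizer (S : Set G) := (sup_comm _ _).trans h.hK
  exact ⟨h5, z, k, u, v, h.toAM, h.hz.1, h.hz.2, h.z1, ord, h.k3 hk, h6,
    h.NSV (h.KN hk), h.NSW (h.KN hk), h1, h.uu, h.vv, h.uV, h.vW, h.uS, h.vS, h.uk k hk, h.vk k hk,
    h2, h3, h.c1, h.c2, fun _ => h.cell' h.uu h.uV h.uS, fun _ => h.symm.cell' h.vv h.vW h.vS,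
    fun _ hV hW x1 _ e => h.centZ hV hW x1 e, fun _ => h.conj_all h4, fun _ hx e => h.invS hx e⟩

end Cfsg.Agent.Lib.OD
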