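/- S4371, piece AM: 2-local subgroups of a `C4` group. -/
import Cfsg.Agent.Lib.OD.Ad0
import Cfsg.Agent.Lib.C4.Elem
import Cfsg.Agent.Lib.Invol.BaerSuzuki

set_option autoImplicit false

namespace Cfsg.Agent.Lib.OD

open Subgroup Cfsg.Agent.Lib.Core

universe u

variable {G : Type u} [Group G] [Finite G]

theorem exists_inv_zpowers {P : Subgroup G} (hP : IsPGroup 2 P) {y : G} (hy : y ∈ P) (y1 : y ≠ 1) :
    ∃ e ∈ zpowers y, e * e = 1 ∧ e ≠ 1 := by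
  obtain ⟨k, hk⟩ := IsPGroup.iff_orderOf.1 hP ⟨y, hy⟩
  rw [← Subgroup.orderOf_coe] at hk
  have : 2 ∣ orderOf y := by
    rcases k with _ | k
    · exact absurd (orderOf_eq_one_iff.1 hk) y1
    · exact hk ▸ dvd_pow_self 2 k.succ_ne_zero
  obtain ⟨e, he, h2⟩ := exists_order_of_dvd y this
  exact ⟨e, he, by rw [← pow_two, ← h2, pow_orderOf_eq_one], fun e1 => by simp [e1] at h2⟩

theorem comm_zpowers {y e g : G} (he : e ∈ zpowers y) (h : y * g = g * y) : e * g = g * e := by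
  obtain ⟨k, rfl⟩ := he
  exact (Commute.zpow_left h k : Commute (y ^ k) g)

theorem C4.pow4 (h : C4 G) {P : Subgroup G} (hP : IsPGroup 2 P) {y : G} (hy : y ∈ P) : y ^ 4 = 1 := by
  by_cases y1 : y = 1
  · rw [y1, one_pow]
  obtain ⟨e, he, h2, h1⟩ := exists_inv_zpowers hP hy y1
  exact h e y h2 h1 (comm_zpowers he rfl)

theorem C4.fpf (h : C4 G) {P : Subgroup G} (hP : IsPGroup 2 P) {x y : G} (ho : Odd (orderOf x))
    (x1 : x ≠ 1) (hy : y ∈ P) (e : x * y = y * x) : y = 1 := by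
  by_contra y1
  obtain ⟨e', he, h2, h1⟩ := exists_inv_zpowers hP hy y1
  exact x1 (h.odd h2 h1 (comm_zpowers he e.symm) ho)

omit [Finite G] in
theorem cj_mem {D : Subgroup G} {g y : G} (hg : g ∈ normalizer (D : Set G)) (hy : y ∈ D) :
    g * y * g⁻¹ ∈ D := (mem_normalizer_iff.1 hg y).1 hy

theorem C4.loc1 (h : C4 G) {N D : Subgroup G} (hD : OpOf 2 N = D) {a : G} (ha : a ∈ N)
    (aD : a ∉ D) (a2 : a * a ∈ D) : (∀ y ∈ D, y * y = 1) ∧
      ∀ d ∈ D, a * d = d * a → ∃ u ∈ D, d = u * (a * u * a⁻¹) := by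
  have D2 : IsPGroup 2 D := hD ▸ OpOf_isPGroup N
  have DN : D ≤ N := hD ▸ OpOf_le N
  have ND : N ≤ normalizer (D : Set G) := hD ▸ le_normalizer_OpOf le_normalizer
  obtain ⟨Q, _, _, f, fs, hk, -⟩ := exists_bar DN ND
  have kf : ∀ x : N, f x = 1 ↔ (x : G) ∈ D := fun x => by rw [← hk, mem_kerOf]
  have o2 : orderOf (f ⟨a, ha⟩) = 2 := orderOf_eq_prime (by
    rw [pow_two, ← map_mul, kf]; exact a2) (fun e => aD ((kf _).1 e))
  obtain ⟨r, hr, ro, ri⟩ := Invol.exists_odd_prime_inverted _ o2 fun M hM M2 hm => aD (by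
    have h1 : IsPGroup 2 (unbar f M) := by
      refine isPGroup_map_subtype.2 (M2.comap_of_ker_isPGroup f ?_)
      rw [← kerOf_subgroupOf, hk]; exact isPGroup_subgroupOf D2
    have h2 : N ≤ normalizer (unbar f M : Set G) := by
      refine le_trans ?_ (unbar_normalizer_le f M)
      intro x hx
      exact (mem_unbar f (x := ⟨x, hx⟩)).2 (by rw [normalizer_eq_top]; trivial)
    exact hD ▸ le_OpOf (unbar_le f M) h2 h1 ((mem_unbar f (x := ⟨a, ha⟩)).2 hm))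
  obtain ⟨y, rfl⟩ := fs r
  obtain ⟨k, m, hm, hkm⟩ := Nat.exists_eq_two_pow_mul_odd (orderOf_pos y).ne'
  set x := y ^ 2 ^ k with hx
  have xo : Odd (orderOf (x : G)) := by
    rw [Subgroup.orderOf_coe]
    exact hm.of_dvd_nat (orderOf_dvd_of_pow_eq_one (by rw [hx, ← pow_mul, ← hkm, pow_orderOf_eq_one]))
  have x1 : (x : G) ≠ 1 := fun e => by
    have : f y ^ 2 ^ k = 1 := by rw [← map_pow, ← hx, show x = 1 from Subtype.ext e, map_one]
    have := (Nat.prime_dvd_prime_iff_eq hr Nat.prime_two).1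
      (hr.dvd_of_dvd_pow (orderOf_dvd_of_pow_eq_one this))
    rw [this] at ro; exact absurd ro (by decide)
  have xD := ND x.2
  have x2 : (x : G) * x ≠ 1 := fun e => x1 (orderOf_eq_one_iff.1 (Nat.eq_one_of_dvd_coprimes
    (Nat.coprime_two_right.2 xo) dvd_rfl (orderOf_dvd_of_pow_eq_one (by rw [pow_two, e]))))
  have xo2 : Odd (orderOf ((x : G) * x)) :=
    xo.of_dvd_nat (by rw [← pow_two]; exact orderOf_pow_dvd 2)
  have d1 : a * x * a⁻¹ * x ∈ D := (kf (⟨a, ha⟩ * x * ⟨a, ha⟩⁻¹ * x)).1 (by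
    rw [map_mul, map_mul, map_mul, map_inv, hx, map_pow, Invol.conj_pow_of_inverts ri,
      inv_mul_cancel])
  obtain ⟨d, hd⟩ := Finite.surjective_of_injective
    (f := fun d : D => (⟨d.1⁻¹ * ((x : G)⁻¹ * d * (x : G)⁻¹⁻¹),
      mul_mem (inv_mem d.2) (cj_mem (inv_mem xD) d.2)⟩ : D)) (fun b c e => by
      have e' : b.1⁻¹ * ((x : G)⁻¹ * b * (x : G)⁻¹⁻¹) = c.1⁻¹ * ((x : G)⁻¹ * c * (x : G)⁻¹⁻¹) :=
        congrArg Subtype.val e
      refine Subtype.ext (mul_inv_eq_one.1 (h.fpf D2 xo x1 (mul_mem b.2 (inv_mem c.2)) ?_))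
      calc _ = (x : G) * b * (c.1⁻¹ * ((x : G)⁻¹ * c * (x : G)⁻¹⁻¹)) * (x : G)⁻¹ * c.1⁻¹ * x := by group
        _ = _ := by rw [← e']; group) ⟨_, d1⟩
  have hd' : d.1⁻¹ * ((x : G)⁻¹ * d * (x : G)⁻¹⁻¹) = a * x * a⁻¹ * x := congrArg Subtype.val hd
  have tx : d * a * x * (d * a)⁻¹ = (x : G)⁻¹ := by
    calc _ = d * (a * x * a⁻¹ * x) * (x : G)⁻¹ * d.1⁻¹ := by group
      _ = _ := by rw [← hd']; group
  have tD : d * a ∈ normalizer (D : Set G) := ND (mul_mem (DN d.2) ha)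
  have t2 : d * a * (d * a) ∈ D := by
    have := mul_mem (mul_mem d.2 (cj_mem (ND ha) d.2)) a2
    convert this using 1; group
  have tt : d * a * (d * a) = 1 := h.fpf D2 xo x1 t2 (by
    have tx' : d * a * (x : G)⁻¹ * (d * a)⁻¹ = x := by
      calc _ = (d * a * x * (d * a)⁻¹)⁻¹ := by group
        _ = _ := by rw [tx, inv_inv]
    calc _ = d * a * (x : G)⁻¹ * (d * a)⁻¹ * (d * a * (d * a)) := by rw [tx']
      _ = d * a * (d * a * x * (d * a)⁻¹) * (d * a)⁻¹ * (d * a * (d * a)) := by rw [tx]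
      _ = _ := by group)
  have P2 : IsPGroup 2 ↥(zpowers (d * a) ⊔ D) := isPGroup_sup_of_le_normalizer
    (isPGroup_zpowers (k := 1) (by rw [pow_one, pow_two, tt])) D2 (zpowers_le.2 tD)
  obtain ⟨e1, e2⟩ := C4.elem D2 tD xD tt tx (fun y hy e => h.fpf D2 xo2 x2 hy e) fun y hy =>
    h.pow4 P2 (mul_mem (mem_sup_left (mem_zpowers _)) (mem_sup_right hy))
  refine ⟨e1, fun c hc e => ?_⟩
  obtain ⟨u, hu, e'⟩ := e2 c hc (by
    rw [mul_assoc, e, ← mul_assoc, comm_of_sq e1 d.2 hc, mul_assoc])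
  refine ⟨u, hu, e'.trans ?_⟩
  have := comm_of_sq e1 d.2 (cj_mem (ND ha) hu)
  calc _ = u * (d * (a * u * a⁻¹) * d.1⁻¹) := by group
    _ = _ := by rw [this]; group

theorem C4.loc2 (h : C4 G) {N D : Subgroup G} (hD : OpOf 2 N = D) (D1 : D ≠ ⊥) {a : G}
    (ha : a ∈ N) (a4 : a ^ 4 = 1) : a * a ∈ D := by
  by_contra hb
  have D2 : IsPGroup 2 D := hD ▸ OpOf_isPGroup N
  have aD : a ∈ normalizer (D : Set G) := (hD ▸ le_normalizer_OpOf le_normalizer : N ≤ _) ha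
  have a4' : a * a * (a * a) = 1 := by rw [← a4]; simp only [pow_succ, pow_zero, one_mul, mul_assoc]
  obtain ⟨e1, e2⟩ := h.loc1 hD (mul_mem ha ha) hb (a4' ▸ one_mem D)
  have P2 : IsPGroup 2 ↥(zpowers a ⊔ D) := isPGroup_sup_of_le_normalizer
    (isPGroup_zpowers (k := 2) a4) D2 (zpowers_le.2 aD)
  let φ := C4.cjh aD
  have q2 : ∀ y : D, y * y = 1 := fun y => Subtype.ext (e1 y y.2)
  have qc : ∀ x y : D, x * y = y * x := fun x y => Subtype.ext (comm_of_sq e1 x.2 y.2)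
  have n4 : ∀ u : D, u * φ u * (φ (φ u) * φ (φ (φ u))) = 1 := fun u => Subtype.ext (by
    have := h.pow4 P2 (mul_mem (mem_sup_right u.2) (mem_sup_left (mem_zpowers a)))
    simp only [φ, coe_mul, C4.cjh_val, coe_one]
    calc _ = (u * a) ^ 4 * (a * a * (a * a))⁻¹ := by
          simp only [pow_succ, pow_zero, one_mul]; group
      _ = _ := by rw [this, a4']; group)
  have fr : ∀ d : D, φ (φ d) = d → ∃ u, d = u * φ (φ u) := fun d e => by
    obtain ⟨u, hu, e'⟩ := e2 d d.2 (by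
      have := congrArg Subtype.val e
      simp only [φ, C4.cjh_val] at this
      calc _ = a * (a * d * a⁻¹) * a⁻¹ * (a * a) := by group
        _ = _ := by rw [this])
    exact ⟨⟨u, hu⟩, Subtype.ext (by simp only [φ, coe_mul, C4.cjh_val]; rw [e']; group)⟩
  have fx : ∀ d : D, φ (φ d) = d → φ d = d := fun d e => by
    obtain ⟨u, rfl⟩ := fr d e
    refine (inv_eq_of_mul_eq_one_right ?_).symm.trans (inv_eq_of_mul_eq_one_right (q2 _))
    rw [← n4 u, map_mul, mul_assoc, mul_assoc, ← mul_assoc (φ (φ u)), qc (φ (φ u)), mul_assoc]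
  refine D1 (eq_bot_iff.2 fun y hy => ?_)
  have all : ∀ u : D, φ (φ u) = u := fun u => by
    have := fx (u * φ u) (by
      rw [map_mul, map_mul]
      exact (inv_eq_of_mul_eq_one_right (n4 u)).symm.trans (inv_eq_of_mul_eq_one_right (q2 _)))
    rw [map_mul, qc u] at this
    exact mul_left_cancel this
  obtain ⟨u, e⟩ := fr ⟨y, hy⟩ (all _)
  rw [all, q2] at e
  exact congrArg Subtype.val e

theorem C4.sq_mem (h : C4 G) (hD : OpOf 2 (⊤ : Subgroup G) ≠ ⊥) {x : G} (hx : x ^ 4 = 1) :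
    x * x ∈ OpOf 2 (⊤ : Subgroup G) := h.loc2 rfl hD (mem_top x) hx

/-- `D = O₂(N)` inside a 2-subgroup `T` of `N` -/
structure Loc (T D : Subgroup G) : Prop where
  le : D ≤ T
  nrm : T ≤ normalizer (D : Set G)
  ne : D ≠ ⊥
  sq : ∀ y ∈ D, y * y = 1
  sqT : ∀ a ∈ T, a * a ∈ D
  free : ∀ a ∈ T, a ∉ D → ∀ d ∈ D, a * d = d * a → ∃ u ∈ D, d = u * (a * u * a⁻¹)

theorem C4.loc (h : C4 G) {N D T : Subgroup G} (hD : OpOf 2 N = D) (D1 : D ≠ ⊥) (hT : IsPGroup 2 T)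
    (DT : D ≤ T) (TN : T ≤ N) (ne : D ≠ T) : Loc T D := by
  obtain ⟨a, ha, aD⟩ := SetLike.exists_of_lt (lt_of_le_of_ne DT ne)
  have sT : ∀ a ∈ T, a * a ∈ D := fun a ha => h.loc2 hD D1 (TN ha) (h.pow4 hT ha)
  exact ⟨DT, TN.trans (hD ▸ le_normalizer_OpOf le_normalizer), D1,
    (h.loc1 hD (TN ha) aD (sT a ha)).1, sT, fun a ha aD => (h.loc1 hD (TN ha) aD (sT a ha)).2⟩

end Cfsg.Agent.Lib.OD
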