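/- S4371, piece AM: two parabolics over a Sylow 2-subgroup. -/
import Cfsg.Agent.Lib.OD.Loc

set_option autoImplicit false

namespace Cfsg.Agent.Lib.OD

open Subgroup Cfsg.Agent.Lib.Core

universe u

variable {G : Type u} [Group G] [Finite G] {S T V W : Subgroup G}

section
omit [Finite G]

theorem Loc.cm (hW : Loc T W) {u a : G} (hu : u ∈ T) (ha : a ∈ T) : u * (a * u * a⁻¹) ∈ W := by
  have := mul_mem (hW.sqT _ (mul_mem hu ha)) (inv_mem (hW.sqT a ha))
  convert this using 1; group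

theorem Loc.cent (hV : Loc T V) (hW : Loc T W) {a d : G} (ha : a ∈ T) (aV : a ∉ V) (hd : d ∈ V)
    (e : a * d = d * a) : d ∈ W := by
  obtain ⟨u, hu, rfl⟩ := hV.free a ha aV d hd e
  exact hW.cm (hV.le hu) ha

theorem Loc.not_le (hV : Loc T V) (hW : Loc T W) (ne : V ≠ W) : ∃ b ∈ W, b ∉ V := by
  by_contra! h
  refine ne (le_antisymm (fun a ha => ?_) h)
  by_contra aW
  refine hW.ne (eq_bot_iff.2 fun d hd => ?_)
  obtain ⟨u, hu, rfl⟩ := hW.free a (hV.le ha) aW d hd (comm_of_sq hV.sq ha (h d hd))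
  rw [comm_of_sq hV.sq ha (h u hu), mul_inv_cancel_right, hW.sq u hu]; exact one_mem _

theorem Loc.dec (hV : Loc T V) (hW : Loc T W) (ne : V ≠ W) {x : G} (hx : x ∈ T) :
    ∃ b ∈ W, ∃ a ∈ V, x = b * a := by
  obtain ⟨a, ha, aW⟩ := hW.not_le hV ne.symm
  have m1 := hW.cm (hV.le ha) hx
  have m2 : a * (x * a * x⁻¹) ∈ V := mul_mem ha (cj_mem (hV.nrm hx) ha)
  obtain ⟨b, hb, e⟩ := hW.free a (hV.le ha) aW _ m1 (comm_of_sq hV.sq ha m2)
  refine ⟨b, hb, b⁻¹ * x, ?_, by group⟩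
  by_contra hn
  refine aW (hV.cent hW (mul_mem (inv_mem (hW.le hb)) hx) hn ha ?_)
  have ai := inv_eq_of_mul_eq_one_right (hV.sq a ha)
  have bi := inv_eq_of_mul_eq_one_right (hW.sq b hb)
  rw [comm_of_sq hW.sq hb (cj_mem (hW.nrm (hV.le ha)) hb)] at e
  have e2 : x * a * x⁻¹ = b * a * b⁻¹ := by
    rw [bi]; refine mul_left_cancel (a := a) (e.trans ?_); rw [ai]; group
  calc _ = b⁻¹ * (x * a * x⁻¹) * x := by group
    _ = _ := by rw [e2]; group

theorem Loc.invol (hV : Loc T V) (hW : Loc T W) (ne : V ≠ W) {x : G} (hx : x ∈ T)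
    (h2 : x * x = 1) : x ∈ V ∨ x ∈ W := by
  obtain ⟨b, hb, a, ha, rfl⟩ := hV.dec hW ne hx
  by_cases bV : b ∈ V
  · exact .inl (mul_mem bV ha)
  refine .inr (mul_mem hb (hV.cent hW (hW.le hb) bV ha ?_))
  exact (inv_eq_of_mul_eq_one_right h2).symm.trans (by
    rw [mul_inv_rev, inv_eq_of_mul_eq_one_right (hV.sq a ha),
      inv_eq_of_mul_eq_one_right (hW.sq b hb)])

end

theorem Loc.conj (hV : Loc T V) {s : G} (hs : s ∈ normalizer (T : Set G)) :
    Loc T (V.map (MulAut.conj s).toMonoidHom) := by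
  have m : ∀ x, x ∈ V.map (MulAut.conj s).toMonoidHom ↔ s⁻¹ * x * s⁻¹⁻¹ ∈ V := fun x => by
    rw [Invol.mem_map_conj_iff, inv_inv]
  have c : ∀ x ∈ T, s⁻¹ * x * s⁻¹⁻¹ ∈ T := fun x hx => cj_mem (inv_mem hs) hx
  refine ⟨fun x hx => ?_, fun a ha => mem_normalizer_fintype fun x hx => ?_, fun e => hV.ne ?_,
    fun y hy => ?_, fun a ha => ?_, fun a ha aV d hd e => ?_⟩
  · have := cj_mem hs (hV.le ((m x).1 hx))
    convert this using 1; group
  · have := cj_mem (hV.nrm (c a ha)) ((m x).1 hx)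
    refine (m _).2 ?_
    convert this using 1; group
  · exact (map_eq_bot_iff_of_injective _ (MulAut.conj s).injective).1 e
  · have := hV.sq _ ((m y).1 hy)
    calc _ = s * (s⁻¹ * y * s⁻¹⁻¹ * (s⁻¹ * y * s⁻¹⁻¹)) * s⁻¹ := by group
      _ = _ := by rw [this]; group
  · have := hV.sqT _ (c a ha)
    refine (m _).2 ?_
    convert this using 1; group
  · obtain ⟨u, hu, e'⟩ := hV.free _ (c a ha) (fun h => aV ((m a).2 h)) _ ((m d).1 hd) (by
      calc _ = s⁻¹ * (a * d) * s := by group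
        _ = _ := by rw [e]; group)
    refine ⟨s * u * s⁻¹, (m _).2 (by convert hu using 1; group), ?_⟩
    calc d = s * (s⁻¹ * d * s⁻¹⁻¹) * s⁻¹ := by group
      _ = _ := by rw [e']; group

theorem Loc.card (hV : Loc T V) (hW : Loc T W) (ne : V ≠ W) :
    Nat.card V = Nat.card ↥(V ⊓ W) ^ 2 := by
  obtain ⟨b, hb, bV⟩ := hV.not_le hW ne
  have bT := hW.le hb
  let φ : V →* G := MonoidHom.mk' (fun u => u * (b * u * b⁻¹)) fun x y => by
    have := comm_of_sq hV.sq y.2 (cj_mem (hV.nrm bT) x.2)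
    calc _ = x * (y * (b * x * b⁻¹)) * (b * y * b⁻¹) := by simp only [coe_mul]; group
      _ = _ := by rw [this]; group
  have hk : φ.ker = (V ⊓ W).subgroupOf V := by
    ext x
    rw [MonoidHom.mem_ker, mem_subgroupOf]
    show x * (b * x * b⁻¹) = 1 ↔ _
    refine ⟨fun e => ⟨x.2, hV.cent hW bT bV x.2 ?_⟩, fun e => ?_⟩
    · rw [← mul_inv_eq_iff_eq_mul, ← inv_eq_of_mul_eq_one_right e,
        inv_eq_of_mul_eq_one_right (hV.sq _ x.2)]
    · rw [comm_of_sq hW.sq hb e.2, mul_inv_cancel_right, hV.sq _ x.2]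
  have hr : φ.range = V ⊓ W := by
    refine le_antisymm ?_ fun d hd => ?_
    · rintro _ ⟨x, rfl⟩
      exact ⟨mul_mem x.2 (cj_mem (hV.nrm bT) x.2), hW.cm (hV.le x.2) bT⟩
    · obtain ⟨u, hu, e⟩ := hV.free b bT bV d hd.1 (comm_of_sq hW.sq hb hd.2)
      exact ⟨⟨u, hu⟩, e.symm⟩
  rw [← φ.ker.card_mul_index, index_ker, hr, hk,
    Nat.card_congr (subgroupOfEquivOfLe inf_le_left).toEquiv, pow_two]

theorem exists_sq_mem {P : Subgroup G} (hP : IsPGroup 2 P) (h : T < P) :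
    ∃ s ∈ P, s ∉ T ∧ s * s ∈ T := by
  obtain ⟨x, hx, xT⟩ := SetLike.exists_of_lt h
  obtain ⟨k, hk⟩ := pow_eq_one_of_isPGroup hP hx
  have : ∀ n : ℕ, x ^ 2 ^ n ∈ T → ∃ s ∈ P, s ∉ T ∧ s * s ∈ T := fun n => by
    induction n with
    | zero => intro e; exact absurd (by simpa using e) xT
    | succ n ih =>
      intro e
      by_cases e' : x ^ 2 ^ n ∈ T
      · exact ih e'
      · exact ⟨_, pow_mem hx _, e', by rwa [← pow_add, ← mul_two, ← pow_succ]⟩
  exact this k (hk ▸ one_mem T)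

/-- a Sylow 2-subgroup of a 2-local subgroup which is not 2-closed is Sylow in `G` -/
theorem C4.syl (h : C4 G) (hD : OpOf 2 (normalizer (V : Set G)) = V) (V1 : V ≠ ⊥)
    (hT : IsSyl 2 T (normalizer (V : Set G))) (ne : V ≠ T) : IsSyl 2 T ⊤ := by
  have hV := h.loc hD V1 hT.isPGroup (hD ▸ OpOf_le_of_isSyl hT) hT.le ne
  refine isSyl_of_isSyl_normalizer (isSyl_of_maximal (le_inf le_top le_normalizer) hT.isPGroup
    fun P hP TP PN => ?_)
  by_contra hne
  obtain ⟨s, hs, sT, s2⟩ := exists_sq_mem hP (lt_of_le_of_ne TP (Ne.symm hne))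
  have hW := hV.conj (PN hs).2
  have m : ∀ x, x ∈ V.map (MulAut.conj s).toMonoidHom ↔ s⁻¹ * x * s ∈ V := fun x =>
    Invol.mem_map_conj_iff
  set W := V.map (MulAut.conj s).toMonoidHom
  have VW : V ≠ W := fun e => sT (by
    rw [← hT.eq_of_le (Q := P ⊓ normalizer (V : Set G)) (hP.to_le inf_le_left)
      (le_inf TP hT.le) inf_le_right]
    exact ⟨hs, mem_normalizer_fintype fun x hx => by
      rw [e]; exact (m _).2 (by simpa only [mul_assoc, inv_mul_cancel_left, inv_mul_cancel,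
        mul_one] using (show x ∈ V from hx))⟩)
  have p4 : ∀ x ∈ P, x * x * (x * x) = 1 := fun x hx => by
    rw [← h.pow4 hP hx]; simp only [pow_succ, pow_zero, one_mul, mul_assoc]
  have ss : s * s ∈ V ∧ s * s ∈ W := by
    have : s * s ∈ W ↔ s * s ∈ V := by
      rw [m, inv_mul_cancel_left]
    rcases hV.invol hW VW s2 (p4 s hs) with e | e
    · exact ⟨e, this.2 e⟩
    · exact ⟨this.1 e, e⟩
  obtain ⟨a, ha, aW⟩ := hW.not_le hV VW.symm
  have a' : s * a * s⁻¹ ∈ W := (m _).2 (by convert ha using 1; group)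
  have e : s * a * (s * a) = s * a * s⁻¹ * (s * s) * a := by group
  rcases hV.invol hW VW (x := s * a * (s * a))
    (e ▸ mul_mem (mul_mem (hW.le a') s2) (hV.le ha)) (p4 _ (mul_mem hs (TP (hV.le ha)))) with c | c
  · rw [e, mul_mem_cancel_right ha, mul_mem_cancel_right ss.1] at c
    refine aW ((m a).2 ?_)
    have := cj_mem (inv_mem (hV.nrm s2)) c
    convert this using 1; group
  · rw [e, mul_mem_cancel_left (mul_mem a' ss.2)] at c
    exact aW c

/-- `V = O₂(N(V))` is a proper normal subgroup of the Sylow subgroup `S` -/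
structure Big (S V : Subgroup G) : Prop where
  syl : IsSyl 2 S ⊤
  le : S ≤ normalizer (V : Set G)
  eq : OpOf 2 (normalizer (V : Set G)) = V
  ne : V ≠ ⊥
  lt : V ≠ S

theorem Big.loc (h : C4 G) (b : Big S V) : Loc S V :=
  h.loc b.eq b.ne b.syl.isPGroup (b.eq ▸ OpOf_le_of_isSyl (b.syl.mono b.le le_top)) b.le b.lt

theorem Big.ex (b : Big S V) : ¬ normalizer (V : Set G) ≤ normalizer (S : Set G) := fun e =>
  b.lt (le_antisymm (b.eq ▸ OpOf_le_of_isSyl (b.syl.mono b.le le_top))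
    (b.eq ▸ le_OpOf b.le e b.syl.isPGroup))

theorem C4.big (h : C4 G) {M : Subgroup G} (M1 : M ≠ ⊤) (hS : IsSyl 2 S ⊤) (S1 : S ≠ ⊥) (SM : S ≤ M)
    (hN : ∀ T, IsSyl 2 T ⊤ → T ≤ M → normalizer (T : Set G) ≤ M) :
    SE G ∨ ∃ T X, Big T X ∧ T ≤ M ∧ ¬ normalizer (X : Set G) ≤ M := by
  by_cases hx : ∀ X : Subgroup G, X ≤ M → IsPGroup 2 X → X ≠ ⊥ → normalizer (X : Set G) ≤ M
  · refine .inl ⟨M, Invol.isStronglyEmbedded_iff.2 ⟨M1, even_iff_two_dvd.2
      ((dvd_card_of_isPGroup_of_ne_bot hS.isPGroup S1).trans (card_dvd_of_le SM)),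
      fun g t ht o2 hg => Invol.mem_of_normalizers_le hx ht (fun e => by simp [e] at o2)
        (Invol.isPGroup_zpowers_of_involution o2) hg⟩⟩
  push Not at hx
  obtain ⟨X, ⟨XM, X2, X1, XN⟩, mx⟩ := Set.exists_max_image
    {X : Subgroup G | X ≤ M ∧ IsPGroup 2 X ∧ X ≠ ⊥ ∧ ¬ normalizer (X : Set G) ≤ M}
    (fun X => Nat.card X) (Set.toFinite _) hx
  have up : ∀ Y : Subgroup G, Y ≤ M → IsPGroup 2 Y → X < Y → normalizer (Y : Set G) ≤ M :=
    fun Y YM Y2 lt => by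
      by_contra c
      exact lt.ne (eq_of_le_of_card_ge lt.le (mx Y ⟨YM, Y2, fun e => not_lt_bot (e ▸ lt), c⟩))
  obtain ⟨P, hP, XP⟩ := exists_isSyl_ge X2 XM
  have hP' : IsSyl 2 P ⊤ := hS.of_card_le hP.isPGroup le_top (hP.card_le hS.isPGroup SM)
  have lt : X < P := lt_of_le_of_ne XP fun e => XN (e ▸ hN P hP' hP.le)
  obtain ⟨T, hT, le⟩ := exists_isSyl_ge (H := M ⊓ normalizer (X : Set G))
    (hP.isPGroup.to_le (inf_le_left : P ⊓ normalizer (X : Set G) ≤ P))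
    (inf_le_inf_right _ hP.le)
  have lt' : X < T := (lt_inf_normalizer_of_isPGroup hP.isPGroup lt).trans_le le
  have TM : T ≤ M := hT.le.trans inf_le_left
  have hT' : IsSyl 2 T (normalizer (X : Set G)) :=
    isSyl_of_isSyl_normalizer (hT.mono (le_inf (hT.le.trans inf_le_right) le_normalizer)
      (le_inf (inf_le_right.trans (up T TM hT.isPGroup lt')) inf_le_left))
  have eq : OpOf 2 (normalizer (X : Set G)) = X := by
    by_contra c
    exact XN ((le_normalizer_OpOf le_normalizer).trans (up _ ((OpOf_le_of_isSyl hT').trans TM)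
      (OpOf_isPGroup _) (lt_of_le_of_ne (le_OpOf le_normalizer le_rfl X2) (Ne.symm c))))
  exact .inr ⟨T, X, ⟨h.syl eq X1 hT' lt'.ne, hT'.le, eq, X1, lt'.ne⟩, TM, XN⟩

theorem Big.am (h : C4 G) (hO : OppOf 2 (⊤ : Subgroup G) = ⊥) (bV : Big S V) (bW : Big S W)
    (ne : V ≠ W) : AM S V W (Nat.card ↥(V ⊓ W)) := by
  have hV := bV.loc h
  have hW := bW.loc h
  have c1 := hV.card hW ne
  refine ⟨h, hO, bV.syl, ?_, hV.sq, hW.sq, le_antisymm (sup_le hV.le hW.le) fun x hx => ?_, bV.le,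
    bW.le, c1, inf_comm W V ▸ hW.card hV ne.symm, rfl, fun a ha b hb e => ?_, bV.ex, bW.ex⟩
  · have := (one_lt_card_iff_ne_bot V).2 hV.ne
    by_contra c
    have : Nat.card ↥(V ⊓ W) ^ 2 ≤ 1 ^ 2 := Nat.pow_le_pow_left (by omega) 2
    omega
  · obtain ⟨b, hb, a, ha, rfl⟩ := hV.dec hW ne hx
    exact mul_mem (mem_sup_right hb) (mem_sup_left ha)
  · by_cases c : b ∈ V
    · exact .inr c
    · exact .inl (hV.cent hW (hW.le hb) c ha e.symm)

theorem C4.am (h : C4 G) (hs : ¬ Group.IsSolvable G) (hO : OppOf 2 (⊤ : Subgroup G) = ⊥)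
    (hO2 : OpOf 2 (⊤ : Subgroup G) = ⊥) :
    SE G ∨ ∃ (S V W : Subgroup G) (q : ℕ), AM S V W q := by
  obtain ⟨S, hS⟩ := exists_isSyl (p := 2) (⊤ : Subgroup G)
  have nt : ∀ X : Subgroup G, IsPGroup 2 X → X ≠ ⊥ → normalizer (X : Set G) ≠ ⊤ :=
    fun X X2 X1 e => X1 (le_bot_iff.1 (hO2 ▸ le_OpOf le_top e.ge X2))
  have S1 : S ≠ ⊥ := by
    refine hS.ne_bot ?_
    by_contra c
    have : (⊤ : Subgroup G) = ⊥ := le_bot_iff.1 (hO ▸ le_OppOf le_rfl le_normalizer c)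
    have : Subsingleton G := Subgroup.subsingleton_iff.1 (subsingleton_of_bot_eq_top this.symm)
    exact hs inferInstance
  rcases h.big (nt S hS.isPGroup S1) hS S1 le_normalizer (fun T hT le => by
    rw [hS.eq_of_le (Q := T) hT.isPGroup (hT.le_of_le_normalizer hS.isPGroup le_top le) le_top])
    with c | ⟨T, V, bV, -, -⟩
  · exact .inl c
  have V2 : IsPGroup 2 V := bV.eq ▸ OpOf_isPGroup _
  have tr : ∀ T', IsSyl 2 T' ⊤ → T' ≤ normalizer (V : Set G) → Big T' V := fun T' hT' le =>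
    ⟨hT', le, bV.eq, bV.ne, fun e => bV.lt (by
      subst e; exact (hT'.eq_of_le bV.syl.isPGroup (bV.loc h).le le_top).symm)⟩
  by_cases hN : ∀ T', IsSyl 2 T' ⊤ → T' ≤ normalizer (V : Set G) →
    normalizer (T' : Set G) ≤ normalizer (V : Set G)
  · rcases h.big (nt V V2 bV.ne) bV.syl (fun e => bV.ne (le_bot_iff.1 (e ▸ (bV.loc h).le))) bV.le hN
      with c | ⟨T', W, bW, le, c⟩
    · exact .inl c
    · exact .inr ⟨T', V, W, _, (tr T' bW.syl le).am h hO bW fun e => c (e ▸ le_rfl)⟩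
  push Not at hN
  obtain ⟨T', hT', le, c⟩ := hN
  obtain ⟨n, hn, nV⟩ := SetLike.not_le_iff_exists.1 c
  have b := tr T' hT' le
  have e : T'.map (MulAut.conj n).toMonoidHom = T' := (FT.cj_eq_iff).2 hn
  have eN := map_equiv_normalizer_eq V (MulAut.conj n)
  refine .inr ⟨T', V, V.map (MulAut.conj n).toMonoidHom, _, b.am h hO ⟨hT', ?_, ?_, fun c => b.ne
    ((map_eq_bot_iff_of_injective _ (MulAut.conj n).injective).1 c), fun c => b.lt
      (map_injective (MulAut.conj n).injective (c.trans e.symm))⟩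
    fun c => nV ((FT.cj_eq_iff).1 c.symm)⟩
  · rw [← eN, ← e]; exact map_mono le
  · rw [← eN, ← OpOf_conj, b.eq]

end Cfsg.Agent.Lib.OD
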