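/-
S4371 project: the relations of the amalgam, and recognition.
-/
import Cfsg.Agent.Lib.OD.Ad
import Cfsg.Agent.Lib.C4.Rec

set_option autoImplicit false

namespace Cfsg.Agent.Lib.OD

open Subgroup Cfsg.Agent.Lib.Core

variable {G : Type*} [Group G] [Finite G] {S V W : Subgroup G} {q : ℕ} {z k u v : G}

theorem AM.wV (h : AM S V W q) (uu : u * u = 1) (uV : u ∈ normalizer (V : Set G)) {x : G}
    (hx : x ∈ V) : u * x * u ∈ V := by
  simpa [inv_eq_of_mul_eq_one_right uu] using conj_mem_of_mem_normalizer uV hx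

theorem AM.cube (h : AM S V W q) {b : G} (uu : u * u = 1) (uV : u ∈ normalizer (V : Set G))
    (uS : u ∉ normalizer (S : Set G)) (zV : z ∈ V) (zW : z ∈ W) (z1 : z ≠ 1) (hb : b ∈ W)
    (e : u * z * u * b * (u * z * u * b) = z) : (u * b) ^ 3 = 1 := by
  have ui : u⁻¹ = u := inv_eq_of_mul_eq_one_right uu
  have aV := h.wV uu uV zV
  have h1 : u * b * z = u * z * u * (u * b) := by
    rw [mul_assoc, h.symm.commV hb zW]; simp [mul_assoc, ← mul_assoc u u, uu]
  have h2 : u * b * (u * z * u) = z * (u * z * u) * (u * b) := by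
    have e1 : b * (u * z * u) = u * z * u * z * b := by
      have aa := h.sqV _ aV
      generalize u * z * u = a at *
      rw [← e]
      simp [mul_assoc, ← mul_assoc a a, aa, h.sqW _ hb]
    rw [mul_assoc, e1]; simp [mul_assoc, ← mul_assoc u u, uu]
  obtain ⟨h4, h5⟩ : (u * b) ^ 3 * z = z * (u * b) ^ 3 ∧
      u * z * u * (u * b) ^ 3 = (u * b) ^ 3 * (u * z * u) := by
    have aa := h.sqV _ aV
    have za := h.commV zV aV
    generalize u * z * u = a at *
    generalize u * b = r at *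
    have h3 : r * (z * a) = z * r := by
      rw [← mul_assoc, h1, mul_assoc, h2, za, ← mul_assoc, ← mul_assoc a, aa, one_mul]
    have h4 : r ^ 3 * z = z * r ^ 3 := by
      rw [pow_three, mul_assoc, mul_assoc, h1, ← mul_assoc _ a, h2, mul_assoc _ r, ← mul_assoc, h3,
        mul_assoc]
    refine ⟨h4, ?_⟩
    rw [← mul_left_inj r, mul_assoc (r ^ 3), ← h1, ← mul_assoc, ← pow_succ, pow_succ' r 3,
      mul_assoc r, h4, ← mul_assoc r, h1, mul_assoc, mul_assoc _ r, ← pow_succ, ← pow_succ']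
  have h6 : (u * b) ^ 3 ∈ V := by_contra fun c => uS (h.ti uV zV zW z1 (by
    rw [ui]; exact h.centV aV (h.centZ zV zW z1 h4.symm) c h5))
  by_contra c
  have h7 := h.c4 _ (u * b) (h.sqV _ h6) c (by rw [← pow_succ, pow_succ'])
  rw [pow_succ] at h7
  refine uS (le_normalizer ((mul_mem_cancel_right (h.WS hb)).1 ?_))
  rw [eq_inv_of_mul_eq_one_right h7]
  exact inv_mem (h.VS h6)

namespace AD

variable (h : AD S V W q z k u v)
include h

theorem wb : (u * (v * z * v)) ^ 3 = 1 :=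
  h.cube h.uu h.uV h.uS h.zV h.zW h.z1 (h.symm.wV h.vv h.vW h.zW) (h.comm1 z ⟨h.zV, h.zW⟩)

theorem va : (v * (u * z * u)) ^ 3 = 1 :=
  h.symm.cube h.vv h.vW h.vS h.zW h.zV h.z1 (h.wV h.uu h.uV h.zV) (by
    rw [← inv_inj, mul_inv_rev, mul_inv_rev, h.invV h.zV, h.invV (h.wV h.uu h.uV h.zV),
      h.symm.invV (h.symm.wV h.vv h.vW h.zW), h.comm1 z ⟨h.zV, h.zW⟩])

theorem az {x : G} (hx : x ∈ V) : (u * z * u * x) ^ 2 = 1 :=
  (pow_two _).trans (h.sqV _ (mul_mem (h.wV h.uu h.uV h.zV) hx))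

theorem bz {x : G} (hx : x ∈ W) : (v * z * v * x) ^ 2 = 1 :=
  (pow_two _).trans (h.sqW _ (mul_mem (h.symm.wV h.vv h.vW h.zW) hx))

theorem ab : (u * z * u * (v * z * v)) ^ 2 = z := (pow_two _).trans (h.comm1 z ⟨h.zV, h.zW⟩)

/-- an element of order four -/
theorem ex4 : ∃ x : G, x ^ 4 = 1 ∧ x * x ≠ 1 :=
  ⟨_, by rw [show 4 = 2 * 2 from rfl, pow_mul, h.ab, pow_two, h.sqV z h.zV],
    by rw [← pow_two, h.ab]; exact h.z1⟩

theorem l2 (gen : closure {z, u, v} = ⊤)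
    (e : (u * v) ^ 3 = 1 ∨ (u * (z * v * z)) ^ 3 = 1 ∨ ∃ d, (d = 1 ∨ d = z ∨ d = u * z * u ∨
      d = u * z * u * z) ∧ (u * (v * (d * (u * (v * z * v)) * d) * v)) ^ 2 = 1) :
    ∃ (F : Type) (_ : Field F) (_ : Fintype F), (Fintype.card F = 7 ∨ Fintype.card F = 9) ∧
      Nonempty (G ≃* Matrix.ProjectiveSpecialLinearGroup (Fin 2) F) :=
  C4.rec2 h.z1 gen (h.sqV z h.zV) h.uu h.vv (h.az h.zV) (h.bz h.zW) h.ab h.wb h.va e

end AD

theorem AD.l34 (h : AD S V W 4 z k u v) (gen : closure {z, k, u, v} = ⊤)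
    (e : (u * v) ^ 3 = 1 ∨ (u * v) ^ 3 = k ∨ (u * v) ^ 3 = k⁻¹) : L34 G := by
  have ok : orderOf k = 3 := by have := h.ordk; omega
  have hV := conj_mem_of_mem_normalizer h.kV h.zV
  have hW := conj_mem_of_mem_normalizer h.kW h.zW
  have hV' := conj_mem_of_mem_normalizer (inv_mem h.kV) h.zV
  have hW' := conj_mem_of_mem_normalizer (inv_mem h.kW) h.zW
  rw [inv_inv] at hV' hW'
  refine C4.rec4 h.z1 gen (h.sqV z h.zV) h.uu h.vv h.k3 h.uk h.vk ?_ (h.az h.zV) (h.az hV)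
    (h.bz h.zW) (h.bz hW) h.ab ?_ h.wb h.va e
  · rcases h.memZ _ (mul_mem h.zV hV) (mul_mem h.zW hW) with c | c | c | c
    · have := h.c4.odd (h.sqV z h.zV) h.z1 (g := k) (by
        rw [← eq_mul_inv_iff_mul_eq.1 (eq_inv_of_mul_eq_one_right c).symm, h.invV h.zV])
        (by rw [ok]; decide)
      rw [this, orderOf_one] at ok; omega
    · exact absurd (by simpa using c) h.z1
    · exact absurd (by simpa using c) h.z1
    · rw [c, h.sqV _ hV']
  · rw [cj_inv h.vv h.vk, pow_two, h.comm2 _ ⟨hV', hW'⟩]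

end Cfsg.Agent.Lib.OD
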