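/-
S4371 project: groups with even orders `2, 2r`; the Frobenius norm argument.
-/
import Cfsg.Agent.Lib.OD.Defs
import Cfsg.Agent.Lib.Glaub.Burnside

set_option autoImplicit false
set_option linter.unusedSectionVars false
set_option linter.style.haveILetI false

namespace Cfsg.Agent.Lib.OD

open Subgroup Cfsg.Agent.Lib.Core Cfsg.Agent.Lib.AG
open scoped commutatorElement

universe u

/-- the Frobenius norm identity -/
theorem frob_norm {Γ M : Type*} [Group Γ] [Finite Γ] [CommGroup M] (ρ : Γ →* MulAut M)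
    (T : Subgroup Γ) (x : Γ) (l : ℕ) (hx : ∀ i : ℕ, ∀ t ∈ T, (x ^ i)⁻¹ * t * x ^ i ∈ T)
    (hfree : ∀ i, i < l → ∀ t ∈ T, x ^ (i + 1) * t = t * x ^ (i + 1) → t = 1)
    (hN : ∀ m, ∏ i ∈ Finset.range (l + 1), ρ (x ^ i) m = 1)
    (hc : ∀ m : M, m ^ Nat.card T = 1 → m = 1) : ∀ t ∈ T, ∀ m, ρ t m = m := by
  classical
  haveI := Fintype.ofFinite T
  have inv : ∀ t ∈ T, ∀ m, ρ t (∏ s : T, ρ s m) = ∏ s : T, ρ s m := fun t ht m => by
    rw [map_prod, ← Equiv.prod_comp (Equiv.mulLeft (⟨t, ht⟩ : T)) (fun s : T => ρ s m)]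
    simp
  have key : ∀ m, m ^ Nat.card T = ∏ s : T, ρ s m := fun m => by
    have h1 : ∀ s : T, ∏ i ∈ Finset.range (l + 1), ρ (s * x ^ i * s⁻¹) m = 1 := fun s => by
      have := congrArg (ρ s) (hN (ρ (s : Γ)⁻¹ m))
      rw [map_prod, map_one] at this
      simpa using this
    have h2 : ∀ i, i < l → ∏ s : T, ρ (s * x ^ (i + 1) * s⁻¹) m =
        ρ (x ^ (i + 1)) (∏ s : T, ρ s m) := fun i hi => by
      let φ : T → T := fun s => ⟨(x ^ (i + 1))⁻¹ * s * x ^ (i + 1) * s⁻¹,
        mul_mem (hx _ _ s.2) (inv_mem s.2)⟩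
      have hφ : Function.Bijective φ := Finite.injective_iff_bijective.1 fun a b e => by
        have e1 : (x ^ (i + 1))⁻¹ * a * x ^ (i + 1) * (a : Γ)⁻¹ =
            (x ^ (i + 1))⁻¹ * b * x ^ (i + 1) * (b : Γ)⁻¹ := congrArg Subtype.val e
        have := hfree i hi ((b : Γ)⁻¹ * a) (mul_mem (inv_mem b.2) a.2) (by
          calc _ = (b : Γ)⁻¹ * x ^ (i + 1) *
              ((x ^ (i + 1))⁻¹ * b * x ^ (i + 1) * (b : Γ)⁻¹) * a := by group
            _ = _ := by rw [← e1]; group)
        exact Subtype.ext (inv_mul_eq_one.1 this).symm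
      rw [map_prod, ← hφ.prod_comp (fun s : T => ρ (x ^ (i + 1)) (ρ s m))]
      refine Finset.prod_congr rfl fun s _ => ?_
      rw [← MulAut.mul_apply, ← map_mul]
      congr 2
      simp only [φ]; group
    have h3 : ∏ s : T, ∏ i ∈ Finset.range (l + 1), ρ (s * x ^ i * s⁻¹) m = 1 :=
      Finset.prod_eq_one fun s _ => h1 s
    have h4 := hN (∏ s : T, ρ s m)
    rw [Finset.prod_comm, Finset.prod_range_succ',
      Finset.prod_congr rfl fun i hi => h2 i (Finset.mem_range.1 hi)] at h3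
    rw [Finset.prod_range_succ'] at h4
    have h5 := mul_left_cancel (h3.trans h4.symm)
    simpa using h5
  intro t ht m
  have : (ρ t m * m⁻¹) ^ Nat.card T = 1 := by
    rw [mul_pow, inv_pow, ← map_pow, key, inv t ht, mul_inv_cancel]
  exact mul_inv_eq_one.1 (hc _ this)

variable {G : Type u} [Group G] [Finite G] {r : ℕ}

namespace NR

theorem fact (h : NR G r) : Fact r.Prime := ⟨h.prime⟩

theorem sq (h : NR G r) {P : Subgroup G} (hP : IsPGroup 2 P) {x : G} (hx : x ∈ P) : x * x = 1 := by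
  obtain ⟨k, hk⟩ := pow_eq_one_of_isPGroup hP hx
  obtain ⟨j, -, hj⟩ := (Nat.dvd_prime_pow Nat.prime_two).1 (orderOf_dvd_of_pow_eq_one hk)
  rcases j with _ | j
  · rw [orderOf_eq_one_iff.1 hj, mul_one]
  rcases h.two x (hj ▸ dvd_pow_self 2 j.succ_ne_zero) with e | e
  · rw [← pow_two, ← e, pow_orderOf_eq_one]
  · exact absurd ((Nat.prime_dvd_prime_iff_eq h.prime Nat.prime_two).1
      (h.prime.dvd_of_dvd_pow (show r ∣ 2 ^ (j + 1) from ⟨2, by rw [← hj, e, mul_comm]⟩))) h.odd

theorem comm (h : NR G r) {P : Subgroup G} (hP : IsPGroup 2 P) {x y : G} (hx : x ∈ P) (hy : y ∈ P) :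
    x * y = y * x := by
  have h1 := h.sq hP (mul_mem hx hy)
  calc x * y = (x * y)⁻¹ := (inv_eq_of_mul_eq_one_right h1).symm
    _ = _ := by rw [mul_inv_rev, inv_eq_of_mul_eq_one_right (h.sq hP hx),
      inv_eq_of_mul_eq_one_right (h.sq hP hy)]

theorem le_cent (h : NR G r) {P X Y : Subgroup G} (hP : IsPGroup 2 P) (hX : X ≤ P) (hY : Y ≤ P) :
    X ≤ centralizer (Y : Set G) := fun _ hx =>
  mem_centralizer_iff.2 fun _ hy => h.comm hP (hY hy) (hX hx)

theorem r_odd (h : NR G r) : Odd r := h.prime.odd_of_ne_two h.odd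

/-- an element of odd order divisible by `r` has order `r` -/
theorem ord_r (h : NR G r) {x : G} (ho : Odd (orderOf x)) (hr : r ∣ orderOf x) : orderOf x = r :=
  (h.rr x hr).resolve_right fun e => by
    rw [e] at ho
    exact (Nat.not_even_iff_odd.2 ho) (even_two_mul r)

theorem pow_r (h : NR G r) {P : Subgroup G} (hP : IsPGroup r P) {x : G} (hx : x ∈ P) :
    x ^ r = 1 := by
  obtain ⟨k, hk⟩ := pow_eq_one_of_isPGroup hP hx
  obtain ⟨j, -, hj⟩ := (Nat.dvd_prime_pow h.prime).1 (orderOf_dvd_of_pow_eq_one hk)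
  rcases j with _ | j
  · rw [orderOf_eq_one_iff.1 hj, one_pow]
  rw [← h.ord_r (hj ▸ h.r_odd.pow) (hj ▸ dvd_pow_self r j.succ_ne_zero), pow_orderOf_eq_one]

/-- commuting elements of prime orders, one of them `2` or `r` -/
theorem primes (h : NR G r) {d x : G} (hd : orderOf d = 2 ∨ orderOf d = r)
    (hx : (orderOf x).Prime) (e : d * x = x * d) : orderOf x = 2 ∨ orderOf x = r := by
  by_contra hn
  rw [not_or] at hn
  have c2 : (orderOf d).Coprime (orderOf x) := by
    rcases hd with hd | hd <;> rw [hd]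
    · exact (Nat.coprime_primes Nat.prime_two hx).2 (Ne.symm hn.1)
    · exact (Nat.coprime_primes h.prime hx).2 (Ne.symm hn.2)
  have h1 := Commute.orderOf_mul_eq_mul_orderOf_of_coprime e c2
  have h2 : orderOf (d * x) ∣ 2 * r := by
    rcases hd with hd | hd
    · rcases h.two (d * x) (h1 ▸ hd ▸ dvd_mul_right _ _) with e | e <;> rw [e]
      exact dvd_mul_right _ _
    · rcases h.rr (d * x) (h1 ▸ hd ▸ dvd_mul_right _ _) with e | e <;> rw [e]
      exact dvd_mul_left _ _
  rcases (Nat.Prime.dvd_mul hx).1 ((dvd_mul_left _ _).trans (h1 ▸ h2)) with e | e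
  · exact hn.1 ((Nat.prime_dvd_prime_iff_eq hx Nat.prime_two).1 e)
  · exact hn.2 ((Nat.prime_dvd_prime_iff_eq hx h.prime).1 e)

theorem cent_primes (h : NR G r) {d : G} (hd : orderOf d = 2 ∨ orderOf d = r) {q : ℕ} (hq : q.Prime)
    (hqd : q ∣ Nat.card (centralizer ({d} : Set G))) : q = 2 ∨ q = r := by
  haveI := Fact.mk hq
  obtain ⟨x, hx⟩ := exists_prime_orderOf_dvd_card' q hqd
  rw [← Subgroup.orderOf_coe] at hx
  exact hx ▸ h.primes hd (hx ▸ hq) (mem_C.1 x.2)

theorem solv_cent (h : NR G r) {d : G} (hd : orderOf d = 2 ∨ orderOf d = r) :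
    Group.IsSolvable (centralizer ({d} : Set G)) :=
  Glaub.isSolvable_of_two_primes Nat.prime_two h.prime _ fun _ hq hd' => h.cent_primes hd hq hd'

theorem ord_two {t : G} (tt : t * t = 1) (t1 : t ≠ 1) : orderOf t = 2 :=
  orderOf_eq_prime (by rw [pow_two, tt]) t1

/-- an odd subgroup centralising an involution is an `r`-group -/
theorem isPGroup_of_cent (h : NR G r) {t : G} (tt : t * t = 1) (t1 : t ≠ 1) {Y : Subgroup G}
    (hY : Y ≤ centralizer {t}) (ho : ¬ 2 ∣ Nat.card Y) : IsPGroup r Y :=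
  haveI := h.fact
  isPi_singleton_iff.1 fun _ hq hd =>
    (h.cent_primes (Or.inl (ord_two tt t1)) hq (hd.trans (card_dvd_of_le hY))).resolve_left
      fun e => ho (e ▸ hd)

theorem pow_coset (h : NR G r) {U : Subgroup G} (hU : IsPGroup r U) {x : G} {l : ℕ} (hl : l.Prime)
    (l2 : l ≠ 2) (hx : x ^ l = 1) (xU : x ∈ normalizer (U : Set G)) {u : G} (hu : u ∈ U) :
    (u * x) ^ l = 1 ∨ x = 1 := by
  have hm : ∀ n : ℕ, (u * x) ^ n * (x ^ n)⁻¹ ∈ U := fun n => by
    induction n with
    | zero => simp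
    | succ n ih =>
      have := mul_mem ih (conj_mem_of_mem_normalizer (pow_mem xU n) hu)
      convert this using 1
      rw [pow_succ, pow_succ]; group
  have h1 : (u * x) ^ (l * r) = 1 := by
    have := hm l
    rw [hx, inv_one, mul_one] at this
    rw [pow_mul, h.pow_r hU this]
  have h2 := orderOf_dvd_of_pow_eq_one h1
  by_cases hr : r ∣ orderOf (u * x)
  · have h3 := h.ord_r (((hl.odd_of_ne_two l2).mul h.r_odd).of_dvd_nat h2) hr
    by_cases e : l = r
    · exact Or.inl (by rw [e, ← h3, pow_orderOf_eq_one])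
    have h4 := hm r
    rw [← h3, pow_orderOf_eq_one, one_mul, h3, inv_mem_iff] at h4
    have h5 := h.pow_r hU h4
    rw [← pow_mul] at h5
    exact Or.inr (orderOf_eq_one_iff.1 (Nat.eq_one_of_dvd_coprimes
      (((Nat.coprime_primes hl h.prime).2 e).mul_right ((Nat.coprime_primes hl h.prime).2 e))
      (orderOf_dvd_of_pow_eq_one hx) (orderOf_dvd_of_pow_eq_one h5)))
  · exact Or.inl (orderOf_dvd_iff_pow_eq_one.1
      ((Nat.Coprime.symm ((Nat.Prime.coprime_iff_not_dvd h.prime).2 hr)).dvd_of_dvd_mul_right h2))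

theorem odd_r (h : NR G r) {U : Subgroup G} (hU : IsPGroup r U) : ¬ 2 ∣ Nat.card U :=
  haveI := h.fact
  not_dvd_card_of_isPGroup hU h.odd.symm

/-- the abelian case of the key lemma -/
theorem key_ab (h : NR G r) {U E : Subgroup G} (hU : IsPGroup r U)
    (hc : ∀ a ∈ U, ∀ b ∈ U, a * b = b * a) (hE : IsPGroup 2 E) (hEU : E ≤ normalizer (U : Set G))
    {x : G} {l : ℕ} (hl : l.Prime) (l2 : l ≠ 2) (hx : x ^ l = 1) (xU : x ∈ normalizer (U : Set G))
    (xE : x ∈ normalizer (E : Set G)) : ⁅E, zpowers x⁆ ≤ centralizer (U : Set G) := by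
  by_cases x1 : x = 1
  · simp [x1]
  haveI := Fact.mk hl
  have ox : orderOf x = l := orderOf_eq_prime hx x1
  letI : CommGroup U := { (inferInstance : Group U) with
    mul_comm := fun a b => Subtype.ext (hc a a.2 b b.2) }
  have hxE : zpowers x ≤ normalizer (E : Set G) := zpowers_le.2 xE
  have hT : ⁅E, zpowers x⁆ ≤ E := commutator_le_of_le_normalizer_left hxE
  have hn : zpowers x ≤ normalizer ((⁅E, zpowers x⁆ : Subgroup G) : Set G) :=
    le_normalizer_commutator hxE le_normalizer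
  have hfix := inf_centralizer_inf_commutator_eq_bot (A := zpowers x) (V := E)
    ⟨⟨fun a b => Subtype.ext (h.comm hE a.2 b.2)⟩⟩ hxE (by
      obtain ⟨k, hk⟩ := IsPGroup.iff_card.1 hE
      rw [Nat.card_zpowers, ox, hk]
      exact ((Nat.coprime_primes hl Nat.prime_two).2 l2).pow_right _)
  obtain ⟨l', rfl⟩ : ∃ l', l = l' + 1 := ⟨l - 1, by have := hl.pos; omega⟩
  have key := frob_norm U.normalizerMonoidHom
    ((⁅E, zpowers x⁆ : Subgroup G).subgroupOf (normalizer (U : Set G))) ⟨x, xU⟩ l'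
    (fun i t ht => mem_subgroupOf.2
      (conj_mem_of_mem_normalizer' (hn (npow_mem_zpowers x i)) (mem_subgroupOf.1 ht)))
    (fun i hi t ht e => by
      have e1 : x ^ (i + 1) * (t : G) = t * x ^ (i + 1) := congrArg Subtype.val e
      have e2 : zpowers (x ^ (i + 1)) = zpowers x := by
        refine eq_of_le_of_card_ge (zpowers_le.2 (npow_mem_zpowers x _)) ?_
        rw [Nat.card_zpowers, Nat.card_zpowers, Nat.Coprime.orderOf_pow]
        rw [ox]
        exact (Nat.coprime_of_lt_prime (by omega) (by omega) hl)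
      refine Subtype.ext (mem_bot.1 (hfix.le ⟨?_, ht⟩))
      rw [← e2, centralizer_zpowers]
      exact mem_C.2 e1)
    (fun m => by
      have h1 : ∀ n : ℕ, ((∏ i ∈ Finset.range n, U.normalizerMonoidHom (⟨x, xU⟩ ^ i) m : U) : G) *
          x ^ n = (m * x) ^ n := fun n => by
        induction n with
        | zero => simp
        | succ n ih =>
          rw [Finset.prod_range_succ, pow_succ ((m : G) * x), ← ih, Subgroup.coe_mul]
          have : ((U.normalizerMonoidHom (⟨x, xU⟩ ^ n) m : U) : G) = x ^ n * m * (x ^ n)⁻¹ := rfl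
          rw [this]; group
      have h2 := h1 (l' + 1)
      rw [hx, mul_one, (h.pow_coset hU hl l2 hx xU m.2).resolve_right x1] at h2
      exact Subtype.ext h2)
    (fun m hm => by
      rw [card_subgroupOf (hT.trans hEU)] at hm
      exact orderOf_eq_one_iff.1 (Nat.eq_one_of_dvd_coprimes
        (coprime_card_of_isPGroup (hE.to_le hT) (h.odd_r hU))
        (orderOf_dvd_of_pow_eq_one hm) (orderOf_dvd_natCard m)))
  intro t ht
  refine mem_centralizer_iff.2 fun u hu => ?_
  have : t * u * t⁻¹ = u := congrArg Subtype.val (key ⟨t, hEU (hT ht)⟩ ht ⟨u, hu⟩)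
  exact (mul_inv_eq_iff_eq_mul.1 this).symm

theorem of_surjective {X : Type*} [Group X] (h : NR G r) (f : G →* X) (hf : Function.Surjective f) :
    NR X r := h.of_orders (orders_of_surjective f hf)

theorem key_one (G : Type u) [Group G] [Finite G] : NR G r → ∀ {U E : Subgroup G}, IsPGroup r U →
    IsPGroup 2 E → E ≤ normalizer (U : Set G) → ∀ {x : G} {l : ℕ}, l.Prime → l ≠ 2 → x ^ l = 1 →
    x ∈ normalizer (U : Set G) → x ∈ normalizer (E : Set G) →
    ⁅E, zpowers x⁆ ≤ centralizer (U : Set G) := by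
  refine card_induction (P := fun G _ _ => NR G r → ∀ {U E : Subgroup G}, IsPGroup r U →
    IsPGroup 2 E → E ≤ normalizer (U : Set G) → ∀ {x : G} {l : ℕ}, l.Prime → l ≠ 2 → x ^ l = 1 →
    x ∈ normalizer (U : Set G) → x ∈ normalizer (E : Set G) →
    ⁅E, zpowers x⁆ ≤ centralizer (U : Set G)) ?_ G
  intro G _ _ ih h U E hU hE hEU x l hl l2 hx xU xE
  haveI := h.fact
  by_cases U1 : U = ⊥
  · simp [U1]
  have hZ := inf_centralizer_ne_bot hU hU le_normalizer U1
  have nZ : normalizer (U : Set G) ≤ normalizer ((U ⊓ centralizer (U : Set G) : Subgroup G) : Set G) :=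
    le_normalizer_inf le_rfl (le_normalizer_centralizer le_rfl)
  obtain ⟨Q, _, _, f, hf, hk, hQ⟩ := exists_bar (inf_le_left.trans le_normalizer) nZ
  have hxE : zpowers x ≤ normalizer (E : Set G) := zpowers_le.2 xE
  have hT : ⁅E, zpowers x⁆ ≤ E := commutator_le_of_le_normalizer_left hxE
  have h1 := h.key_ab (hU.to_le inf_le_left) (fun a ha b hb => mem_centralizer_iff.1 hb.2 a ha.1)
    hE (hEU.trans nZ) hl l2 hx (nZ xU) xE
  have h2 := ih Q (by
      have e := card_mul_relIndex (inf_le_left.trans le_normalizer :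
        U ⊓ centralizer (U : Set G) ≤ normalizer (U : Set G))
      have e1 := (one_lt_card_iff_ne_bot _).2 hZ
      have e2 : Nat.card (normalizer (U : Set G)) ≤ Nat.card G := card_le_card_group _
      have e3 : 0 < Nat.card Q := Nat.card_pos
      rw [← hQ] at e
      nlinarith)
    ((h.subgroup _).of_surjective f hf) (isPGroup_bar f hU) (isPGroup_bar f hE)
    (bar_le_normalizer f hEU) (x := f ⟨x, xU⟩) hl l2
    (by rw [← map_pow, show (⟨x, xU⟩ : normalizer (U : Set G)) ^ l = 1 from Subtype.ext hx, map_one])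
    (bar_le_normalizer f le_rfl (mem_bar_of_mem f xU))
    (bar_le_normalizer f le_rfl (mem_bar_of_mem f xE))
  rw [← bar_zpowers, ← bar_commutator f hEU (zpowers_le.2 xU),
    bar_le_centralizer_iff f (hT.trans hEU) le_normalizer, hk, commutator_comm] at h2
  exact le_centralizer_iff.1 ((coprimeAct_of_isPGroup_left (hE.to_le hT) (h.odd_r hU)
    (hT.trans hEU)).le_centralizer (h2.trans (le_centralizer_iff.1 h1)))

/-- **Key lemma**: `[E, N(E) ∩ N(U)]` centralises `U` -/
theorem key (h : NR G r) {U E : Subgroup G} (hU : IsPGroup r U) (hE : IsPGroup 2 E)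
    (hEU : E ≤ normalizer (U : Set G)) :
    ⁅normalizer (E : Set G) ⊓ normalizer (U : Set G), E⁆ ≤ centralizer (U : Set G) := by
  obtain ⟨Q, _, _, f, -, hk, -⟩ := exists_bar (centralizer_le_normalizer (U : Set G))
    (le_normalizer_centralizer le_rfl)
  rw [← hk, ← bar_le_centralizer_iff f inf_le_right hEU, bar_le_iff f inf_le_right]
  refine le_of_forall_isSyl fun q hq => ?_
  haveI := Fact.mk hq
  obtain ⟨P, hP⟩ := exists_isSyl q (normalizer (E : Set G) ⊓ normalizer (U : Set G))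
  refine ⟨P, hP, ?_⟩
  rw [← bar_le_iff f (hP.le.trans inf_le_right),
    bar_le_centralizer_iff f (hP.le.trans inf_le_right) hEU, hk]
  have one : ∀ x ∈ P, ∀ l : ℕ, l.Prime → l ≠ 2 → x ^ l = 1 →
      ⁅E, zpowers x⁆ ≤ centralizer (U : Set G) := fun x hx l hl l2 e =>
    key_one G h hU hE hEU hl l2 e (hP.le hx).2 (hP.le hx).1
  by_cases q2 : q = 2
  · subst q2
    rw [commutator_eq_bot_iff_le_centralizer.2 (h.le_cent (isPGroup_sup_of_le_normalizer hP.isPGroup
      hE (hP.le.trans inf_le_left)) le_sup_left le_sup_right)]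
    exact bot_le
  by_cases qr : q = r
  · subst qr
    rw [commutator_comm]
    exact commutator_le.2 fun e he x hx => one x hx q hq q2 (h.pow_r hP.isPGroup hx)
      (commutator_mem_commutator he (mem_zpowers x))
  by_cases P1 : P = ⊥
  · simp [P1]
  obtain ⟨y, hy⟩ := exists_prime_orderOf_dvd_card' q (dvd_card_of_isPGroup_of_ne_bot hP.isPGroup P1)
  rw [← Subgroup.orderOf_coe] at hy
  have hyE : zpowers (y : G) ≤ normalizer (E : Set G) := zpowers_le.2 (hP.le y.2).1
  have h1 := (coprimeAct_of_isPGroup_right (p := 2) (by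
    rw [Nat.card_zpowers, hy]
    exact fun e => q2 ((Nat.prime_dvd_prime_iff_eq Nat.prime_two hq).1 e).symm) hE
      hyE).inf_centralizer_sup_commutator
  have h2 : E ⊓ centralizer (zpowers (y : G) : Set G) = ⊥ := eq_bot_iff.2 fun e he => by
    by_contra e1
    rcases h.primes (Or.inl (ord_two (h.sq hE he.1) e1)) (hy ▸ hq)
      (mem_centralizer_iff.1 he.2 y (mem_zpowers _)).symm with e2 | e2
    · exact q2 (hy ▸ e2)
    · exact qr (hy ▸ e2)
  rw [h2, bot_sup_eq] at h1
  exact (commutator_le_of_le_normalizer_right (hP.le.trans inf_le_left)).trans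
    (h1.ge.trans (one y y.2 q hq q2 (by rw [← hy, pow_orderOf_eq_one])))

end NR

end Cfsg.Agent.Lib.OD
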