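/-
S4371 project, pieces N1, N2.
-/
import Cfsg.Agent.Lib.OD.Nr0
import Cfsg.Agent.Lib.AG.St1a
import Cfsg.Agent.Lib.AG.Loc4

set_option autoImplicit false
set_option linter.unusedSectionVars false
set_option linter.style.haveILetI false

namespace Cfsg.Agent.Lib.OD

open Subgroup Cfsg.Agent.Lib.Core Cfsg.Agent.Lib.AG
open scoped commutatorElement

universe u

variable {G : Type u} [Group G] [Finite G] {r : ℕ}

theorem solv_top_iff : Group.IsSolvable (⊤ : Subgroup G) ↔ Group.IsSolvable G :=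
  ⟨fun _ => Group.isSolvable_of_surjective (f := (⊤ : Subgroup G).subtype)
    fun x => ⟨⟨x, trivial⟩, rfl⟩, fun _ => inferInstance⟩

/-- `G` is solvable when `C ⊴ G` is solvable and `[N(S), S] ≤ C` -/
theorem solv_of_comm_le {S C : Subgroup G} [C.Normal] (hS : IsSyl 2 S ⊤) (hC : Group.IsSolvable C)
    (h : ⁅normalizer (S : Set G), S⁆ ≤ C) : Group.IsSolvable G := by
  have hf := QuotientGroup.mk'_surjective C
  have h1 := hS.map (QuotientGroup.mk' C)
  rw [map_top_of_surjective _ hf] at h1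
  have h2 := burnside_sup h1 fun g hg => by
    obtain ⟨g, rfl⟩ := hf g
    have e1 : g ∈ normalizer (((S.map (QuotientGroup.mk' C)).comap (QuotientGroup.mk' C) :
        Subgroup G) : Set G) := le_normalizer_comap _ hg.2
    rw [comap_map_eq, QuotientGroup.ker_mk'] at e1
    obtain ⟨n, hn, m, hm, rfl⟩ := (hS.mono le_sup_left le_top).frattini le_rfl e1
    obtain ⟨a, ha, c, hc, rfl⟩ := (mem_sup_of_le_normalizer_right le_normalizer_of_normal).1 hn
    have e2 := commutator_le_iff_map_le_centralizer.1 h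
    rw [map_mul, map_mul, show QuotientGroup.mk' C c = 1 from (QuotientGroup.eq_one_iff c).2 hc,
      mul_one]
    exact mul_mem (e2 ⟨a, le_normalizer ha, rfl⟩) (e2 ⟨m, hm, rfl⟩)
  exact (Group.isSolvable_iff_subgroup_quotient C).2 ⟨hC,
    solv_top_iff.1 (solv_of_sup (isSolvable_of_isPGroup h1.isPGroup) le_top h2)⟩

namespace NR

theorem card_le_two (h : NR G r) {S : Subgroup G} (hS : IsPGroup 2 S) (hc : IsCyclic S) :
    Nat.card S ≤ 2 := by
  rw [← hc.exponent_eq_card]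
  exact Nat.le_of_dvd two_pos (Monoid.exponent_dvd_of_forall_pow_eq_one fun x =>
    Subtype.ext (by simpa [pow_two] using h.sq hS x.2))

theorem not_cyc (h : NR G r) (hs : ¬ Group.IsSolvable G) {S : Subgroup G} (hS : IsSyl 2 S ⊤) :
    ¬ IsCyclic S := fun hc => hs (solv_top_iff.1 (solv_of_sup (isSolvable_of_isPGroup hS.isPGroup)
      le_top (sup_of_card_le_two hS (h.card_le_two hS.isPGroup hc))))

theorem red (h : NR G r) (hs : ¬ Group.IsSolvable G) :
    OpOf 2 (⊤ : Subgroup G) = ⊥ ∧ OppOf 2 (⊤ : Subgroup G) = ⊥ := by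
  haveI := h.fact
  obtain ⟨S, hS⟩ := exists_isSyl 2 (⊤ : Subgroup G)
  have fin : ∀ U : Subgroup G, ⊤ ≤ normalizer (U : Set G) → ∀ d ∈ U, (orderOf d = 2 ∨ orderOf d = r) →
      ¬ ⁅normalizer (S : Set G), S⁆ ≤ centralizer (U : Set G) := fun U hU d hd od e => by
    haveI := normal_of_le_normalizer_top (le_normalizer_centralizer hU)
    exact hs (solv_of_comm_le hS (isSolvable_of_le (h.solv_cent od)
      (centralizer_le (by simpa using hd))) e)
  constructor
  · by_contra hne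
    obtain ⟨d, hd, d2⟩ := St1.exists_inv (OpOf_isPGroup _) hne
    exact fin _ (le_normalizer_OpOf le_normalizer) d hd (Or.inl d2)
      ((commutator_le_of_le_normalizer_right le_rfl).trans
        (h.le_cent hS.isPGroup le_rfl (OpOf_le_of_isSyl hS)))
  by_contra hne
  obtain ⟨q, hq, hU⟩ := exists_OpOf_ne_bot_of_isSolvable (solv_O _) hne
  haveI := Fact.mk hq
  have nU : ⊤ ≤ normalizer (OpOf q (OppOf 2 (⊤ : Subgroup G)) : Set G) :=
    le_normalizer_OpOf (le_normalizer_OppOf le_normalizer)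
  have oU := not_dvd_card_of_le (OppOf_not_dvd (p := 2) (⊤ : Subgroup G)) (OpOf_le (p := q) _)
  have qr : q = r := by
    by_contra qr
    refine hU (eq_bot_iff.2 (le_of_centralizers ⟨⟨fun a b => Subtype.ext (h.comm hS.isPGroup a.2 b.2)⟩⟩
      (h.not_cyc hs hS) (le_top.trans nU) (coprime_card_of_isPGroup hS.isPGroup oU) fun a ha a1 => ?_))
    exact (eq_bot_of_isPGroup_of_not_dvd ((OpOf_isPGroup _).to_le inf_le_left)
      (not_dvd_card_of_isPGroup (h.isPGroup_of_cent (h.sq hS.isPGroup ha) a1 inf_le_right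
        (not_dvd_card_of_le oU inf_le_left)) qr)).le
  subst qr
  obtain ⟨d, hd, d1, dq⟩ := exists_order_p (OpOf_isPGroup _) hU
  exact fin _ nU d hd (Or.inr (orderOf_eq_prime dq d1)) ((commutator_mono
    (le_inf le_rfl (le_top.trans nU)) le_rfl).trans (h.key (OpOf_isPGroup _) hS.isPGroup
      (le_top.trans nU)))

/-- `X = O(X) N_X(P)` for solvable `X` -/
theorem sfact (h : NR G r) {P X : Subgroup G} (hX : Group.IsSolvable X) (hP : IsSyl 2 P X) :
    OppOf 2 X ⊔ (X ⊓ normalizer (P : Set G)) = X := by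
  have h0 : P ≤ OppPOf 2 X := (le_inf hP.le (h.le_cent hP.isPGroup le_rfl inf_le_left)).trans
    (inf_centralizer_le_OppPOf (psolv_of_isSolvable hX).LOf_eq_bot
      (hP.inf_normal (OppPOf_le (p := 2) X) (self_le_normalizer_OppPOf X)))
  have h1 : IsSyl 2 P (OppPOf 2 X) := hP.mono h0 (OppPOf_le X)
  have h2 := h1.frattini_sup (OppPOf_le X) (self_le_normalizer_OppPOf X)
  rw [← h1.sup_OppOf] at h2
  refine le_antisymm (sup_le (OppOf_le X) inf_le_left) (h2.ge.trans ?_)
  exact sup_le (sup_le ((le_inf hP.le le_normalizer).trans le_sup_right) le_sup_left) le_sup_right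

theorem se (h : NR G r) {S M : Subgroup G} (hS : IsSyl 2 S ⊤) (h0 : S ≠ ⊥) (hM : M ≠ ⊤)
    (h1 : normalizer (S : Set G) ≤ M) (h2 : ∀ a ∈ S, a ≠ 1 → centralizer {a} ≤ M) : SE G := by
  have hS' : IsSyl 2 S M := hS.mono (le_normalizer.trans h1) le_top
  have k : ∀ t ∈ M, orderOf t = 2 → ∃ m ∈ M, m * t * m⁻¹ ∈ S := fun t ht t2 => by
    obtain ⟨m, hm, e⟩ := hS'.exists_conj_le (isPGroup_zpowers (k := 1) (x := t)
      (by rw [pow_one, ← t2, pow_orderOf_eq_one])) (zpowers_le.2 ht)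
    exact ⟨m, hm, map_conj_le_iff.1 e t (mem_zpowers t)⟩
  refine ⟨M, Invol.isStronglyEmbedded_iff.2 ⟨hM, ?_, fun g t ht t2 hg => ?_⟩⟩
  · exact even_iff_two_dvd.2 ((dvd_card_of_isPGroup_of_ne_bot hS.isPGroup h0).trans
      (card_dvd_of_le hS'.le))
  obtain ⟨m, hm, e⟩ := k t ht t2
  obtain ⟨m', hm', e'⟩ := k _ hg (by rw [← t2]; exact (MulAut.conj g).orderOf_eq t)
  obtain ⟨P, rfl⟩ := hS.exists_sylow_top
  haveI : IsMulCommutative (P : Subgroup G) :=
    ⟨⟨fun a b => Subtype.ext (h.comm hS.isPGroup a.2 b.2)⟩⟩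
  obtain ⟨n, hn, e2⟩ := Transfer.control_of_abelian_sylow P _ e (m' * g * m⁻¹)
    (by convert e' using 1; group)
  have := h2 (m * t * m⁻¹) e (fun e => by simp at e; simp [e] at t2)
    (x := n⁻¹ * (m' * g * m⁻¹)) (mem_centralizer_singleton_iff.2 (by
      calc _ = n⁻¹ * (m' * g * m⁻¹ * (m * t * m⁻¹) * (m' * g * m⁻¹)⁻¹) * (m' * g * m⁻¹) := by group
        _ = _ := by rw [← e2]; group))
  simpa [mul_assoc] using mul_mem (mul_mem (inv_mem hm') (mul_mem (h1 hn) this)) hm

theorem norm_ne_top (hO : OpOf 2 (⊤ : Subgroup G) = ⊥) {S : Subgroup G} (hS : IsPGroup 2 S)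
    (h0 : S ≠ ⊥) : normalizer (S : Set G) ≠ ⊤ := fun e =>
  h0 (eq_bot_iff.2 ((le_OpOf le_top e.ge hS).trans hO.le))

theorem big (h : NR G r) (hs : ¬ Group.IsSolvable G) (h8 : 8 ∣ Nat.card G) : SE G := by
  obtain ⟨S, hS⟩ := exists_isSyl 2 (⊤ : Subgroup G)
  obtain ⟨hO2, hO⟩ := h.red hs
  have hC : ∀ a ∈ S, S ≤ centralizer {a} := fun a ha x hx => mem_C.2 (h.comm hS.isPGroup ha hx)
  have sol : ∀ a ∈ S, a ≠ 1 → Group.IsSolvable (centralizer ({a} : Set G)) := fun a ha a1 =>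
    h.solv_cent (Or.inl (ord_two (h.sq hS.isPGroup ha) a1))
  have rk : 2 ^ 3 ≤ Nat.card S := by
    rw [hS.card_eq, card_top]
    exact Nat.pow_le_pow_right two_pos ((Nat.prime_two.pow_dvd_iff_le_factorization
      Nat.card_pos.ne').1 h8)
  have S1 : S ≠ ⊥ := fun e => by simp [e] at rk
  obtain ⟨hW, -⟩ := S0217.result S (fun a ha b hb => h.comm hS.isPGroup ha hb)
    (fun a ha => by rw [pow_two, h.sq hS.isPGroup ha]) rk (fun a => OppOf 2 (centralizer {a}))
    (fun a _ _ => OppOf_le _) (fun a _ _ => OppOf_not_dvd _)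
    (fun a ha _ b hb x hx => conj_mem_of_mem_normalizer
      (le_normalizer_OppOf le_normalizer (hC a ha hb)) hx)
    (fun a _ _ => solv_O _) fun a ha _ b hb b1 => by
      refine le_trans ?_ (OppOf_inf_centralizer_le (R := zpowers a)
        (psolv_of_isSolvable (sol b hb b1)).LOf_eq_bot
        (isPGroup_zpowers_of_mem hS.isPGroup ha) (by simpa using hC b hb ha))
      rw [centralizer_zpowers]
      exact (le_inf inf_le_left (le_inf inf_le_right (inf_le_left.trans (OppOf_le _)))).trans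
        (inf_OppOf_le inf_le_right)
  set W := ⨆ a : {a : G // a ∈ S ∧ a ≠ 1}, OppOf 2 (centralizer {(a : G)}) with hWd
  have hN : normalizer (S : Set G) ≤ normalizer (W : Set G) := fun g hg =>
    mem_normalizer_of_conj_mem (map_conj_le_iff.mp (by
      rw [hWd, Subgroup.map_iSup]
      refine iSup_le fun a => ?_
      rw [OppOf_conj, map_conj_centralizer_singleton]
      exact le_iSup_of_le (f := fun a : {a : G // a ∈ S ∧ a ≠ 1} =>
        OppOf 2 (centralizer {(a : G)})) ⟨g * a * g⁻¹, conj_mem_of_mem_normalizer hg a.2.1,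
          by simpa using a.2.2⟩ le_rfl))
  refine h.se hS S1 (M := W ⊔ normalizer (S : Set G)) (fun e => ?_) le_sup_right fun a ha a1 => ?_
  · rw [eq_bot_iff.2 ((le_OppOf le_top (e.ge.trans (sup_le le_normalizer hN)) hW).trans hO.le),
      bot_sup_eq] at e
    exact norm_ne_top hO2 hS.isPGroup S1 e
  · rw [← h.sfact (sol a ha a1) (hS.mono (hC a ha) le_top)]
    exact sup_le_sup (le_iSup_of_le (f := fun a : {a : G // a ∈ S ∧ a ≠ 1} =>
      OppOf 2 (centralizer {(a : G)})) ⟨a, ha, a1⟩ le_rfl) inf_le_right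

end NR

end Cfsg.Agent.Lib.OD
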