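/-
S4371 project, piece C1: the odd core and quotients of `C4`-groups.
-/
import Cfsg.Agent.Lib.OD.Loc
import Cfsg.Agent.Lib.OD.Ad0
import Cfsg.Agent.Lib.OD.Nr
import Cfsg.Agent.Lib.AG.BSW
import Cfsg.Agent.Lib.PGroup.Basic

set_option autoImplicit false

namespace Cfsg.Agent.Lib.OD

open Subgroup Cfsg.Agent.Lib.Core Cfsg.Agent.Lib.AG

variable {G : Type*} [Group G] [Finite G]

theorem C4.oddCore (h : C4 G) (hs : ¬ Group.IsSolvable G) : OppOf 2 (⊤ : Subgroup G) = ⊥ := by
  by_contra hO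
  set O := OppOf 2 (⊤ : Subgroup G)
  have oO : ∀ x ∈ O, Odd (orderOf x) := fun x hx => Nat.not_even_iff_odd.1 fun e =>
    OppOf_not_dvd (p := 2) ⊤ (e.two_dvd.trans (orderOf_dvd_natCard O hx))
  have nO : ∀ g : G, g ∈ normalizer (O : Set G) := fun g =>
    le_normalizer_OppOf (K := ⊤) le_normalizer (mem_top g)
  have inv : ∀ t : G, t * t = 1 → t ≠ 1 → ∀ x ∈ O, t * x * t = x⁻¹ := fun t tt t1 x hx =>
    inv_of_fpf tt (fun k hk => by simpa [inv_eq_of_mul_eq_one_right tt] using cj_mem (nO t) hk)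
      (fun k hk e => h.odd tt t1 e.symm (oO k hk)) hx
  have ex : ∀ X : Subgroup G, 2 ∣ Nat.card X → ∃ t ∈ X, t * t = 1 ∧ t ≠ 1 := fun X hX => by
    obtain ⟨t, ht⟩ := exists_prime_orderOf_dvd_card' 2 hX
    rw [← orderOf_coe, orderOf_eq_prime_iff, pow_two] at ht
    exact ⟨t, t.2, ht⟩
  have hC : centralizer (O : Set G) ≤ O := le_OppOf le_top
    (fun g _ => normalizer_le_normalizer_centralizer _ (nO g)) fun e => by
      obtain ⟨t, ht, tt, t1⟩ := ex _ e
      exact hO (eq_bot_iff.2 fun x hx => h.odd tt t1 (ht x hx).symm (oO x hx))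
  obtain ⟨t, -, tt, t1⟩ := ex ⊤ (by_contra fun e => hs (solv_top_iff.1 (solv_of_odd e)))
  have ti : t⁻¹ = t := inv_eq_of_mul_eq_one_right tt
  refine hs (solv_top_iff.1 (solv_of_sup (isSolvable_of_isPGroup (h.pC tt t1)) le_top
    (eq_top_iff.2 fun g _ => ?_)))
  obtain ⟨n, hn, e⟩ := PGroup.exists_fixed_in_coset (q := 2) (OppOf_not_dvd (p := 2) ⊤)
    (a := MulAut.conj t) (k := 1) (by rw [← map_pow, pow_one, pow_two, tt, map_one])
    (fun n hn => cj_mem (nO t) hn) (x := g) (hC fun x hx => by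
      have h1 := inv (g⁻¹ * t * g) (by simp [mul_assoc, ← mul_assoc t t, tt])
        (fun e => t1 (by simpa [mul_assoc, inv_mul_eq_iff_eq_mul] using e)) _ (inv_mem hx)
      rw [inv_inv, ← inv t tt t1 x hx] at h1
      rw [MulAut.conj_apply, ti]
      nth_rewrite 1 [← h1]
      simp [mul_assoc, ← mul_assoc t t, tt])
  rw [← mul_inv_cancel_right g n]
  exact mul_mem (mem_sup_right (mem_centralizer_singleton_iff.2 (mul_inv_eq_iff_eq_mul.1 e).symm))
    (mem_sup_left (inv_mem hn))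

theorem C4.quot (h : C4 G) (N : Subgroup G) [N.Normal] (hN : IsPGroup 2 N) : C4 (G ⧸ N) := by
  intro t g tt t1 e
  obtain ⟨t, rfl⟩ := QuotientGroup.mk'_surjective N t
  obtain ⟨g, rfl⟩ := QuotientGroup.mk'_surjective N g
  have h1 := Nat.eq_prime_pow_of_unique_prime_dvd (p := 2) (orderOf_pos g).ne' fun {p} hp hd =>
    by_contra fun p2 => by
      haveI := Fact.mk hp
      obtain ⟨x, hx, ox⟩ := exists_order_of_dvd g hd
      obtain ⟨n, hn, e1⟩ := PGroup.exists_fixed_in_coset (q := p) (N := N)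
        (fun e => by
          obtain ⟨k, hk⟩ := IsPGroup.iff_card.1 hN
          exact p2 ((Nat.prime_dvd_prime_iff_eq hp Nat.prime_two).1 (hp.dvd_of_dvd_pow (hk ▸ e))))
        (a := MulAut.conj x) (k := 1) (by rw [← map_pow, pow_one, ← ox, pow_orderOf_eq_one, map_one])
        (fun n hn => ‹N.Normal›.conj_mem n hn x) (x := t) (by
          rw [← QuotientGroup.eq_one_iff, ← QuotientGroup.mk'_apply, MulAut.conj_apply, map_mul,
            map_mul, map_mul, comm_zpowers (mem_map_of_mem _ hx |> (MonoidHom.map_zpowers _ g).le)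
              e.symm, map_inv, map_inv]
          simp)
      have h2 : QuotientGroup.mk' N (t * n) = QuotientGroup.mk' N t := by
        simp [(QuotientGroup.eq_one_iff n).2 hn]
      obtain ⟨j, hj⟩ := hN ⟨t * n * (t * n), (QuotientGroup.eq_one_iff _).1 (by
        rw [← QuotientGroup.mk'_apply, map_mul, h2, tt])⟩
      refine t1 (by rw [← h2, h.fpf (isPGroup_zpowers (k := j + 1) (by
        rw [pow_succ', pow_mul, pow_two]; exact congrArg Subtype.val hj))
        (ox ▸ hp.odd_of_ne_two p2) (fun e => hp.one_lt.ne (by rw [← ox, e, orderOf_one]))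
        (mem_zpowers (t * n)) (mul_inv_eq_iff_eq_mul.1 e1), map_one])
  rw [← map_pow, h.pow4 (isPGroup_zpowers (h1 ▸ pow_orderOf_eq_one g)) (mem_zpowers g), map_one]

end Cfsg.Agent.Lib.OD
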