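/-
S4371 project, piece N3: Klein four Sylow 2-subgroups.
-/
import Cfsg.Agent.Lib.OD.Nr
import Cfsg.Agent.Lib.AG.Vs0

set_option autoImplicit false
set_option linter.unusedSectionVars false
set_option linter.style.haveILetI false

namespace Cfsg.Agent.Lib.OD

open Subgroup Cfsg.Agent.Lib.Core Cfsg.Agent.Lib.AG
open scoped commutatorElement

universe u

variable {G : Type u} [Group G] [Finite G] {r : ℕ} {t s w : G}

theorem inv_fpf {K : Subgroup G} {u : G} (hu : u * u = 1) (hK : ∀ k ∈ K, u * k * u ∈ K)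
    (hf : ∀ k ∈ K, k * u = u * k → k = 1) {k : G} (hk : k ∈ K) : u * k * u = k⁻¹ := by
  have ui : u⁻¹ = u := inv_eq_of_mul_eq_one_right hu
  let f : K → K := fun a => ⟨(a : G)⁻¹ * (u * a * u), mul_mem (inv_mem a.2) (hK _ a.2)⟩
  have : Function.Injective f := fun a b e => by
    have e1 : (a : G)⁻¹ * (u * a * u) = (b : G)⁻¹ * (u * b * u) := congrArg Subtype.val e
    refine Subtype.ext (mul_inv_eq_one.1 (hf _ (mul_mem a.2 (inv_mem b.2)) ?_))
    calc (a : G) * (b : G)⁻¹ * u = a * ((b : G)⁻¹ * (u * b * u)) * u⁻¹ * (b : G)⁻¹ := by group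
      _ = _ := by rw [← e1]; group
  obtain ⟨a, ha⟩ := Finite.surjective_of_injective this ⟨k, hk⟩
  have e : k = (a : G)⁻¹ * (u * a * u) := (congrArg Subtype.val ha).symm
  rw [e]
  calc u * ((a : G)⁻¹ * (u * a * u)) * u = u * (a : G)⁻¹ * u * a * (u * u) := by group
    _ = _ := by rw [hu, mul_inv_rev, mul_inv_rev, mul_inv_rev, ui]; group

/-- `V`-invariant `r`-subgroups -/
structure VInv (r : ℕ) (V P : Subgroup G) : Prop where
  p : IsPGroup r P
  n : V ≤ normalizer (P : Set G)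

def VMax (r : ℕ) (V P : Subgroup G) : Prop := VInv r V P ∧ ∀ Q, VInv r V Q → P ≤ Q → Q = P

theorem VInv.conj {V P : Subgroup G} (h : VInv r V P) {g : G} (hg : g ∈ normalizer (V : Set G)) :
    VInv r V (P.map (MulAut.conj g).toMonoidHom) := ⟨h.p.map _, le_normalizer_conj h.n hg⟩

theorem VMax.conj {V P : Subgroup G} (h : VMax r V P) {g : G} (hg : g ∈ normalizer (V : Set G)) :
    VMax r V (P.map (MulAut.conj g).toMonoidHom) := ⟨h.1.conj hg, fun Q hQ e => by
  rw [← h.2 _ (hQ.conj (inv_mem hg)) ((map_conj_inv_map_conj P g).ge.trans (map_mono e)),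
    map_conj_map_conj_inv]⟩

namespace NR

theorem isP (h : NR G r) (k : K4 t s) {Y : Subgroup G} (hV : Vf t s ≤ normalizer (Y : Set G))
    (ho : ¬ 2 ∣ Nat.card Y) : IsPGroup r Y :=
  haveI := h.fact
  isPi_singleton_iff.1 fun q hq hd => by
    by_contra qr
    haveI := Fact.mk hq
    obtain ⟨Q, hQ, hVQ⟩ := (k.coprimeAct hV ho).exists_isSyl q
    have oQ := not_dvd_card_of_le ho hQ.le
    have key : ∀ e : G, e * e = 1 → e ≠ 1 → Q ⊓ centralizer {e} ≤ ⊥ := fun e ee e1 =>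
      (eq_bot_of_isPGroup_of_not_dvd (hQ.isPGroup.to_le inf_le_left)
        (not_dvd_card_of_isPGroup (h.isPGroup_of_cent ee e1 inf_le_right
          (not_dvd_card_of_le oQ inf_le_left)) qr)).le
    exact hQ.ne_bot hd (eq_bot_iff.2 (k.gen hVQ oQ (key _ k.tt k.t1) (key _ k.ss k.s1)
      (key _ k.tsts k.ts1)))

theorem invO (h : NR G r) (k : K4 t s) {M : Subgroup G} (hM : Vf t s ≤ M) :
    VInv r (Vf t s) (OppOf 2 M) :=
  ⟨h.isP k (le_normalizer_OppOf (hM.trans le_normalizer)) (OppOf_not_dvd _),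
    le_normalizer_OppOf (hM.trans le_normalizer)⟩

theorem cent_of_cyc (h : NR G r) (k : K4 t s) {U : Subgroup G} (hU : VInv r (Vf t s) U) {g : G}
    (hg : g ∈ normalizer (U : Set G)) (g1 : g * t * g⁻¹ = s) (g2 : g * s * g⁻¹ = t * s) :
    U ≤ centralizer (Vf t s : Set G) := by
  have key := h.key hU.p k.two hU.n
  have gN := k.mem_normalizer (g := g) (by rw [g1]; exact s_mem_Vf) (by rw [g2]; exact ts_mem_Vf)
  have h1 := key (commutator_mem_commutator ⟨gN, hg⟩ t_mem_Vf)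
  have h2 := key (commutator_mem_commutator ⟨gN, hg⟩ s_mem_Vf)
  rw [commutatorElement_def, g1] at h1
  rw [commutatorElement_def, g2, mul_inv_cancel_right] at h2
  exact le_centralizer_iff.1 (Vf_le.2 ⟨h2, by simpa using mul_mem h1 h2⟩)

theorem le_O_norm (h : NR G r) (k : K4 t s) {D Y : Subgroup G} (hD : VInv r (Vf t s) D)
    (D1 : D ≠ ⊥) (hY : VInv r (Vf t s) Y) (hYN : Y ≤ normalizer (D : Set G)) :
    Y ≤ OppOf 2 (normalizer (D : Set G)) := by
  rcases k.sup_or_cycle hD.n with e | ⟨g, hg, g1, g2⟩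
  · exact le_O_of_odd k.two hD.n e hYN (h.odd_r hY.p)
  have sol : Group.IsSolvable (normalizer (D : Set G)) := by
    by_contra hs
    have := ((h.subgroup _).red hs).2
    rw [OppOf_top] at this
    exact D1 (eq_bot_iff.2 ((le_OppOf le_normalizer le_rfl (h.odd_r hD.p)).trans
      (by rw [OppOf_def, this, Subgroup.map_bot])))
  have hO := h.cent_of_cyc k (h.invO k hD.n) (le_normalizer_OppOf le_normalizer hg) g1 g2
  have hN : normalizer (D : Set G) ≤ normalizer (Vf t s : Set G) := by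
    rw [← h.sfact sol (k.syl hD.n)]
    exact sup_le (hO.trans (centralizer_le_normalizer _)) inf_le_right
  have hYC : Y ≤ centralizer (Vf t s : Set G) := le_centralizer_of_inf_eq_bot (hYN.trans hN) hY.n
    (inf_comm (Vf t s) Y ▸ inf_eq_bot_of_isPGroup_of_not_dvd k.two (h.odd_r hY.p))
  have hVC := le_inf hD.n k.le_centralizer
  have e := (k.sup_or_cycle hVC).resolve_right fun ⟨g, hg, g1, _⟩ =>
    k.ts (by rw [← g1, ← (mem_centralizer_Vf.1 hg.2).1, mul_inv_cancel_right])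
  exact (le_O_of_odd k.two hVC e (le_inf hYN hYC) (h.odd_r hY.p)).trans
    (OppOf_mono_of_normal inf_le_left (le_normalizer_inf le_normalizer (le_normalizer_centralizer hN)))

theorem uniq (h : NR G r) (k : K4 t s) (D : Subgroup G) : D ≠ ⊥ → ∀ P Q, VMax r (Vf t s) P →
    VMax r (Vf t s) Q → D ≤ P → D ≤ Q → P = Q := by
  haveI := h.fact
  induction D using subgroup_induction_gt with
  | h D ih =>
  intro D1 P Q hP hQ h1 h2
  rcases (le_inf h1 h2).lt_or_eq with e | e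
  · exact ih _ e (ne_bot_of_gt e) P Q hP hQ inf_le_left inf_le_right
  subst e
  by_contra hne
  have hD : VInv r (Vf t s) (P ⊓ Q) := ⟨hP.1.p.to_le inf_le_left, le_normalizer_inf hP.1.n hQ.1.n⟩
  obtain ⟨R, hR1, hR⟩ := exists_maximal_subgroup (h.invO k hD.n)
  have k1 : ∀ X, VMax r (Vf t s) X → P ⊓ Q < X → X = R := fun X hX l =>
    ih _ (lt_inf_normalizer_of_isPGroup hX.1.p l)
      (ne_bot_of_gt (lt_inf_normalizer_of_isPGroup hX.1.p l)) X R hX hR inf_le_left
      ((h.le_O_norm k hD D1 ⟨hX.1.p.to_le inf_le_left, le_normalizer_inf hX.1.n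
        (le_normalizer_normalizer hD.n)⟩ inf_le_right).trans hR1)
  exact hne ((k1 P hP (lt_of_le_of_ne inf_le_left fun e =>
    hne (hP.2 Q hQ.1 (inf_eq_left.1 e)).symm)).trans (k1 Q hQ (lt_of_le_of_ne inf_le_right fun e =>
    hne (hQ.2 P hP.1 (inf_eq_right.1 e)))).symm)

theorem cent_of_mem (h : NR G r) (k : K4 t s) (w1 : w * t * w⁻¹ = s) (w2 : w * s * w⁻¹ = t * s)
    {Y : Subgroup G} (hY : VInv r (Vf t s) Y) {x : G} (hx : x ∈ Y) (x1 : x ≠ 1)
    (hw : w * x * w⁻¹ ∈ Y) : Y ≤ centralizer (Vf t s : Set G) := by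
  obtain ⟨P, hP1, hP⟩ := exists_maximal_subgroup hY
  have wN := k.mem_normalizer (g := w) (by rw [w1]; exact s_mem_Vf) (by rw [w2]; exact ts_mem_Vf)
  exact hP1.trans (h.cent_of_cyc k hP.1 (map_conj_eq_iff.1 (h.uniq k (zpowers (w * x * w⁻¹))
    (by simpa using x1) _ _ (VMax.conj hP wN) hP (zpowers_le.2 (conj_mem_map_conj.2 (hP1 hx)))
    (zpowers_le.2 (hP1 hw)))) w1 w2)

theorem mem_K (k : K4 t s) {Y : Subgroup G} (hY : ¬ 2 ∣ Nat.card Y) {y : G} (hy : y ∈ Y) (g : G)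
    (e : g⁻¹ * t * g * y = y * (g⁻¹ * t * g)) : g * y * g⁻¹ ∈ OppOf 2 (centralizer {t}) :=
  k.le_U (X := (Y ⊓ centralizer {g⁻¹ * t * g}).map (MulAut.conj g).toMonoidHom)
    (by rw [map_conj_inf, map_conj_centralizer_singleton]; exact inf_le_right.trans (by simp [mul_assoc]))
    (not_dvd_card_map (not_dvd_card_of_le hY inf_le_left) _) (conj_mem_map_conj.2 ⟨hy, mem_C.2 e⟩)

theorem simple (k : K4 t s) (w1 : w * t * w⁻¹ = s) (w2 : w * s * w⁻¹ = t * s)
    (hO2 : OpOf 2 (⊤ : Subgroup G) = ⊥) (hO : OppOf 2 (⊤ : Subgroup G) = ⊥)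
    (hC : centralizer (Vf t s : Set G) ≤ Vf t s) : IsSimpleGroup G := by
  haveI : Nontrivial G := ⟨⟨t, 1, k.t1⟩⟩
  refine ⟨fun L hL => or_iff_not_imp_left.2 fun L1 => ?_⟩
  have nL : ⊤ ≤ normalizer (L : Set G) := le_normalizer_of_normal
  obtain ⟨e, he, e1⟩ := (bot_or_exists_ne_one _).resolve_left (((k.syl le_top).inf_normal le_top
    nL).ne_bot (by_contra fun o => L1 (eq_bot_iff.2 ((le_OppOf le_top nL o).trans hO.le))))
  have h1 := hL.conj_mem e he.2 w
  have hV : Vf t s ≤ L := by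
    rcases k.mem_Vf.1 he.1 with rfl | rfl | rfl | rfl
    · exact absurd rfl e1
    · exact Vf_le.2 ⟨he.2, w1 ▸ h1⟩
    · exact Vf_le.2 ⟨k.ts_s ▸ mul_mem (w2 ▸ h1) he.2, he.2⟩
    · rw [show w * (t * s) * w⁻¹ = w * t * w⁻¹ * (w * s * w⁻¹) by group, w1, w2, k.s_ts] at h1
      exact Vf_le.2 ⟨h1, k.t_ts ▸ mul_mem h1 he.2⟩
  obtain ⟨g, hg, g1, g2⟩ := (k.sup_or_cycle hV).resolve_left fun e => by
    rw [eq_bot_iff.2 ((OppOf_mono_of_normal le_top nL).trans hO.le), bot_sup_eq] at e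
    exact norm_ne_top hO2 k.two (fun e => k.t1 (mem_bot.1 (e.le t_mem_Vf))) (top_le_iff.1 (e ▸ nL))
  have key : ∀ n : G, n * t * n⁻¹ = s → n * s * n⁻¹ = t * s → n ∈ L := fun n n1 n2 => by
    have : g⁻¹ * n ∈ L := hV (hC (mem_centralizer_Vf.2 ⟨?_, ?_⟩))
    · simpa using mul_mem hg this
    · rw [show g⁻¹ * n * t = g⁻¹ * (n * t * n⁻¹) * n by group, n1, ← g1]; group
    · rw [show g⁻¹ * n * s = g⁻¹ * (n * s * n⁻¹) * n by group, n2, ← g2]; group
  refine top_le_iff.1 (((k.syl hV).frattini_sup le_top nL).ge.trans (sup_le le_rfl fun n hn => ?_))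
  rcases k.norm_cases hn.2 with e | ⟨n1, n2⟩ | ⟨n1, n2⟩
  · exact hV (hC e)
  · exact key n n1 n2
  · exact inv_mem_iff.1 (key _ (k.inv_cycle n1 n2).1 (k.inv_cycle n1 n2).2)

theorem four (h : NR G r) (hs : ¬ Group.IsSolvable G) (h8 : ¬ 8 ∣ Nat.card G) :
    SE G ∨ AG.TB G := by
  obtain ⟨S, hS⟩ := exists_isSyl 2 (⊤ : Subgroup G)
  obtain ⟨hO2, hO⟩ := h.red hs
  have nc := h.not_cyc hs hS
  obtain ⟨t, ht, t1⟩ := (bot_or_exists_ne_one S).resolve_left fun e => nc (e ▸ inferInstance)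
  obtain ⟨s, hs', st⟩ : ∃ s ∈ S, s ∉ zpowers t := by
    by_contra! e
    exact nc (le_antisymm e (zpowers_le.2 ht) ▸ inferInstance)
  have k : K4 t s := ⟨h.sq hS.isPGroup ht, h.sq hS.isPGroup hs', t1, fun e => st (e ▸ one_mem _),
    fun e => st (e ▸ mem_zpowers t), h.comm hS.isPGroup ht hs', h8⟩
  obtain ⟨w, -, w1, w2⟩ := k.exists_cycle le_top (solv_top_iff.not.2 hs)
  have wN := k.mem_normalizer (g := w) (by rw [w1]; exact s_mem_Vf) (by rw [w2]; exact ts_mem_Vf)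
  have w3 : w * (t * s) * w⁻¹ = t := by
    rw [show w * (t * s) * w⁻¹ = w * t * w⁻¹ * (w * s * w⁻¹) by group, w1, w2, k.s_ts]
  have w4 : w⁻¹ * t * w = t * s := by
    rw [show t * s = w⁻¹ * (w * (t * s) * w⁻¹) * w by group, w3]
  have V1 : Vf t s ≠ ⊥ := fun e => k.t1 (mem_bot.1 (e.le t_mem_Vf))
  set K := OppOf 2 (centralizer ({t} : Set G)) with hK
  have iK : VInv r (Vf t s) K := h.invO k k.Vf_le_C
  have oK : ¬ 2 ∣ Nat.card K := OppOf_not_dvd _
  by_cases hc : K ≤ centralizer (Vf t s : Set G)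
  · have c1 : centralizer {t} ≤ normalizer (Vf t s : Set G) :=
      k.cent_eq.ge.trans (sup_le (hc.trans (centralizer_le_normalizer _)) le_normalizer)
    have cj : ∀ a : G, centralizer {a} ≤ normalizer (Vf t s : Set G) →
        centralizer {w * a * w⁻¹} ≤ normalizer (Vf t s : Set G) := fun a ha => by
      rw [← map_conj_centralizer_singleton]
      exact map_conj_le_of_le ha (le_normalizer wN)
    refine Or.inl (h.se (k.syl le_top) V1 (norm_ne_top hO2 k.two V1) le_rfl fun a ha a1 => ?_)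
    rcases k.mem_Vf.1 ha with rfl | rfl | rfl | rfl
    · exact absurd rfl a1
    · exact c1
    · exact w1 ▸ cj _ c1
    · exact w2 ▸ cj _ (w1 ▸ cj _ c1)
  have Kt : ∀ x ∈ K, t * x = x * t := fun x hx => mem_C.1 (OppOf_le _ hx)
  have fpf : ∀ x ∈ K, x * s = s * x → x = 1 := fun x hx e => by
    by_contra x1
    refine hc (h.cent_of_mem k w1 w2 iK hx x1 (mem_K k oK hx w ?_))
    rw [w4, mul_assoc, ← e, ← mul_assoc, Kt x hx,
      mul_assoc]
  have Ks : ∀ x ∈ K, s * x * s = x⁻¹ := fun x hx => inv_fpf k.ss (fun x hx => by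
    simpa only [k.sinv] using conj_mem_of_mem_normalizer (iK.n s_mem_Vf) hx) fpf hx
  have hC : centralizer (Vf t s : Set G) ≤ Vf t s := by
    have e := sup_inf_of_le_normalizer_right (B := K) k.le_centralizer iK.n
    rw [sup_comm, k.cent_eq, inf_eq_right.2 K4.cent_le_C] at e
    exact e.le.trans (sup_le le_rfl fun x hx => fpf x hx.1 (mem_centralizer_Vf.1 hx.2).2.symm ▸
      one_mem _)
  have h4 := k.v4 (simple k w1 w2 hO2 hO hC) w1 w2
  by_cases gen : centralizer {t} ⊔ zpowers w = ⊤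
  swap
  · exact Or.inl (h4.ta_of_not_gen gen).2.2
  refine Or.inr ⟨t, s, w, K, ⟨h4, Nat.odd_iff.2 (by omega), by simp, Kt, Ks, by simp, by simp,
    by simp, fun g hg => ?_, fun x hx x1 g hg => ?_, fun _ => gen⟩, fun e => hc (e ▸ bot_le)⟩
  · obtain ⟨x, hx, v, hv, rfl⟩ := (mem_sup_of_le_normalizer_left iK.n).1 (k.cent_eq.ge (mem_C.2 hg))
    refine ⟨x, hx, 1, one_mem _, ?_⟩
    rcases k.mem_Vf.1 hv with rfl | rfl | rfl | rfl <;> simp
  have iD : VInv r (Vf t s) (zpowers x) := ⟨iK.p.to_le (zpowers_le.2 hx), Vf_le.2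
    ⟨centralizer_le_normalizer _ (by rw [centralizer_zpowers]; exact mem_C.2 (Kt x hx).symm),
      mem_normalizer_of_conj_mem (map_conj_le_iff.1 (by
        rw [MonoidHom.map_zpowers, zpowers_le]
        change s * x * s⁻¹ ∈ _
        rw [k.sinv, Ks x hx]
        exact inv_mem (mem_zpowers x)))⟩⟩
  have CN : centralizer {x} ≤ normalizer (zpowers x : Set G) :=
    centralizer_zpowers x ▸ centralizer_le_normalizer _
  have e := (k.sup_or_cycle iD.n).resolve_right fun ⟨g, hg, g1, g2⟩ =>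
    x1 (fpf x hx (mem_centralizer_Vf.1 (h.cent_of_cyc k iD hg g1 g2 (mem_zpowers x))).2.symm)
  have iY := h.invO k iD.n
  have oY := h.odd_r iY.p
  have KY : K ≤ OppOf 2 (normalizer (zpowers x : Set G)) :=
    le_O_of_odd k.two iD.n e (le_trans (fun y hy => mem_C.2 (by
      have := Ks _ (mul_mem hx hy)
      rw [show s * (x * y) * s = s * x * s * (s * y * s) by
        simp only [mul_assoc, ← mul_assoc s s, k.ss, one_mul], Ks x hx, Ks y hy, ← mul_inv_rev,
        inv_inj] at this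
      exact this.symm)) CN) oK
  have hY : OppOf 2 (normalizer (zpowers x : Set G)) ≤ centralizer {t} := by
    refine k.gen iY.n oY inf_le_right (fun y hy => ?_) fun y hy => ?_
    · by_contra y1
      exact hc (KY.trans (h.cent_of_mem k w1 w2 iY (KY (mem_K k oY hy.1 w⁻¹ (by
        rw [inv_inv, w1]; exact mem_C.1 hy.2))) (fun e => y1 (by
          rw [show y = w * (w⁻¹ * y * w⁻¹⁻¹) * w⁻¹ by group, e]; simp))
        (by simpa [mul_assoc] using hy.1)))
    · by_contra y1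
      exact hc (KY.trans (h.cent_of_mem k w1 w2 iY hy.1 (fun e => y1 (by simp [e]))
        (KY (mem_K k oY hy.1 w (by
          rw [w4]; exact mem_C.1 hy.2)))))
  exact mem_C.1 ((e.ge.trans (sup_le hY k.Vf_le_C)) (CN (mem_C.2 hg)))

end NR

end Cfsg.Agent.Lib.OD
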