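/- S4371, pieces Q2, Q4: the geometry of the two parabolics. -/
import Cfsg.Agent.Lib.OD.Ad
import Cfsg.Agent.Lib.OD.Loc

set_option autoImplicit false

namespace Cfsg.Agent.Lib.OD

open Subgroup Cfsg.Agent.Lib.Core Cfsg.Agent.Lib.AG

universe u

variable {G : Type u} [Group G] [Finite G] {S V W : Subgroup G} {q : ℕ} {z k u v : G}

theorem o2_of {e : G} (ee : e * e = 1) (e1 : e ≠ 1) : orderOf e = 2 :=
  orderOf_eq_prime (by rw [pow_two, ee]) e1

theorem AM.VW (h : AM S V W q) {g : G} (h1 : g ∈ normalizer (V : Set G))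
    (h2 : g ∈ normalizer (W : Set G)) : g ∈ normalizer (S : Set G) :=
  mem_normalizer_fintype fun x hx => by
    obtain ⟨a, ha, b, hb, rfl⟩ := h.memS hx
    rw [← conj_mul]
    exact mul_mem (h.VS (cj_mem h1 ha)) (h.WS (cj_mem h2 hb))

/-- transitivity on `V#`, general form -/
theorem AM.trV (h : AM S V W q) {M : Subgroup G} (hS : S ≤ M) (uM : u ∈ M) (uu : u * u = 1)
    (uV : u ∈ normalizer (V : Set G)) (uS : u ∉ normalizer (S : Set G))
    (tz : ∀ x ∈ V, x ∈ W → x ≠ 1 → ∃ p ∈ M, p * z * p⁻¹ = x) {x : G} (hx : x ∈ V) (x1 : x ≠ 1) :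
    ∃ p ∈ M, p * z * p⁻¹ = x := by
  obtain ⟨y, hy, w, hw, rfl⟩ := h.memV uV uS hx
  by_cases w1 : w = 1
  · subst w1
    simp only [mul_one, mul_inv_cancel] at x1 ⊢
    exact tz y hy.1 hy.2 x1
  obtain ⟨p, hp, e⟩ := tz w hw.1 hw.2 w1
  obtain ⟨b, hb, e'⟩ := h.surj (cj_mem uV hw.1) (fun c => uS (h.ti uV hw.1 hw.2 w1 c)) hy.1 hy.2
  exact ⟨b * u * p, mul_mem (mul_mem (hS (h.WS hb)) uM) hp, by rw [← e', ← e]; group⟩

namespace AD

variable (h : AD S V W q z k u v)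
include h

theorem kS : k ∈ normalizer (S : Set G) := h.NS ▸ mem_sup_right (mem_zpowers k)
theorem ui : u⁻¹ = u := inv_eq_of_mul_eq_one_right h.uu
theorem vi : v⁻¹ = v := inv_eq_of_mul_eq_one_right h.vv
theorem zz : z * z = 1 := h.sqV z h.zV

theorem tz {M : Subgroup G} (kM : k ∈ M) : ∀ x ∈ V, x ∈ W → x ≠ 1 → ∃ p ∈ M, p * z * p⁻¹ = x :=
  fun x h1 h2 x1 => by
    rcases h.memZ x h1 h2 with e | e | e | e
    · exact absurd e x1
    · exact ⟨1, one_mem _, by rw [e]; group⟩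
    · exact ⟨k, kM, e.symm⟩
    · exact ⟨k⁻¹, inv_mem kM, by rw [e, inv_inv]⟩

theorem tV {x : G} (hx : x ∈ V) (x1 : x ≠ 1) : ∃ p ∈ normalizer (V : Set G), p * z * p⁻¹ = x :=
  h.toAM.trV h.nV h.uV h.uu h.uV h.uS (h.tz h.kV) hx x1

theorem tW {x : G} (hx : x ∈ W) (x1 : x ≠ 1) : ∃ p ∈ normalizer (W : Set G), p * z * p⁻¹ = x :=
  h.toAM.symm.trV h.nW h.vW h.vv h.vW h.vS (fun x a b => h.tz h.kW x b a) hx x1

omit [Finite G] in
theorem uq {M : Subgroup G} (hS : S ≤ M) {n p p' : G} (hp : p ∈ M) (hp' : p' ∈ M)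
    (e : n * (p * z * p⁻¹) * n⁻¹ = p' * z * p'⁻¹) : n ∈ M := by
  have := hS (h.centZ z h.zV h.zW h.z1 (p'⁻¹ * n * p) (by
    calc _ = p'⁻¹ * (p' * z * p'⁻¹) * n * p := by group
      _ = _ := by rw [← e]; group))
  rwa [mul_mem_cancel_right hp, mul_mem_cancel_left (inv_mem hp')] at this

theorem uV' {n x : G} (hx : x ∈ V) (x1 : x ≠ 1) (e : n * x * n⁻¹ ∈ V) :
    n ∈ normalizer (V : Set G) := by
  obtain ⟨p, hp, rfl⟩ := h.tV hx x1
  obtain ⟨p', hp', e'⟩ := h.tV e (by rwa [Ne, conj_eq_one_iff])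
  exact h.uq h.nV hp hp' e'.symm

theorem uW' {n x : G} (hx : x ∈ W) (x1 : x ≠ 1) (e : n * x * n⁻¹ ∈ W) :
    n ∈ normalizer (W : Set G) := by
  obtain ⟨p, hp, rfl⟩ := h.tW hx x1
  obtain ⟨p', hp', e'⟩ := h.tW e (by rwa [Ne, conj_eq_one_iff])
  exact h.uq h.nW hp hp' e'.symm

theorem aV : u * z * u ∈ V := by simpa only [h.ui] using cj_mem h.uV h.zV
theorem bW : v * z * v ∈ W := by simpa only [h.vi] using cj_mem h.vW h.zW
theorem aW : u * z * u ∉ W := fun c =>
  h.uS (h.toAM.ti h.uV h.zV h.zW h.z1 (by rwa [h.ui]))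
theorem bV : v * z * v ∉ V := fun c =>
  h.vS (h.toAM.symm.ti h.vW h.zW h.zV h.z1 (by rwa [h.vi]))

theorem gen_of {M : Subgroup G} (h1 : normalizer (V : Set G) ≤ M)
    (h2 : normalizer (W : Set G) ≤ M) : M = ⊤ := by
  by_contra M1
  have SM : S ≤ M := h.nV.trans h1
  have tr : ∀ t ∈ M, orderOf t = 2 → ∃ p ∈ M, p * z * p⁻¹ = t := fun t ht o2 => by
    obtain ⟨m, hm, le⟩ := (h.syl.mono SM le_top).exists_conj_le
      (Invol.isPGroup_zpowers_of_involution o2) (zpowers_le.2 ht)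
    have m1 : m * t * m⁻¹ ∈ S := le (mem_map_of_mem _ (mem_zpowers t))
    have t1 : m * t * m⁻¹ ≠ 1 := by
      rw [Ne, conj_eq_one_iff]; rintro rfl; simp at o2
    have : ∃ p ∈ M, p * z * p⁻¹ = m * t * m⁻¹ := by
      rcases h.invS _ m1 (by rw [conj_mul, ← pow_two, ← o2, pow_orderOf_eq_one]; group) with c | c
      · exact (h.tV c t1).imp fun p hp => ⟨h1 hp.1, hp.2⟩
      · exact (h.tW c t1).imp fun p hp => ⟨h2 hp.1, hp.2⟩
    obtain ⟨p, hp, e⟩ := this
    exact ⟨m⁻¹ * p, mul_mem (inv_mem hm) hp, by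
      rw [mul_inv_rev, inv_inv, mul_assoc, mul_assoc, ← mul_assoc z, ← mul_assoc p, ← mul_assoc p, e]
      group⟩
  have zM := SM (h.toAM.VS h.zV)
  have z2 := o2_of h.zz h.z1
  have se : Cfsg.IsStronglyEmbedded M := Invol.isStronglyEmbedded_iff.2
    ⟨M1, Invol.even_card_of_involution_mem zM z2, fun g t ht o2 hg => by
      obtain ⟨p, hp, rfl⟩ := tr t ht o2
      obtain ⟨p', hp', e⟩ := tr _ hg (by rw [Invol.orderOf_conj', o2])
      exact h.uq SM hp hp' e.symm⟩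
  have a2 := o2_of (h.sqV _ h.aV) fun e => h.aW (e ▸ one_mem W)
  have b2 := o2_of (h.sqW _ h.bW) fun e => h.bV (e ▸ one_mem V)
  have aM := SM (h.toAM.VS h.aV)
  obtain ⟨Q, D, t, s, r, H⟩ := BS.bender se (le_bot_iff.1 (h.odd ▸ le_OppOf le_top
    (by rw [normalizer_eq_top]) (Nat.not_even_iff_odd.2 (BS.P0.odd_of_le se M.normalCore_le) ∘
      even_iff_two_dvd.2))) ⟨z, zM, _, aM, z2, a2, fun e => h.aW (e ▸ h.zW),
        h.toAM.commV h.zV h.aV⟩
  have := H.toA1.invol_cent H.rank (H.toA1.invol_mem aM a2) (h.sqV _ h.aV) _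
    (H.toA1.invol_mem (SM (h.toAM.WS h.bW)) b2)
  exact (h.cent _ h.aV _ h.bW this.symm).elim h.aW h.bV

theorem gen : closure {z, k, u, v} = ⊤ := by
  set M := closure ({z, k, u, v} : Set G)
  have zM : z ∈ M := subset_closure (by simp)
  have kM : k ∈ M := subset_closure (by simp)
  have uM : u ∈ M := subset_closure (by simp)
  have vM : v ∈ M := subset_closure (by simp)
  have ZM : V ⊓ W ≤ M := fun x hx => by
    by_cases x1 : x = 1
    · exact x1 ▸ one_mem M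
    obtain ⟨p, hp, rfl⟩ := h.tz kM x hx.1 hx.2 x1
    exact mul_mem (mul_mem hp zM) (inv_mem hp)
  have VM : V ≤ M := fun a ha => by
    obtain ⟨x, hx, y, hy, rfl⟩ := h.memV a ha
    exact mul_mem (ZM hx) (mul_mem (mul_mem uM (ZM hy)) uM)
  have WM : W ≤ M := fun a ha => by
    obtain ⟨x, hx, y, hy, rfl⟩ := h.memW a ha
    exact mul_mem (ZM hx) (mul_mem (mul_mem vM (ZM hy)) vM)
  have BM : normalizer (S : Set G) ≤ M :=
    h.NS ▸ sup_le (h.sup ▸ sup_le VM WM) (zpowers_le.2 kM)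
  refine h.gen_of (fun g hg => ?_) fun g hg => ?_
  · by_cases c : g ∈ normalizer (S : Set G)
    · exact BM c
    obtain ⟨n, hn, b, hb, rfl⟩ := h.cellV g hg c
    exact mul_mem (mul_mem (BM hn) uM) (WM hb)
  · by_cases c : g ∈ normalizer (S : Set G)
    · exact BM c
    obtain ⟨n, hn, b, hb, rfl⟩ := h.cellW g hg c
    exact mul_mem (mul_mem (BM hn) vM) (VM hb)

theorem g1 {c : G} (hc : c ∈ normalizer (V : Set G)) (e : v * c * v ∈ normalizer (V : Set G)) :
    c ∈ normalizer (S : Set G) := by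
  have bP : v * z * v ∈ normalizer (V : Set G) := h.nV (h.toAM.WS h.bW)
  refine h.toAM.ti' hc (h.toAM.WS h.bW) h.bV (h.toAM.WS (h.toAM.centX
    (mul_mem (mul_mem hc bP) (inv_mem hc)) h.bW h.bV ?_))
  have := cj_comm (g := v) (h.toAM.commV h.zV (cj_mem e h.zV))
  simp only [mul_inv_rev, h.vi, mul_assoc] at this ⊢
  simpa only [← mul_assoc v v, h.vv, one_mul, mul_one] using this

theorem vP : v ∉ normalizer (V : Set G) := fun c => h.vS (h.toAM.VW c h.vW)

theorem g2 {c m : G} (hc : c ∈ normalizer (V : Set G)) (hm : m ∈ normalizer (W : Set G))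
    (e : m * c * v ∈ normalizer (V : Set G)) : c ∈ normalizer (S : Set G) := by
  by_cases mS : m ∈ normalizer (S : Set G)
  · exact absurd ((mul_mem_cancel_left (mul_mem (h.toAM.NSV mS) hc)).1 e) h.vP
  obtain ⟨n, hn, a, ha, rfl⟩ := h.cellW m hm mS
  have := h.g1 (mul_mem (le_normalizer ha) hc) (by
    rw [← mul_mem_cancel_left (h.toAM.NSV hn)]; simpa only [mul_assoc] using e)
  exact (mul_mem_cancel_left (le_normalizer (h.toAM.VS ha))).1 this

theorem inc {e : G} (he : e ∈ normalizer (V : Set G)) (ee : e * e = 1) (e1 : e ≠ 1) :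
    ∃ p ∈ normalizer (V : Set G), p * e * p⁻¹ ∈ W := by
  obtain ⟨m, hm, le⟩ := (h.syl.mono h.nV le_top).exists_conj_le
    (Invol.isPGroup_zpowers_of_involution (o2_of ee e1)) (zpowers_le.2 he)
  have m1 : m * e * m⁻¹ ∈ S := le (mem_map_of_mem _ (mem_zpowers e))
  rcases h.invS _ m1 (by rw [conj_mul, ee]; group) with c | c
  · obtain ⟨p, hp, e'⟩ := h.tV c (by rwa [Ne, conj_eq_one_iff])
    refine ⟨p⁻¹ * m, mul_mem (inv_mem hp) hm, ?_⟩
    convert h.zW using 1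
    calc _ = p⁻¹ * (m * e * m⁻¹) * p := by group
      _ = _ := by rw [← e']; group
  · exact ⟨m, hm, c⟩

theorem even {e : G} (he : e ∈ normalizer (V : Set G)) (ee : e * e = 1) (e1 : e ≠ 1)
    (hg : v * u * v * e * (v * u * v) ∈ normalizer (V : Set G)) :
    ∃ β ∈ W, v * u * (β * v) * u * v ∈ normalizer (V : Set G) := by
  have gi : (v * u * v)⁻¹ = v * u * v := by simp only [mul_inv_rev, h.ui, h.vi, mul_assoc]
  obtain ⟨p, hp, c⟩ := h.inc he ee e1
  obtain ⟨p', hp', c'⟩ := h.inc hg (by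
    nth_rw 2 [← gi]; nth_rw 4 [← gi]; rw [conj_mul, ee]; group) (by
    nth_rw 2 [← gi]; rwa [Ne, conj_eq_one_iff])
  have hm : p * (v * u * v)⁻¹ * p'⁻¹ ∈ normalizer (W : Set G) :=
    h.uW' c' (by rw [Ne, conj_eq_one_iff]; nth_rw 2 [← gi]; rwa [conj_eq_one_iff]) (by
      convert c using 1
      nth_rw 3 [← gi]; group)
  rw [gi] at hm
  set m := p * (v * u * v) * p'⁻¹ with hm'
  have e0 : m⁻¹ * p * (v * u * v) ∈ normalizer (V : Set G) := by
    convert hp' using 1; rw [hm']; group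
  by_cases pS : p ∈ normalizer (S : Set G)
  · refine absurd (h.g2 h.uV (mul_mem (mul_mem (inv_mem hm) (h.toAM.NSW pS)) h.vW) ?_) h.uS
    simpa only [mul_assoc] using e0
  obtain ⟨n, hn, b, hb, rfl⟩ := h.cellV p hp pS
  have hm2 := mul_mem (inv_mem hm) (h.toAM.NSW hn)
  by_cases mS : m⁻¹ * n ∈ normalizer (S : Set G)
  · have : v * u * v ∈ normalizer (V : Set G) := by
      rw [← mul_mem_cancel_left (mul_mem (mul_mem (h.toAM.NSV mS) h.uV) (h.nV (h.toAM.WS hb)))]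
      simpa only [mul_assoc] using e0
    exact absurd (h.g1 h.uV this) h.uS
  obtain ⟨n', hn', a, ha, e2⟩ := h.cellW _ hm2 mS
  have e3 : v * a * u * b * (v * u * v) ∈ normalizer (V : Set G) := by
    rw [← mul_mem_cancel_left (h.toAM.NSV hn')]
    convert e0 using 1
    calc _ = n' * v * a * u * b * (v * u * v) := by group
      _ = _ := by rw [← e2]; group
  obtain ⟨x, hx, y, hy, rfl⟩ := h.memV a ha
  have hy' : v * x * v ∈ normalizer (V : Set G) :=
    h.nV (h.toAM.WS (by simpa only [h.vi] using cj_mem h.vW hx.2))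
  refine ⟨y * b, mul_mem hy.2 hb, ?_⟩
  rw [← mul_mem_cancel_left hy']
  convert e3 using 1
  simp only [mul_assoc, ← mul_assoc v v, ← mul_assoc u u, h.vv, h.uu, one_mul]

theorem jW {β : G} (hβ : β ∈ W) (e : v * u * β * u * v ∈ normalizer (V : Set G)) : β = 1 := by
  have β4 : ∀ g : G, (g * β * g⁻¹) ^ 4 = 1 := fun g => by
    rw [conj_pow, h.toAM.four (h.toAM.WS hβ)]; group
  have c1 : u * β * u⁻¹ ∈ S := h.toAM.memS_of (h.g1 (mul_mem (mul_mem h.uV (h.nV (h.toAM.WS hβ)))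
    (inv_mem h.uV)) (by simpa only [mul_assoc, h.ui] using e)) (β4 u)
  have βV : β ∈ V := by
    by_contra c
    exact h.uS (h.toAM.ti' h.uV (h.toAM.WS hβ) c c1)
  by_contra β1
  refine h.vS (h.toAM.symm.ti' h.vW c1 (fun c => h.uS (h.toAM.ti h.uV βV hβ β1 c))
    (h.toAM.memS_of (h.toAM.VW (by simpa only [mul_assoc, h.ui, h.vi] using e)
      (mul_mem (mul_mem h.vW (h.nW c1)) (inv_mem h.vW))) ?_))
  convert β4 (v * u) using 2; group

theorem cube {β : G} (hβ : β ∈ W) (e2 : β * v * (β * v) = 1)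
    (e : v * u * (β * v) * u * v ∈ normalizer (V : Set G)) :
    (u * (β * v)) ^ 3 ∈ normalizer (S : Set G) := by
  have βP := h.nV (h.toAM.WS hβ)
  have β' : v * β * v ∈ normalizer (V : Set G) :=
    h.nV (h.toAM.WS (by simpa only [h.vi] using cj_mem h.vW hβ))
  have c : (u * (β * v)) ^ 3 ∈ normalizer (V : Set G) := by
    convert mul_mem (mul_mem (mul_mem h.uV βP) e) β' using 1
    simp only [pow_succ, pow_zero, one_mul, mul_assoc, ← mul_assoc v v, h.vv, mul_one]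
  refine h.g1 c ?_
  have i : β * v * (u * (β * v)) * (β * v)⁻¹ = (u * (β * v))⁻¹ := by
    rw [mul_inv_rev u, inv_eq_of_mul_eq_one_right e2, h.ui, mul_assoc, mul_assoc u, e2, mul_one]
  have := mul_mem (mul_mem (inv_mem βP) (inv_mem c)) βP
  rw [← Invol.conj_pow_of_inverts i] at this
  convert this using 1
  rw [mul_inv_rev, h.vi]; group

theorem dich : (∃ β ∈ W, v * u * (β * v) * u * v ∈ normalizer (V : Set G)) ∨
    ∃ K : Subgroup G, Odd (Nat.card K) ∧ K ≤ normalizer (V : Set G) ∧ k ∈ K ∧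
      (∀ c ∈ K, v * u * v * c * (v * u * v) = c⁻¹) ∧ ∃ c ∈ K, c * z * c⁻¹ = u * z * u := by
  set g := v * u * v with hg
  have gg : g * g = 1 := by
    simp only [hg, mul_assoc, ← mul_assoc v v, ← mul_assoc u u, h.vv, h.uu, one_mul]
  have gi : g⁻¹ = g := inv_eq_of_mul_eq_one_right gg
  have g1 : g ≠ 1 := fun e => h.uS (h.g1 h.uV (by rw [← hg, e]; exact one_mem _))
  let K := normalizer (V : Set G) ⊓ (normalizer (V : Set G)).map (MulAut.conj g).toMonoidHom
  have mK : ∀ c, c ∈ K ↔ c ∈ normalizer (V : Set G) ∧ g * c * g ∈ normalizer (V : Set G) :=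
    fun c => by rw [mem_inf, Invol.mem_map_conj_iff, gi]
  by_cases ho : Odd (Nat.card K)
  swap
  · obtain ⟨e, he, o2⟩ := Invol.exists_involution_mem_of_even (Nat.not_odd_iff_even.1 ho)
    exact .inl (h.even he.1 (by rw [← pow_two, ← o2, pow_orderOf_eq_one])
      (fun e => by simp [e] at o2) ((mK e).1 he).2)
  have a1 : u * z * u ≠ 1 := fun e => h.aW (e ▸ one_mem W)
  have yy : g * (u * z * u) * g * (g * (u * z * u) * g) = 1 := by
    nth_rw 2 [← gi]; nth_rw 4 [← gi]; rw [conj_mul, h.sqV _ h.aV]; group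
  have od : Odd (orderOf (z * (g * (u * z * u) * g))) := by
    by_contra c
    obtain ⟨e, he, o2⟩ := exists_order_of_dvd _ (even_iff_two_dvd.1 (Nat.not_odd_iff_even.1 c))
    obtain ⟨n, rfl⟩ := (mem_powers_iff_mem_zpowers.2 he : ∃ n, _)
    simp only at o2
    have ee : (z * (g * (u * z * u) * g)) ^ n * (z * (g * (u * z * u) * g)) ^ n = 1 := by
      rw [← pow_two, ← o2, pow_orderOf_eq_one]
    have c1 := Invol.commute_of_inverts (Invol.conj_mul_eq_inv h.zz yy) n ee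
    have c2 : Commute ((z * (g * (u * z * u) * g)) ^ n) (g * (u * z * u) * g) := by
      have := c1.symm.mul_left ((Commute.refl (z * (g * (u * z * u) * g))).pow_right n)
      rw [← mul_assoc, h.zz, one_mul] at this
      exact this.symm
    refine Invol.odd_card_iff_no_involution.1 ho _ ((mK _).2 ⟨h.uV' h.zV h.z1 ?_,
      h.uV' h.aV a1 ?_⟩) o2
    · rw [c1.eq, mul_inv_cancel_right]; exact h.zV
    · convert h.aV using 1
      calc _ = g * ((z * (g * (u * z * u) * g)) ^ n * (g * (u * z * u) * g⁻¹) *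
            ((z * (g * (u * z * u) * g)) ^ n)⁻¹) * g⁻¹ := by group
        _ = _ := by
          rw [gi, c2.eq, mul_inv_cancel_right]
          simp only [mul_assoc, ← mul_assoc g g, gg, one_mul, mul_one]
  obtain ⟨w, ww, e, -⟩ := BS.P1.exists_invol_conj h.zz yy od
  have e' : g * w * z * (g * w)⁻¹ = u * z * u := by
    calc _ = g * (w * z * w⁻¹) * g⁻¹ := by group
      _ = _ := by rw [e, gi]; simp only [mul_assoc, ← mul_assoc g g, gg, one_mul, mul_one]
  have cP : g * w ∈ normalizer (V : Set G) := h.uV' h.zV h.z1 (e' ▸ h.aV)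
  have gk : g * k * g = k⁻¹ := by
    calc _ = v * (u * (v * k * v) * u) * v := by rw [hg]; group
      _ = v * (u * k * u)⁻¹ * v := by rw [h.vk, mul_inv_rev, mul_inv_rev, h.ui, mul_assoc u]
      _ = _ := by rw [h.uk, inv_inv, h.vk]
  refine .inr ⟨K, ho, inf_le_left, (mK k).2 ⟨h.kV, gk ▸ inv_mem h.kV⟩, fun c hc => inv_of_fpf gg
    (fun c hc => (mK _).2 ⟨((mK c).1 hc).2, ?_⟩) (fun c hc e => h.c4.odd gg g1 e.symm
      (ho.of_dvd_nat (K.orderOf_dvd_natCard hc))) hc, g * w, (mK _).2 ⟨cP, ?_⟩, e'⟩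
  · simpa only [mul_assoc, ← mul_assoc g g, gg, one_mul, mul_one] using ((mK c).1 hc).1
  · convert inv_mem cP using 1
    rw [mul_inv_rev, gi, inv_eq_of_mul_eq_one_right ww, ← mul_assoc g g, gg, one_mul]

end AD

end Cfsg.Agent.Lib.OD
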