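/- S4371, pieces Q2, Q4. -/
import Cfsg.Agent.Lib.OD.Geo
import Cfsg.Agent.Lib.OD.Ar

set_option autoImplicit false

namespace Cfsg.Agent.Lib.OD

open Subgroup Cfsg.Agent.Lib.Core Cfsg.Agent.Lib.AG

universe u

variable {G : Type u} [Group G] [Finite G] {S V W : Subgroup G} {q : ℕ} {z k u v : G}

theorem AD.memB (h : AD S V W q z k u v) {n : G} (hn : n ∈ normalizer (S : Set G)) :
    ∃ s ∈ S, ∃ y ∈ zpowers k, s * y = n :=
  (mem_sup_of_le_normalizer_left (zpowers_le.2 h.kS)).1 (h.NS ▸ hn)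

theorem AD.q4 (h : AD S V W 4 z k u v) : closure {z, k, u, v} = ⊤ ∧
    ((u * v) ^ 3 = 1 ∨ (u * v) ^ 3 = k ∨ (u * v) ^ 3 = k⁻¹) := by
  refine ⟨h.gen, ?_⟩
  have k3 : orderOf k = 3 := by have := h.ordk; omega
  have k1 : k ≠ 1 := fun e => by simp [e] at k3
  have ko : Odd (orderOf k) := k3 ▸ by decide
  rcases h.dich with ⟨β, hβ, e⟩ | ⟨K, -, KP, kK, inv, c, hc, e⟩
  · have uk : ∀ x : G, u * (v * x * v) * u = (u * v) * x * (u * v)⁻¹ := fun x => by
      rw [mul_inv_rev, h.ui, h.vi]; group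
    have ck : u * v * k * (u * v)⁻¹ = k := by
      rw [← uk, h.vk, ← inv_inj, mul_inv_rev, mul_inv_rev, h.ui, inv_inv, ← mul_assoc, h.uk]
    have ck' : v * u * k * u * v = k := by
      nth_rw 1 [← ck]
      simp only [mul_inv_rev, h.ui, h.vi, mul_assoc, ← mul_assoc v v, ← mul_assoc u u, h.vv, h.uu,
        one_mul, mul_one]
    have βi := h.toAM.symm.invV hβ
    have β1 : k * β * k⁻¹ * β = 1 := h.jW (mul_mem (cj_mem h.kW hβ) hβ) (by
      have kP := h.kV
      rw [← ck'] at kP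
      convert mul_mem (mul_mem (mul_mem kP e) kP) (inv_mem e) using 1
      simp only [mul_inv_rev, h.ui, h.vi, βi, mul_assoc, ← mul_assoc v v, ← mul_assoc u u, h.vv,
        h.uu, one_mul, ← h.vk])
    have : β = 1 := h.c4.fpf h.syl.isPGroup ko k1 (h.toAM.WS hβ) (by
      rw [← mul_inv_eq_iff_eq_mul, eq_inv_of_mul_eq_one_left β1, βi])
    subst this
    have c := h.cube hβ (by rw [one_mul, h.vv]) e
    rw [one_mul] at c
    obtain ⟨s, hs, y, hy, e'⟩ := h.memB c
    have c1 : Commute k ((u * v) ^ 3) :=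
      (show Commute k (u * v) from (mul_inv_eq_iff_eq_mul.1 ck).symm).pow_right 3
    have : s = 1 := h.c4.fpf h.syl.isPGroup ko k1 hs (by
      rw [eq_mul_inv_of_mul_eq e']
      exact (c1.mul_right (show Commute y k from comm_zpowers hy rfl).symm.inv_right).eq)
    rw [← e', this, one_mul]
    obtain ⟨n, rfl⟩ := (mem_powers_iff_mem_zpowers.2 hy : ∃ n, _)
    simp only
    rw [← pow_mod_orderOf, k3]
    have : n % 3 = 0 ∨ n % 3 = 1 ∨ n % 3 = 2 := by omega
    rcases this with e | e | e <;> rw [e]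
    · exact .inl (pow_zero k)
    · exact .inr (.inl (pow_one k))
    · exact .inr (.inr (eq_inv_of_mul_eq_one_left (by rw [← pow_succ, h.k3])))
  · exfalso
    have gg : v * u * v * (v * u * v) = 1 := by
      simp only [mul_assoc, ← mul_assoc v v, ← mul_assoc u u, h.vv, h.uu, one_mul]
    have ck : c * k = k * c := by
      rw [← inv_inj, ← inv _ (mul_mem hc kK), mul_inv_rev, ← inv c hc, ← inv k kK]
      calc _ = v * u * v * c * 1 * k * (v * u * v) := by group
        _ = _ := by rw [← gg]; group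
    by_cases cS : c ∈ normalizer (S : Set G)
    · exact h.aW (e ▸ cj_mem (h.toAM.NSW cS) h.zW)
    obtain ⟨n, hn, b, hb, rfl⟩ := h.cellV c (KP hc) cS
    have e1 : u * (b * (k * b⁻¹ * k⁻¹)) * u⁻¹ = n⁻¹ * k * n * k := by
      calc _ = n⁻¹ * (n * u * b * k) * b⁻¹ * k⁻¹ * u⁻¹ := by group
        _ = n⁻¹ * k * n * (u * k * u⁻¹)⁻¹ := by rw [ck]; group
        _ = _ := by rw [h.ui, h.uk, inv_inv]
    have m1 : n⁻¹ * k * n * k ∈ S := h.toAM.memS_of
      (mul_mem (mul_mem (mul_mem (inv_mem hn) h.kS) hn) h.kS) (by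
        rw [← e1, conj_pow, h.toAM.four (h.toAM.WS (mul_mem hb (cj_mem h.kW (inv_mem hb))))]; group)
    obtain ⟨s, hs, y, hy, e'⟩ := h.memB (inv_mem hn)
    have e2 : n⁻¹ * k * n * k = s * (k * s⁻¹ * k⁻¹) * (k * k) := by
      rw [← inv_inv n, ← e', inv_inv, mul_assoc s, comm_zpowers hy rfl]; group
    rw [e2, mul_mem_cancel_left (mul_mem hs (cj_mem h.kS (inv_mem hs)))] at m1
    have k2 : k * k = k⁻¹ := eq_inv_of_mul_eq_one_left (by rw [← pow_two, ← pow_succ, h.k3])
    rw [k2, inv_mem_iff] at m1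
    exact k1 (h.c4.fpf h.syl.isPGroup ko k1 m1 rfl)

theorem AD.q2 (h : AD S V W 2 z k u v) : closure {z, u, v} = ⊤ ∧
    ((u * v) ^ 3 = 1 ∨ (u * (z * v * z)) ^ 3 = 1 ∨
      ∃ d, (d = 1 ∨ d = z ∨ d = u * z * u ∨ d = u * z * u * z) ∧
        (u * (v * (d * (u * (v * z * v)) * d) * v)) ^ 2 = 1) := by
  obtain rfl : k = 1 := orderOf_eq_one_iff.1 (by have := h.ordk; omega)
  have NS : normalizer (S : Set G) = S := by rw [← h.NS, zpowers_one_eq_bot, sup_bot_eq]
  have mZ : ∀ x ∈ V ⊓ W, x = 1 ∨ x = z := fun x hx => by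
    simpa using h.memZ x hx.1 hx.2
  refine ⟨eq_top_iff.2 (h.gen ▸ (closure_le _).2 ?_), ?_⟩
  · rintro x (rfl | rfl | rfl | rfl)
    exacts [subset_closure (by simp), one_mem _, subset_closure (by simp), subset_closure (by simp)]
  have bi := h.toAM.symm.invV h.bW
  rcases h.dich with ⟨β, hβ, e⟩ | ⟨K, ho, KP, -, inv, c, hc, e⟩
  · have e2 : β * v * (β * v) = 1 := h.jW (by
      rw [← mul_assoc, mul_assoc β, mul_assoc β]
      exact mul_mem hβ (by simpa only [h.vi] using cj_mem h.vW hβ)) (by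
      convert mul_mem e e using 1
      simp only [mul_assoc, ← mul_assoc v v, ← mul_assoc u u, h.vv, h.uu, one_mul])
    have c := h.cube hβ e2 e
    rw [NS] at c
    have c1 : (u * (β * v)) ^ 3 = 1 := by
      by_contra c1
      obtain ⟨e', he, ee, e1⟩ := exists_inv_zpowers h.syl.isPGroup c c1
      have := h.c4 e' (u * (β * v)) ee e1 (comm_zpowers he (pow_mul_comm' _ 3))
      rw [pow_succ', mul_eq_one_iff_eq_inv] at this
      have := h.nV (this ▸ inv_mem c : u * (β * v) ∈ S)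
      rw [mul_mem_cancel_left h.uV, mul_mem_cancel_left (h.nV (h.toAM.WS hβ))] at this
      exact h.vP this
    obtain ⟨x, hx, y, hy, rfl⟩ := h.memW β hβ
    rcases mZ x hx with rfl | rfl <;> rcases mZ y hy with rfl | rfl
    · left; simpa only [mul_one, h.vv, one_mul] using c1
    · refine absurd ?_ h.bV
      simp only [one_mul, mul_assoc, h.vv, mul_one] at e2
      rw [eq_inv_of_mul_eq_one_left (show v * y * v * y = 1 by
        simpa only [mul_assoc] using e2)]
      exact inv_mem h.zV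
    · refine absurd ?_ h.bV
      simp only [mul_one, h.vv] at e2
      rw [← inv_eq_of_mul_eq_one_right (show x * (v * x * v) = 1 by
        simpa only [mul_assoc] using e2)]
      exact inv_mem h.zV
    · right; left; simpa only [mul_assoc, h.vv, mul_one] using c1
  · right; right
    set b := v * z * v with hb
    have co : Odd (orderOf c) := ho.of_dvd_nat (K.orderOf_dvd_natCard hc)
    have cS : c ∉ normalizer (S : Set G) := fun cS => h.aW (e ▸ cj_mem (h.toAM.NSW cS) h.zW)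
    have bP : b ∈ normalizer (V : Set G) := h.nV (h.toAM.WS h.bW)
    have dW : ∀ w ∈ W, ∃ x ∈ V, w = x ∨ w = x * b := fun w hw => by
      obtain ⟨x, hx, y, hy, rfl⟩ := h.memW w hw
      rcases mZ y hy with rfl | rfl
      · exact ⟨x, hx.1, .inl (by rw [mul_one, h.vv, mul_one])⟩
      · exact ⟨x, hx.1, .inr rfl⟩
    have ev : ∀ d ∈ V, ∀ t ∈ normalizer (V : Set G), t * t = 1 → c ≠ d * t := fun d hd t ht tt ec => by
      have : c * c ∈ V := by
        convert mul_mem hd (cj_mem ht hd) using 1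
        rw [ec, inv_eq_of_mul_eq_one_right tt]; group
      have c2 : c * c = 1 := Invol.eq_one_of_mem_two_group_of_odd h.syl.isPGroup (h.toAM.VS this)
        (co.of_dvd_nat (by rw [← pow_two]; exact orderOf_pow_dvd 2))
      exact cS (orderOf_eq_one_iff.1 (Nat.eq_one_of_dvd_coprimes (Nat.coprime_two_right.2 co) dvd_rfl
        (orderOf_dvd_of_pow_eq_one (by rw [pow_two, c2]))) ▸ one_mem _)
    have od : ∀ d ∈ V, ∀ ρ ∈ normalizer (V : Set G), ρ ^ 3 = 1 → ρ ≠ 1 →
        ∃ d' ∈ V, d * ρ = d' * ρ * d' := fun d hd ρ hρ ρ3 ρ1 => by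
      have d1 := cj_mem hρ hd
      have d2 := cj_mem hρ d1
      have r3 : ρ * ρ * ρ = 1 := by rw [← ρ3, pow_succ, pow_two]
      have : d * (ρ * d * ρ⁻¹) * (ρ * (ρ * d * ρ⁻¹) * ρ⁻¹) = 1 :=
        h.c4.fpf h.syl.isPGroup (by rw [orderOf_eq_prime (p := 3) (hp := ⟨by norm_num⟩) ρ3 ρ1]; decide)
          ρ1 (h.toAM.VS (mul_mem (mul_mem hd d1) d2)) (by
          rw [← mul_inv_eq_iff_eq_mul]
          calc _ = ρ * d * ρ⁻¹ * (ρ * (ρ * d * ρ⁻¹) * ρ⁻¹) * ((ρ * ρ * ρ) * d * (ρ * ρ * ρ)⁻¹) := by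
                group
            _ = _ := by
              rw [r3, one_mul, inv_one, mul_one, ← h.toAM.commV hd (mul_mem d1 d2), mul_assoc d])
      refine ⟨_, d1, ?_⟩
      rw [mul_assoc, mul_eq_one_iff_eq_inv, h.toAM.invV (mul_mem d1 d2)] at this
      nth_rw 1 [this]; group
    have r1 : u * b ≠ 1 := fun e => h.uS (by
      rw [eq_inv_of_mul_eq_one_left e]; exact le_normalizer (inv_mem (h.toAM.WS h.bW)))
    have fin : ∀ c' ∈ K, ∀ d ∈ V, c' = d * (u * b) * d → ∃ d, (d = 1 ∨ d = z ∨ d = u * z * u ∨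
        d = u * z * u * z) ∧ (u * (v * (d * (u * b) * d) * v)) ^ 2 = 1 := fun c' hc' d hd ec => by
      refine ⟨d, ?_, ?_⟩
      · obtain ⟨x, hx, y, hy, rfl⟩ := h.memV d hd
        rcases mZ x hx with rfl | rfl <;> rcases mZ y hy with rfl | rfl
        · left; rw [mul_one, h.uu, one_mul]
        · right; right; left; rw [one_mul]
        · right; left; rw [mul_one, h.uu, mul_one]
        · right; right; right; exact h.toAM.commV h.zV h.aV
      · rw [← ec]
        calc _ = v⁻¹ * (v * u * v * c' * (v * u * v) * c') * v := by rw [pow_two]; group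
          _ = _ := by rw [inv c' hc']; group
    obtain ⟨n, hn, b2, hb2, ec⟩ := h.cellV c (KP hc) cS
    obtain ⟨a1, ha1, b1, hb1, rfl⟩ := h.toAM.memS (NS ▸ hn)
    obtain ⟨x1, hx1, e1⟩ := dW b1 hb1
    obtain ⟨x2, hx2, e2⟩ := dW b2 hb2
    have m1 := mul_mem (mul_mem ha1 hx1) (cj_mem h.uV hx2)
    have m2 := mul_mem (mul_mem ha1 hx1) (cj_mem (mul_mem bP h.uV) hx2)
    rcases e1 with rfl | rfl <;> rcases e2 with rfl | rfl
    · exact absurd (by rw [ec]; group) (ev _ m1 u h.uV h.uu)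
    · obtain ⟨d, hd, e'⟩ := od _ m1 _ (mul_mem h.uV bP) h.wb r1
      exact fin c hc d hd (by rw [← e', ec]; group)
    · have i : (u * b)⁻¹ = b * u := by rw [mul_inv_rev, bi, h.ui]
      obtain ⟨d, hd, e'⟩ := od _ m2 _ (inv_mem (mul_mem h.uV bP)) (by rw [inv_pow, h.wb, inv_one])
        (inv_ne_one.2 r1)
      refine fin c⁻¹ (inv_mem hc) d hd ?_
      have : c = d * (u * b)⁻¹ * d := by rw [← e', ec, i]; group
      rw [this, mul_inv_rev, mul_inv_rev, inv_inv, h.toAM.invV hd, mul_assoc d]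
    · refine absurd (by rw [ec]; group) (ev _ m2 (b * u * b) (mul_mem (mul_mem bP h.uV) bP) ?_)
      nth_rw 2 [← bi]; nth_rw 4 [← bi]; rw [conj_mul, h.uu]; group

end Cfsg.Agent.Lib.OD
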