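/-
Brauer–Suzuki–Wall without the A-group hypothesis.
-/
import Cfsg.Agent.Lib.OD.Defs
import Cfsg.Agent.Lib.CA.GD6

set_option autoImplicit false

namespace Cfsg.Agent.Lib.OD

variable {G : Type*} [Group G] [Finite G]

theorem tb_l2 (h : AG.TB G) : ∃ q, 5 < q ∧ (q % 8 = 3 ∨ q % 8 = 5) ∧ L2 G q := by
  obtain ⟨t, s, w, K, v, hK⟩ := h
  obtain ⟨Q, D, p, q, j, z⟩ := CA.zs0 v hK
  exact ⟨q, lt_of_lt_of_le (by norm_num) z.q11, z.q8, z.iso⟩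

end Cfsg.Agent.Lib.OD
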