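/-
S4371 project: assembly.
-/
import Cfsg.Agent.Lib.OD.Q24
import Cfsg.Agent.Lib.OD.Zs0
import Cfsg.Agent.Lib.OD.Ar
import Cfsg.Agent.Lib.OD.Am
import Cfsg.Agent.Lib.OD.Cit
import Cfsg.Agent.Lib.OD.Nr4
import Cfsg.Agent.Lib.OD.Se
import Cfsg.Agent.Lib.OD.Omega
import Cfsg.Agent.Lib.OD.Tori

set_option autoImplicit false

namespace Cfsg.Agent.Lib.OD

open Subgroup Cfsg.Agent.Lib.Core

variable {G : Type*} [Group G] [Finite G]

theorem H3.core (h : H3 G) (hs : ¬ Group.IsSolvable G) (hO2 : OpOf 2 (⊤ : Subgroup G) = ⊥) :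
    (L2e G ∨ SzC G) ∨ (∃ q, 5 < q ∧ (q % 8 = 3 ∨ q % 8 = 5) ∧ L2 G q) ∨
      (∃ x : G, x ^ 4 = 1 ∧ x * x ≠ 1) ∧
      ((∃ (F : Type) (_ : Field F) (_ : Fintype F), (Fintype.card F = 7 ∨ Fintype.card F = 9) ∧
        Nonempty (G ≃* Matrix.ProjectiveSpecialLinearGroup (Fin 2) F)) ∨ L34 G) := by
  rcases h.cases with c | ⟨r, c⟩
  · rcases c.am hs (c.oddCore hs) hO2 with e | ⟨S, V, W, q, e⟩
    · exact .inl (h.se hs (c.oddCore hs) hO2 e)
    obtain ⟨rfl | rfl, z, k, u, v, d⟩ := e.ad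
    · exact .inr (.inr ⟨d.ex4, .inl (d.l2 d.q2.1 d.q2.2)⟩)
    · exact .inr (.inr ⟨d.ex4, .inr (d.l34 d.q4.1 d.q4.2)⟩)
  have se := fun e => h.se hs (c.red hs).2 hO2 e
  by_cases h8 : 8 ∣ Nat.card G
  · exact .inl (se (c.big hs h8))
  exact (c.four hs h8).imp se fun e => .inl (tb_l2 e)

omit [Finite G] in
theorem H3.iso {X : Type*} [Group X] (h : H3 G) (e : G ≃* X) : H3 X :=
  h.of_injective e.symm.toMonoidHom e.symm.injective

/-- the first alternative of the theorem -/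
def Alt1 (X : Type*) [Group X] : Prop := ∃ (F : Type) (_ : Field F) (_ : Fintype F), CharP F 2 ∧
  4 ≤ Fintype.card F ∧ (Fintype.card F + 1).primeFactorsList.length ≤ 2 ∧
  (Fintype.card F - 1).primeFactorsList.length ≤ 2 ∧
  Nonempty (X ≃* Matrix.ProjectiveSpecialLinearGroup (Fin 2) F)

theorem L2e.alt1 (h : H3 G) (e : L2e G) : Alt1 G := by
  obtain ⟨F, _, _, _, h4, ⟨f⟩⟩ := e
  obtain ⟨x, y, hx, hy⟩ := tori_even F
  exact ⟨F, _, _, ‹_›, h4, hx ▸ (h.iso f).omega x, hy ▸ (h.iso f).omega y, ⟨f⟩⟩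

theorem H3.big (h : H3 G) (hs : ¬ Group.IsSolvable G) (hD : OpOf 2 (⊤ : Subgroup G) ≠ ⊥) :
    Alt1 (G ⧸ pCore 2 G) := by
  have c : C4 G := h.cases.resolve_right fun ⟨_, c⟩ => hD (c.red hs).1
  have hf := QuotientGroup.mk'_surjective (pCore 2 G)
  have h' := h.of_surjective _ hf
  have c' := c.quot (pCore 2 G) pCore_isPGroup
  have hs' : ¬ Group.IsSolvable (G ⧸ pCore 2 G) := fun e => hs
    ((Group.isSolvable_iff_subgroup_quotient _).2 ⟨isSolvable_of_isPGroup pCore_isPGroup, e⟩)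
  have hO2 := OpOf_top.trans (pCore_quotient (p := 2) (G := G))
  have sq : ∀ x : G ⧸ pCore 2 G, x ^ 4 = 1 → x * x = 1 := fun x hx => by
    obtain ⟨x, rfl⟩ := hf x
    obtain ⟨j, hj⟩ := pCore_isPGroup (p := 2) ⟨x ^ 4, (QuotientGroup.eq_one_iff _).1 hx⟩
    have := c.sq_mem hD (c.pow4 (isPGroup_zpowers (k := j + 2) (by
      rw [pow_add, mul_comm, pow_mul]; exact congrArg Subtype.val hj)) (mem_zpowers x))
    rw [OpOf_top] at this
    exact (QuotientGroup.eq_one_iff _).2 this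
  rcases c'.am hs' (c'.oddCore hs') hO2 with e | ⟨S, V, W, q, e⟩
  · rcases h'.se hs' (c'.oddCore hs') hO2 e with e | ⟨n, -, -, -, w, -, -, -, hw, -⟩
    · exact e.alt1 h'
    · have := orderOf_dvd_of_pow_eq_one ((pow_two w).trans (sq w (hw ▸ pow_orderOf_eq_one w)))
      rw [hw] at this
      omega
  · obtain ⟨-, z, k, u, v, d⟩ := e.ad
    obtain ⟨x, h1, h2⟩ := d.ex4
    exact absurd (sq x h1) h2

end Cfsg.Agent.Lib.OD
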